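import Cfsg.Agent.L33E.BasC

/-!
# The certified climb: checked tables describe the tower
-/

set_option autoImplicit false

namespace Cfsg.Lib.L33E

variable {G : Type*} [Group G] {M : Md} {gs : List G} {D : Tw}

theorem evL_add_pow (gs : List G) {a h : ℕ} (b : ℕ) (ha : a < 2 ^ h) :
    evL gs (a + 2 ^ h * b) = evL gs a * evL gs (2 ^ h * b) := by
  induction gs generalizing a h with
  | nil => exact (mul_one _).symm
  | cons c l ih =>
    cases h with
    | zero =>
      obtain rfl : a = 0 := by simpa using ha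
      rw [evL_zero, one_mul, zero_add]
    | succ h =>
      rw [pow_succ] at ha
      rw [show 2 ^ (h + 1) * b = 2 ^ h * b * 2 by ring, evL_cons, evL_cons, evL_cons,
        show (a + 2 ^ h * b * 2) / 2 = a / 2 + 2 ^ h * b by omega,
        show (a + 2 ^ h * b * 2) % 2 = a % 2 by omega, ih (by omega), Nat.mul_mod_left,
        Nat.mul_div_cancel _ two_pos, if_neg zero_ne_one, one_mul, mul_assoc]

theorem log2_split {c : ℕ} (h : c ≠ 0) : 2 ^ c.log2 ≤ c ∧ c - 2 ^ c.log2 < 2 ^ c.log2 := by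
  have h1 := Nat.log2_self_le h
  have h2 := Nat.lt_log2_self (n := c)
  rw [pow_succ] at h2
  omega

/-- right multiplication by the code `y` is read off from the row `r` -/
def RowOK (gs : List G) (r y : ℕ) : Prop := ∀ x < 2 ^ gs.length,
  l1 r x < 2 ^ gs.length ∧ evL gs (l1 r x) = evL gs x * evL gs y

theorem col_ok {N m o : ℕ} {T : Tr} (h : colChk N T (pw m) = true) (hN : 2 ^ gs.length ≤ N)
    (hr : ∀ j < m, o + j < gs.length → RowOK gs (T.get (2 ^ j)) (2 ^ (o + j))) (c : ℕ)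
    (hc : c < 2 ^ m) (hc' : 2 ^ o * c < 2 ^ gs.length) : RowOK gs (T.get c) (2 ^ o * c) := by
  simp only [colChk, frc_eq, Bool.and_eq_true, Bool.or_eq_true, allN_iff, Nat.beq_eq, pw_eq,
    Nat.sub_eq] at h
  induction c using Nat.strong_induction_on with
  | _ c ih =>
  intro x hx
  rcases eq_or_ne c 0 with rfl | h0
  · rw [h.1 x (hx.trans_le hN), mul_zero, evL_zero, mul_one]
    exact ⟨hx, rfl⟩
  obtain ⟨h1, h2⟩ := log2_split h0
  have h3 := hr c.log2 ((Nat.pow_lt_pow_iff_right one_lt_two).1 (h1.trans_lt hc))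
    ((Nat.pow_lt_pow_iff_right one_lt_two).1 (lt_of_le_of_lt
      (pow_add 2 o _ ▸ Nat.mul_le_mul_left _ h1) hc'))
  rcases h.2 c hc with e | e | e
  · exact absurd e h0
  · rw [pow_add, ← e] at h3
    exact h3 x hx
  have h4 : c - 2 ^ c.log2 < c := Nat.sub_lt (Nat.pos_of_ne_zero h0) (by positivity)
  obtain ⟨h5, h6⟩ := ih _ h4 (h4.trans hc) (lt_of_le_of_lt (Nat.mul_le_mul_left _ h4.le) hc') x hx
  obtain ⟨h7, h8⟩ := h3 _ h5
  have h9 := evL_add_pow gs (a := 2 ^ o * (c - 2 ^ c.log2)) (h := o + c.log2) 1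
    (pow_add 2 o _ ▸ Nat.mul_lt_mul_of_pos_left h2 (by positivity))
  rw [mul_one, show 2 ^ o * (c - 2 ^ c.log2) + 2 ^ (o + c.log2) = 2 ^ o * c by
    rw [pow_add, ← mul_add, Nat.sub_add_cancel h1]] at h9
  rw [e x (hx.trans_le hN), h8, h6, h9, mul_assoc]
  exact ⟨h7, rfl⟩

/-- the part of `chkMd` on columns -/
structure ColOK (M : Md) : Prop where
  pow : M.N = 2 ^ M.n
  hn : M.h ≤ M.n
  lo : M.lo + 1 = 2 ^ M.h
  a : colChk M.N M.A (pw M.h) = true
  b : colChk M.N M.B (pw (Nat.sub M.n M.h)) = true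

theorem mul_ok (K : ColOK M) (hk : gs.length ≤ M.n)
    (hr : ∀ j < gs.length, RowOK gs (M.row j) (2 ^ j)) {x y : ℕ} (hx : x < 2 ^ gs.length)
    (hy : y < 2 ^ gs.length) :
    M.mul x y < 2 ^ gs.length ∧ evL gs (M.mul x y) = evL gs x * evL gs y := by
  have hN : 2 ^ gs.length ≤ M.N := K.pow ▸ Nat.pow_le_pow_right two_pos hk
  have e1 : Nat.land y M.lo = y % 2 ^ M.h := by
    rw [show M.lo = 2 ^ M.h - 1 from Nat.eq_sub_of_add_eq K.lo]
    exact Nat.and_two_pow_sub_one_eq_mod _ _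
  have e2 : Nat.shiftRight y M.h = y / 2 ^ M.h := Nat.shiftRight_eq_div_pow _ _
  have hm : y % 2 ^ M.h < 2 ^ M.h := Nat.mod_lt _ (by positivity)
  have hA := col_ok (o := 0) K.a hN (fun j hj hj' => by
    have := hr j (by omega)
    rw [Md.row, Nat.blt_eq.mpr hj, cond_true, pw_eq] at this
    rwa [zero_add]) _ hm
    (by rw [pow_zero, one_mul]; exact (Nat.mod_le _ _).trans_lt hy) x hx
  have hB := col_ok (o := M.h) K.b hN (fun j hj hj' => by
    have := hr _ hj'
    rwa [Md.row, show Nat.blt (M.h + j) M.h = false from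
      Bool.eq_false_iff.2 fun e => by simp [Nat.blt_eq] at e, cond_false, pw_eq, Nat.sub_eq,
      Nat.add_sub_cancel_left] at this) (y / 2 ^ M.h) (Nat.div_lt_of_lt_mul (by
      rw [← pow_add, Nat.sub_eq, Nat.add_sub_cancel' K.hn, ← K.pow]; exact hy.trans_le hN))
    ((Nat.mul_div_le _ _).trans_lt hy) _ hA.1
  rw [hA.2, pow_zero, one_mul, mul_assoc, ← evL_add_pow _ _ hm, Nat.mod_add_div] at hB
  rwa [Md.mul, e1, e2]

theorem Sat.len (S : Sat D gs) : gs.length = D.length := by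
  induction S with
  | nil => rfl
  | snoc _ _ _ _ ih => simp [ih]

theorem lt_or_add {x k : ℕ} (h : x < 2 ^ (k + 1)) : x < 2 ^ k ∨ ∃ y < 2 ^ k, x = y + 2 ^ k := by
  rw [pow_succ] at h
  exact (lt_or_ge x (2 ^ k)).imp_right fun e => ⟨x - 2 ^ k, by omega, by omega⟩

theorem lev_ok (K : ColOK M) (S : Sat D gs) (hk : gs.length ≤ M.n)
    (h : List.Forall₂ (fun k lv => levChk M k lv = true) (List.range gs.length) D) :
    (∀ j < gs.length, RowOK gs (M.row j) (2 ^ j)) ∧
      ∀ x < 2 ^ gs.length, ∀ y < 2 ^ gs.length, evL gs x = evL gs y → x = y := by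
  induction S with
  | nil => exact ⟨by simp, by simp⟩
  | @snoc D gs β sq g S h1 h2 h3 ih =>
  rw [List.length_append, List.length_singleton] at hk h ⊢
  rw [List.range_succ, ← List.forall₂_reverse_iff, List.reverse_concat', List.reverse_concat',
    List.forall₂_cons, List.forall₂_reverse_iff] at h
  obtain ⟨hP, hI⟩ := ih (by omega) h.2
  have hQ := @mul_ok _ _ _ _ K (by omega) hP
  have hl := h.1
  simp only [levChk, frc_eq, Md.rm_eq, Bool.and_eq_true, allN_iff, all2_iff, Nat.beq_eq, pw_eq,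
    Nat.blt_eq, Nat.add_eq] at hl
  obtain ⟨⟨⟨l1', l2'⟩, l3⟩, l4⟩ := hl
  have eg : evL (gs ++ [g]) (2 ^ gs.length) = g := by
    simpa [evL_zero] using evL_snoc_add gs g (x := 0) (by positivity)
  have hlt : ∀ {x}, x < 2 ^ gs.length → x < 2 ^ (gs.length + 1) ∧
      x + 2 ^ gs.length < 2 ^ (gs.length + 1) := fun h => by rw [pow_succ]; omega
  refine ⟨fun j hj x hx => ?_, fun x hx y hy e => ?_⟩
  · rw [List.length_append, List.length_singleton] at hx ⊢
    replace hx := lt_or_add hx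
    rcases Nat.lt_succ_iff_lt_or_eq.1 hj with hj | rfl
    · rw [evL_append_lt _ _ (Nat.pow_lt_pow_right one_lt_two hj)]
      rcases hx with hx | ⟨x, hx, rfl⟩
      · obtain ⟨a1, a2⟩ := hP j hj x hx
        rw [evL_append_lt _ _ a1, evL_append_lt _ _ hx]
        exact ⟨(hlt a1).1, a2⟩
      · have hj' : j < β.length := h1.length_eq ▸ hj
        obtain ⟨a1, a2⟩ := l4.get (i := j) (by simpa using hj) hj'
        have a3 := h1.get (i := j) hj hj'
        have a4 : gs.get ⟨j, hj⟩ = evL gs (2 ^ j) := by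
          simp only [List.get_eq_getElem, List.getElem_of_eq (gens_map gs).symm hj, gens,
            List.getElem_map, List.getElem_range, pw_eq]
        simp only [List.get_eq_getElem, List.getElem_range] at a1 a2 a3 a4
        obtain ⟨a5, a6⟩ := hQ hx a1
        rw [a2 x hx, evL_snoc_add _ _ a5, evL_snoc_add _ _ hx, a6, ← a3, a4]
        exact ⟨(hlt a5).2, by group⟩
    · rw [eg]
      rcases hx with hx | ⟨x, hx, rfl⟩
      · rw [l1' x hx, evL_snoc_add _ _ hx, evL_append_lt _ _ hx]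
        exact ⟨(hlt hx).2, rfl⟩
      · obtain ⟨a5, a6⟩ := hQ hx l2'
        rw [l3 x hx, evL_snoc_add _ _ hx, evL_append_lt _ _ a5, a6, ← h2, mul_assoc]
        exact ⟨(hlt a5).1, rfl⟩
  · have key : ∀ x < 2 ^ gs.length, ∀ y < 2 ^ gs.length, evL gs x ≠ evL gs y * g := by
      intro x hx y hy e
      obtain ⟨z, hz⟩ := Finite.injective_iff_surjective.1 (show Function.Injective
        fun z : Fin (2 ^ gs.length) => (⟨M.mul y z, (hQ hy z.2).1⟩ : Fin (2 ^ gs.length)) from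
        fun a b e => Fin.ext (hI _ a.2 _ b.2 (mul_left_cancel (a := evL gs y) (by
          rw [← (hQ hy a.2).2, ← (hQ hy b.2).2, show M.mul y a = M.mul y b from congrArg Fin.val e]))))
        ⟨x, hx⟩
      rw [← show M.mul y z = x from congrArg Fin.val hz, (hQ hy z.2).2] at e
      exact h3 z (mul_left_cancel e).symm
    have hx' := lt_or_add hx
    have hy' := lt_or_add hy
    clear hx hy
    rcases hx' with hx | ⟨x, hx, rfl⟩ <;> rcases hy' with hy | ⟨y, hy, rfl⟩
    · rw [evL_append_lt _ _ hx, evL_append_lt _ _ hy] at e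
      exact hI _ hx _ hy e
    · rw [evL_append_lt _ _ hx, evL_snoc_add _ _ hy] at e
      exact absurd e (key _ hx _ hy)
    · rw [evL_append_lt _ _ hy, evL_snoc_add _ _ hx] at e
      exact absurd e.symm (key _ hy _ hx)
    · rw [evL_snoc_add _ _ hx, evL_snoc_add _ _ hy] at e
      rw [hI _ hx _ hy (mul_right_cancel e)]

theorem ch_of (h : chkMd M D = true) (S : Sat D gs) : Ch M gs := by
  simp only [chkMd, frc_eq, Md.rm_eq, Bool.and_eq_true, Bool.or_eq_true, allN_iff, allL_iff,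
    all2_iff, Nat.beq_eq, Nat.blt_eq, Nat.ble_eq] at h
  obtain ⟨⟨⟨⟨⟨⟨⟨⟨⟨⟨c1, c2⟩, c3⟩, c4⟩, c5⟩, c6⟩, c7⟩, c8⟩, c9⟩, c10⟩, c11⟩ := h
  have hl : gs.length = M.n := S.len.trans c1.symm
  rw [pw_eq] at c3 c5
  have K : ColOK M := ⟨c3, c4, c5, c6, c7⟩
  obtain ⟨hP, hI⟩ := lev_ok K S hl.le (hl ▸ c8)
  have hQ := @mul_ok _ _ _ _ K hl.le hP
  rw [hl, ← c3] at hI hQ
  have hi : ∀ x, x < M.N → evL gs (M.inv x) = (evL gs x)⁻¹ := fun x hx =>
    eq_inv_of_mul_eq_one_right (by rw [← (hQ hx (c9 x hx).1).2, (c9 x hx).2, evL_zero])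
  have C : Ch { M with Lab := 0 } gs := ⟨hl, c2, c3, fun _ _ a b => (hQ a b).1,
    fun _ _ a b => (hQ a b).2, fun x hx => (c9 x hx).1, hi, fun x y a b => hI x a y b, c10,
    fun x _ _ _ e => absurd (by simp [l1]) e⟩
  refine { C with lab := fun x w hx hw e => ?_ }
  have hc : ∀ {w}, w < M.N → M.cj x w < M.N ∧
      evL gs (M.cj x w) = (evL gs w)⁻¹ * evL gs x * evL gs w :=
    fun hw => ⟨C.cj_lt hx hw, C.cj_eq hx hw⟩
  induction w using Nat.strong_induction_on with
  | _ w ih =>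
  rcases eq_or_ne w 0 with rfl | h0
  · rw [hI _ (hc hw).1 _ hx (by rw [(hc hw).2, evL_zero]; simp)]
  obtain ⟨h1, h2⟩ := log2_split h0
  have h4 : w - 2 ^ w.log2 < w := Nat.sub_lt (Nat.pos_of_ne_zero h0) (by positivity)
  have h5 := ih _ h4 (h4.trans hw)
  have hp := h1.trans_lt hw
  have h9 := evL_add_pow gs 1 h2
  rw [mul_one, Nat.sub_add_cancel h1] at h9
  obtain ⟨h6, h7⟩ := hc (h4.trans hw)
  have a1 := hQ h6 hp
  have a2 := hQ (c9 _ a1.1).1 hp
  rw [← h5, ← (c11 _ (List.mem_map.2 ⟨w.log2, List.mem_range.2 ((Nat.pow_lt_pow_iff_right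
    one_lt_two).1 (c3 ▸ hp)), pw_eq _⟩) _ h6).resolve_left (h5 ▸ e)]
  refine congrArg _ (hI _ (hc hw).1 _ (c9 _ a2.1).1 ?_)
  rw [(hc hw).2, hi _ a2.1, a2.2, hi _ a1.1, a1.2, h7, h9]
  group

end Cfsg.Lib.L33E
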