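import Cfsg.Agent.L33E.Bas

/-!
# The certified climb: the chart interface
-/

set_option autoImplicit false

namespace Cfsg.Lib.L33E

variable {G : Type*} [Group G] {M : Md} {gs : List G} {X : Subgroup G} {s : ℕ} {D : Tw} {E : Env}

theorem Ch.pos (C : Ch M gs) : 0 < M.N := by
  rw [C.pow]
  positivity

theorem Ch.ev_aux (C : Ch M gs) {xs : List ℕ} (h : ∀ x ∈ xs, x < M.N) (m : ℕ) :
    M.ev xs m < M.N ∧ evL gs (M.ev xs m) = evL (xs.map (evL gs)) m := by
  have : ∀ m acc r, acc < M.N → List.rec (motive := fun _ => ℕ → ℕ → ℕ) (fun _ acc => acc)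
      (fun c _ ih m acc => cond (Nat.beq m 0) acc (frc (Nat.shiftRight m 1) fun m' =>
        cond (Nat.beq (Nat.land m 1) 1) (frc (M.mul acc c) (ih m')) (ih m' acc))) xs m acc = r →
      r < M.N ∧ evL gs r = evL gs acc * evL (xs.map (evL gs)) m := by
    induction xs with
    | nil =>
      rintro m acc r ha rfl
      exact ⟨ha, (mul_one _).symm⟩
    | cons c l ih =>
      intro m acc r ha e
      have hc := h c List.mem_cons_self
      have ih := ih fun x hx => h x (List.mem_cons_of_mem _ hx)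
      have h2 : Nat.shiftRight m 1 = m / 2 := Nat.shiftRight_one m
      have h3 : Nat.land m 1 = m % 2 := Nat.and_one_is_mod m
      simp only [frc_eq] at ih e
      rw [List.map_cons, evL_cons]
      rcases Nat.eq_zero_or_pos m with rfl | hm
      · obtain rfl : acc = r := e
        simp [ha, evL_zero]
      rw [show Nat.beq m 0 = false from Bool.eq_false_iff.2 fun e => hm.ne' (Nat.eq_of_beq_eq_true e), cond_false, h2, h3] at e
      rcases Nat.mod_two_eq_zero_or_one m with e' | e'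
      · rw [e'] at e
        simpa [e'] using ih _ _ _ ha e
      · rw [e'] at e
        have := ih _ _ _ (C.lt _ _ ha hc) e
        rw [C.mul _ _ ha hc, mul_assoc] at this
        simpa [e'] using this
  have := this m 0 (M.ev xs m) C.pos rfl
  rwa [evL_zero, one_mul] at this

theorem Ch.ev_lt (C : Ch M gs) {xs : List ℕ} (h : ∀ x ∈ xs, x < M.N) (m : ℕ) : M.ev xs m < M.N :=
  (C.ev_aux h m).1

theorem Ch.ev_eq (C : Ch M gs) {xs : List ℕ} (h : ∀ x ∈ xs, x < M.N) (m : ℕ) :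
    evL gs (M.ev xs m) = evL (xs.map (evL gs)) m := (C.ev_aux h m).2

theorem Ch.cj_lt (C : Ch M gs) {x w : ℕ} (hx : x < M.N) (hw : w < M.N) : M.cj x w < M.N :=
  C.lt _ _ (C.lt _ _ (C.ilt _ hw) hx) hw

theorem Ch.cj_eq (C : Ch M gs) {x w : ℕ} (hx : x < M.N) (hw : w < M.N) :
    evL gs (M.cj x w) = (evL gs w)⁻¹ * evL gs x * evL gs w := by
  rw [← C.inv _ hw, ← C.mul _ _ (C.ilt _ hw) hx, ← C.mul _ _ (C.lt _ _ (C.ilt _ hw) hx) hw]
  rfl

theorem Ch.beq_iff (C : Ch M gs) {x y : ℕ} (hx : x < M.N) (hy : y < M.N) :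
    Nat.beq x y = true ↔ evL gs x = evL gs y := by
  rw [Nat.beq_eq]
  exact ⟨fun h => h ▸ rfl, C.inj _ _ hx hy⟩

theorem Ch.cm_iff (C : Ch M gs) {x y : ℕ} (hx : x < M.N) (hy : y < M.N) :
    M.cm x y = true ↔ Commute (evL gs x) (evL gs y) := by
  rw [Md.cm, C.beq_iff (C.lt _ _ hx hy) (C.lt _ _ hy hx), C.mul _ _ hx hy, C.mul _ _ hy hx]
  rfl

theorem cjT_eq {β : Type} (M : Md) (a b : ℕ) (k : (ℕ → Bool) → β) : M.cjT a b k =
    k fun y => Nat.beq (M.inv (M.mul y a)) (M.mul (M.inv y) (M.inv b)) := rfl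

theorem Ch.cjT_iff (C : Ch M gs) {a b y : ℕ} (ha : a < M.N) (hb : b < M.N) (hy : y < M.N) :
    Nat.beq (M.inv (M.mul y a)) (M.mul (M.inv y) (M.inv b)) = true ↔
      evL gs y * evL gs a = evL gs b * evL gs y := by
  rw [C.beq_iff (C.ilt _ (C.lt _ _ hy ha)) (C.lt _ _ (C.ilt _ hy) (C.ilt _ hb)),
    C.inv _ (C.lt _ _ hy ha), C.mul _ _ hy ha, C.mul _ _ (C.ilt _ hy) (C.ilt _ hb), C.inv _ hy,
    C.inv _ hb, ← mul_inv_rev, inv_inj]

theorem Ch.gens_lt (C : Ch M gs) : ∀ x ∈ gens M.n, x < M.N := by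
  intro x hx
  obtain ⟨j, hj, rfl⟩ := List.mem_map.1 hx
  rw [pw_eq, C.pow]
  exact Nat.pow_lt_pow_right one_lt_two (List.mem_range.1 hj)

theorem Ch.mem_iff (C : Ch M gs) {g : G} : g ∈ gen gs ↔ ∃ x < M.N, evL gs x = g := by
  refine ⟨fun h => ?_, fun ⟨x, _, e⟩ => e ▸ evL_mem _ _⟩
  induction h using Subgroup.closure_induction with
  | mem g hg =>
    rw [Set.mem_ofPred_eq, ← gens_map gs, C.len] at hg
    obtain ⟨x, hx, e⟩ := List.mem_map.1 hg
    exact ⟨x, C.gens_lt x hx, e⟩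
  | one => exact ⟨0, C.pos, evL_zero _⟩
  | mul _ _ _ _ h1 h2 =>
    obtain ⟨x, hx, rfl⟩ := h1
    obtain ⟨y, hy, rfl⟩ := h2
    exact ⟨_, C.lt _ _ hx hy, C.mul _ _ hx hy⟩
  | inv _ _ h1 =>
    obtain ⟨x, hx, rfl⟩ := h1
    exact ⟨_, C.ilt _ hx, C.inv _ hx⟩

theorem Ch.card (C : Ch M gs) : Nat.card (gen gs) = 2 ^ M.n := by
  rw [← C.pow, ← Nat.card_fin M.N]
  refine (Nat.card_eq_of_bijective (fun x : Fin M.N => (⟨evL gs x, evL_mem _ _⟩ : gen gs))
    ⟨fun x y e => Fin.ext (C.inj _ _ x.2 y.2 (congrArg Subtype.val e)), fun g => ?_⟩).symm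
  obtain ⟨x, hx, e⟩ := C.mem_iff.1 g.2
  exact ⟨⟨x, hx⟩, Subtype.ext e⟩

theorem Ch.isP (C : Ch M gs) : IsPGroup 2 (gen gs) := IsPGroup.of_card C.card

open Classical in
theorem Ch.sig_val (C : Ch M gs) {x : ℕ} (hx : x < M.N) : M.sig x = if evL gs x = 1 then 0 else
    if evL gs x ^ 2 = 1 then 1 else if evL gs x ^ 4 = 1 then 2 else 3 := by
  have h2 := C.lt _ _ hx hx
  have e2 : evL gs (M.mul x x) = evL gs x ^ 2 := by rw [C.mul _ _ hx hx, sq]
  have e4 : evL gs (M.mul (M.mul x x) (M.mul x x)) = evL gs x ^ 4 := by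
    rw [C.mul _ _ h2 h2, e2, ← pow_add]
  simp only [Md.sig, frc_eq, Bool.cond_eq_ite, C.beq_iff hx C.pos, C.beq_iff h2 C.pos,
    C.beq_iff (C.lt _ _ h2 h2) C.pos, e2, e4, evL_zero]

theorem Ch.sig_eq (C : Ch M gs) {x y : ℕ} (hx : x < M.N) (hy : y < M.N)
    (h : IsConj (evL gs x) (evL gs y)) : M.sig x = M.sig y := by
  have : ∀ n, evL gs x ^ n = 1 ↔ evL gs y ^ n = 1 := fun n =>
    ⟨fun e => isConj_one_right.1 (e ▸ h.pow n), fun e => isConj_one_left.1 (e ▸ h.pow n)⟩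
  have h1 := this 1
  rw [pow_one, pow_one] at h1
  classical
  rw [C.sig_val hx, C.sig_val hy]
  exact if_congr h1 rfl (if_congr (this 2) rfl (if_congr (this 4) rfl rfl))

theorem Ch.sig_one (C : Ch M gs) {x : ℕ} (hx : x < M.N) : M.sig x = 1 ↔ orderOf (evL gs x) = 2 := by
  rw [C.sig_val hx, orderOf_eq_prime_iff]
  split_ifs <;> simp [*]

theorem Ch.sig_two (C : Ch M gs) {x : ℕ} (hx : x < M.N) : M.sig x = 2 ↔ orderOf (evL gs x) = 4 := by
  have : orderOf (evL gs x) = 4 ↔ ¬ evL gs x ^ 2 = 1 ∧ evL gs x ^ 4 = 1 :=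
    ⟨fun e => by simp only [← orderOf_dvd_iff_pow_eq_one, e]; decide,
      fun e => orderOf_eq_prime_pow (p := 2) (n := 1) e.1 e.2⟩
  rw [C.sig_val hx, this]
  split_ifs <;> simp [*]

theorem spanL_foldl {β : Type} (M : Md) (xs : List ℕ) (k : List ℕ → β) : M.spanL xs k =
    k (xs.foldl (fun acc c => acc ++ acc.map fun x => M.mul x c) [0]) := by
  have : ∀ acc, List.rec (motive := fun _ => List ℕ → β) k
      (fun c _ ih acc => M.rm c fun r => mapK r acc fun t => mapK id (acc ++ t) ih) xs acc =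
      k (xs.foldl (fun acc c => acc ++ acc.map fun x => M.mul x c) acc) := by
    induction xs with
    | nil => exact fun _ => rfl
    | cons c l ih =>
      intro acc
      rw [List.foldl_cons, ← ih]
      exact (mapK_eq _ _ _).trans ((mapK_eq _ _ _).trans (by rw [List.map_id]; rfl))
  exact this _

theorem Ch.spanL_eq {β : Type} (M : Md) (xs : List ℕ) (k : List ℕ → β) :
    ∃ l : List ℕ, M.spanL xs k = k l ∧ l.length = 2 ^ xs.length ∧ ∀ {gs : List G}, Ch M gs →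
      (∀ x ∈ xs, x < M.N) → ∀ m < 2 ^ xs.length, l.getD m 0 < M.N ∧
        evL gs (l.getD m 0) = evL (xs.map (evL gs)) m := by
  refine ⟨_, spanL_foldl M xs k, ?_⟩
  induction xs using List.reverseRecOn with
  | nil =>
    refine ⟨rfl, fun C _ m hm => ?_⟩
    obtain rfl : m = 0 := by simpa using hm
    exact ⟨C.pos, evL_zero _⟩
  | append_singleton l c ih =>
    rw [List.foldl_concat, List.length_append, List.length_map, List.length_append,
      List.length_singleton, pow_succ]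
    generalize l.foldl (fun acc c => acc ++ acc.map fun x => M.mul x c) [0] = L at ih ⊢
    obtain ⟨h1, h2⟩ := ih
    refine ⟨by omega, fun {gs} C hb m hm => ?_⟩
    have h2 := h2 C fun x hx => hb x (List.mem_append_left _ hx)
    have hc := hb c (by simp)
    rw [List.map_append, List.map_singleton]
    rcases lt_or_ge m (2 ^ l.length) with h | h
    · rw [List.getD_append _ _ _ _ (h1 ▸ h), evL_append_lt _ _ (by rwa [List.length_map])]
      exact h2 m h
    · obtain ⟨m, rfl⟩ : ∃ j, m = j + 2 ^ l.length := ⟨_, (Nat.sub_add_cancel h).symm⟩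
      have hm' : m < 2 ^ l.length := by omega
      have := evL_snoc_add (l.map (evL gs)) (evL gs c) (x := m) (by rwa [List.length_map])
      rw [List.length_map] at this
      obtain ⟨h3, h4⟩ := h2 m hm'
      rw [List.getD_append_right _ _ _ _ (h1 ▸ h), h1, Nat.add_sub_cancel, this, ← h4,
        List.getD_eq_getElem _ _ (by rwa [List.length_map, h1]), List.getElem_map,
        ← List.getD_eq_getElem _ 0]
      exact ⟨C.lt _ _ h3 hc, C.mul _ _ h3 hc⟩

/-- membership form of `spanL_eq` -/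
theorem Ch.spanL_mem {β : Type} (C : Ch M gs) {xs : List ℕ} (hb : ∀ x ∈ xs, x < M.N)
    (k : List ℕ → β) : ∃ l : List ℕ, M.spanL xs k = k l ∧
      ∀ x, x ∈ l ↔ x < M.N ∧ ∃ m, evL gs x = evL (xs.map (evL gs)) m := by
  obtain ⟨l, h1, h2, h3⟩ := Ch.spanL_eq (G := G) M xs k
  refine ⟨l, h1, fun x => ⟨fun hx => ?_, fun ⟨hx, m, e⟩ => ?_⟩⟩
  · obtain ⟨i, hi, rfl⟩ := List.getElem_of_mem hx
    have := h3 C hb i (h2 ▸ hi)
    rw [List.getD_eq_getElem _ _ hi] at this
    exact ⟨this.1, i, this.2⟩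
  · have hm : m % 2 ^ xs.length < 2 ^ xs.length := Nat.mod_lt _ (by positivity)
    have := h3 C hb _ hm
    rw [List.getD_eq_getElem _ _ (h2 ▸ hm)] at this
    rw [← evL_mod _ m, List.length_map, ← this.2] at e
    exact C.inj _ _ hx this.1 e ▸ List.getElem_mem _

theorem Ch.span_mask (C : Ch M gs) {xs : List ℕ} (hb : ∀ x ∈ xs, x < M.N) {k : ℕ → Bool}
    (h : M.spanL xs (fun l => frc (maskL l) k) = true) : ∃ m, k m = true ∧
      ∀ x, bit m x = true → x < M.N ∧ evL gs x ∈ gen (xs.map (evL gs)) := by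
  obtain ⟨l, h1, h2⟩ := C.spanL_mem hb fun l => frc (maskL l) k
  refine ⟨maskL l, h1.symm.trans h, fun x hx => ?_⟩
  obtain ⟨h3, m, e⟩ := (h2 x).1 ((bit_maskL _ _).1 hx)
  exact ⟨h3, e ▸ evL_mem _ _⟩

theorem Ch.sub (C : Ch M gs) {xs : List ℕ} {k : List ℕ → ℕ → Bool} (h : M.sub xs k = true) :
    (∀ x ∈ xs, x < M.N) ∧ ∃ l m, k l m = true ∧
      ∀ x, bit m x = true ↔ x < M.N ∧ evL gs x ∈ gen (xs.map (evL gs)) := by
  rw [Md.sub, Bool.and_eq_true, bnd_iff] at h
  obtain ⟨hb, h⟩ := h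
  obtain ⟨l, h1, h2⟩ := C.spanL_mem hb fun l => frc (maskL l) fun m =>
    allL (fun c => M.rm c fun r => allL (fun x => bit m (r x)) l) xs && k l m
  rw [h1] at h
  simp only [frc_eq, Md.rm_eq, Bool.and_eq_true, allL_iff, bit_maskL] at h
  refine ⟨hb, l, _, h.2, fun x => (bit_maskL _ _).trans ⟨fun hx => ?_, fun ⟨hx, hg⟩ => ?_⟩⟩
  · obtain ⟨h3, m, e⟩ := (h2 x).1 hx
    exact ⟨h3, e ▸ evL_mem _ _⟩
  have key : ∀ g ∈ gen (xs.map (evL gs)), Set.MapsTo (· * g) (evL gs '' {y | y ∈ l})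
      (evL gs '' {y | y ∈ l}) := by
    intro g hg
    induction hg using Subgroup.closure_induction with
    | mem g hg =>
      obtain ⟨c, hc, rfl⟩ := List.mem_map.1 hg
      rintro _ ⟨y, hy, rfl⟩
      exact ⟨_, h.1 c hc y hy, C.mul _ _ ((h2 y).1 hy).1 (hb c hc)⟩
    | one => exact fun y hy => by simpa using hy
    | mul _ _ _ _ h3 h4 => exact fun y hy => by simpa [mul_assoc] using h4 (h3 hy)
    | inv g _ h3 =>
      intro y hy
      obtain ⟨z, hz, rfl⟩ := ((((List.finite_toSet l).image _).injOn_iff_bijOn_of_mapsTo h3).1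
        (mul_left_injective g).injOn).surjOn hy
      simpa using hz
  obtain ⟨y, hy, e⟩ := key _ hg ⟨0, (h2 0).2 ⟨C.pos, 0, by rw [evL_zero, evL_zero]⟩, rfl⟩
  simp only [evL_zero, one_mul] at e
  exact C.inj _ _ ((h2 y).1 hy).1 hx e ▸ hy

theorem Ch.low (C : Ch M gs) {xs : List ℕ} (h : M.low xs = true) : (∀ x ∈ xs, x < M.N) ∧
    ∀ m < 2 ^ xs.length, ∀ m' < 2 ^ xs.length,
      evL (xs.map (evL gs)) m = evL (xs.map (evL gs)) m' → m = m' := by
  rw [Md.low, Bool.and_eq_true, bnd_iff] at h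
  obtain ⟨hb, h⟩ := h
  obtain ⟨l, h1, h2, h3⟩ := Ch.spanL_eq (G := G) M xs nodupM
  rw [h1, nodupM_iff] at h
  refine ⟨hb, fun m hm m' hm' e => ?_⟩
  obtain ⟨h4, h5⟩ := h3 C hb m hm
  obtain ⟨h6, h7⟩ := h3 C hb m' hm'
  have := C.inj _ _ h4 h6 (by rw [h5, h7, e])
  rwa [List.getD_eq_getElem _ _ (h2 ▸ hm), List.getD_eq_getElem _ _ (h2 ▸ hm'),
    h.getElem_inj_iff] at this

theorem evL_mem_of {U : Subgroup G} (h : ∀ g ∈ gs, g ∈ U) (m : ℕ) : evL gs m ∈ U :=
  (Subgroup.closure_le U).2 h (evL_mem gs m)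

theorem Ch.low_card [Finite G] (C : Ch M gs) {xs : List ℕ} (h : M.low xs = true) {U : Subgroup G}
    (hU : ∀ x ∈ xs, evL gs x ∈ U) : 2 ^ xs.length ≤ Nat.card U := by
  rw [← Nat.card_fin (2 ^ xs.length)]
  exact Nat.card_le_card_of_injective (fun m : Fin (2 ^ xs.length) =>
    (⟨evL (xs.map (evL gs)) m, evL_mem_of (List.forall_mem_map.2 hU) _⟩ : U))
    fun a b e => Fin.ext ((C.low h).2 _ a.2 _ b.2 (congrArg Subtype.val e))

/-- a subgroup all of whose elements have codes in `l` has at most `l.length` elements -/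
theorem card_le_of_codes [Finite G] (gs : List G) {U : Subgroup G} {l : List ℕ} (g : G)
    (h : ∀ u ∈ U, ∃ x ∈ l, g⁻¹ * u * g = evL gs x) : Nat.card U ≤ l.length := by
  have : ∀ u : U, ∃ i : Fin l.length, g⁻¹ * u * g = evL gs (l.get i) := fun u => by
    obtain ⟨x, hx, e⟩ := h u u.2
    obtain ⟨i, rfl⟩ := List.mem_iff_get.1 hx
    exact ⟨i, e⟩
  choose f hf using this
  rw [← Nat.card_fin l.length]
  refine Nat.card_le_card_of_injective f fun a b e => Subtype.ext ?_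
  simpa using (hf a).trans ((e ▸ hf b : g⁻¹ * b * g = evL gs (l.get (f a))).symm)

/-- distinct codes of elements of a subgroup bound its order from below -/
theorem Ch.le_card [Finite G] (C : Ch M gs) {U : Subgroup G} {l : List ℕ} (hl : l.Nodup)
    (h : ∀ x ∈ l, x < M.N ∧ evL gs x ∈ U) : l.length ≤ Nat.card U := by
  rw [← Nat.card_fin l.length]
  exact Nat.card_le_card_of_injective (fun i : Fin l.length =>
    (⟨evL gs (l.get i), (h _ (List.get_mem _ _)).2⟩ : U)) fun a b e => hl.get_inj_iff.1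
      (C.inj _ _ (h _ (List.get_mem _ _)).1 (h _ (List.get_mem _ _)).1 (congrArg Subtype.val e))

theorem Ch.by_eq (C : Ch M gs) {bs ms as : List ℕ} (hb : ∀ x ∈ bs, x < M.N) (h : M.by bs ms as = true) :
    List.Forall₂ (fun m a => a < M.N ∧ evL gs a = evL (bs.map (evL gs)) m) ms as :=
  (all2_iff.1 h).imp fun m _ e => Nat.eq_of_beq_eq_true e ▸ C.ev_aux hb m

theorem St.pow_le (S : St X s D gs) (C : Ch M gs) : 2 ^ s ≤ M.N :=
  C.pow ▸ Nat.pow_le_pow_right two_pos (C.len ▸ S.sle)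

theorem St.card_le (S : St X s D gs) {U : Subgroup G} (hU : IsPGroup 2 U)
    (hc : ∀ u ∈ U, Commute u (evL gs 1)) : Nat.card U ≤ 2 ^ s :=
  S.big U hU (fun u hu _ hx => List.mem_singleton.1 hx ▸ hc u hu) fun _ _ _ hx => by simp at hx

/-- the centraliser of `t` in the chart consists of the codes below `2^s` -/
theorem St.lt_of_comm [Finite G] (S : St X s D gs) (C : Ch M gs) {x : ℕ} (hx : x < M.N)
    (h : Commute (evL gs x) (evL gs 1)) : x < 2 ^ s := by
  by_contra hn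
  have h1 := S.card_le (U := gen gs ⊓ Subgroup.centralizer {evL gs 1}) C.isP.to_inf_left
    fun u hu => Subgroup.mem_centralizer_singleton_iff.1 hu.2
  have h2 := C.le_card (U := gen gs ⊓ Subgroup.centralizer {evL gs 1}) (l := x :: List.range (2 ^ s))
    (List.nodup_cons.2 ⟨by simpa using hn, List.nodup_range⟩) (List.forall_mem_cons.2
      ⟨⟨hx, evL_mem _ _, Subgroup.mem_centralizer_singleton_iff.2 h⟩, fun y hy =>
        ⟨(List.mem_range.1 hy).trans_le (S.pow_le C), evL_mem _ _,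
          Subgroup.mem_centralizer_singleton_iff.2 (S.cen y (List.mem_range.1 hy))⟩⟩)
  rw [List.length_cons, List.length_range] at h2
  omega

/-- a 2-subgroup of the centraliser of `t` is conjugate into the first `2^s` codes -/
theorem St.conj_in [Finite G] (S : St X s D gs) (C : Ch M gs) {U : Subgroup G} (hU : IsPGroup 2 U)
    (hc : ∀ u ∈ U, Commute u (evL gs 1)) : ∃ g : G, Commute g (evL gs 1) ∧
      ∀ u ∈ U, ∃ y < 2 ^ s, g⁻¹ * u * g = evL gs y := by
  set H := Subgroup.centralizer {evL gs 1}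
  have hH : ∀ {u}, u ∈ H ↔ Commute u (evL gs 1) := Subgroup.mem_centralizer_singleton_iff
  obtain ⟨Q, hQ⟩ := (C.isP.comap_subtype (K := H)).exists_le_sylow
  obtain ⟨R, hR⟩ := (hU.comap_subtype (K := H)).exists_le_sylow
  obtain ⟨g, rfl⟩ := MulAction.exists_smul_eq H Q R
  have h1 := S.card_le (Q.isPGroup'.map H.subtype) fun u hu => hH.1 (Subgroup.map_subtype_le _ hu)
  have h2 := C.le_card (U := gen gs ⊓ H) (l := List.range (2 ^ s)) List.nodup_range fun y hy =>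
    ⟨(List.mem_range.1 hy).trans_le (S.pow_le C), evL_mem _ _, hH.2 (S.cen y (List.mem_range.1 hy))⟩
  rw [List.length_range] at h2
  have h3 : gen gs ⊓ H = (Q : Subgroup H).map H.subtype :=
    Subgroup.eq_of_le_of_card_ge (fun u hu => ⟨⟨u, hu.2⟩, hQ hu.1, rfl⟩) (h1.trans h2)
  refine ⟨g, hH.1 g.2, fun u hu => ?_⟩
  have h4 := hR (show (⟨u, hH.2 (hc u hu)⟩ : H) ∈ U.comap H.subtype from hu)
  rw [Sylow.coe_subgroup_smul, Subgroup.mem_pointwise_smul_iff_inv_smul_mem] at h4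
  have h5 : (g : G)⁻¹ * u * g ∈ gen gs ⊓ H := h3 ▸ ⟨_, h4, by simp⟩
  obtain ⟨y, hy, e⟩ := C.mem_iff.1 h5.1
  exact ⟨y, S.lt_of_comm C hy (e ▸ hH.1 h5.2), e.symm⟩

end Cfsg.Lib.L33E
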