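import Cfsg.Agent.L33E.Der

/-!
# The certified climb: the normal subgroup of index at most two, small contradictions
-/

set_option autoImplicit false

namespace Cfsg.Lib.L33E

variable {G : Type*} [Group G] {M : Md} {gs : List G} {X : Subgroup G} {s : ℕ} {D : Tw} {E : Env}

namespace Xs

open Subgroup

theorem mul_iff {t : G} (A : Amb X t) (a b : G) : a * b ∈ X ↔ (a ∈ X ↔ b ∈ X) := by
  by_cases ha : a ∈ X
  · simp [ha, mul_mem_cancel_left]
  by_cases hb : b ∈ X
  · simp [ha, hb, mul_mem_cancel_right]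
  have h1 := (A.idx a).resolve_left ha
  have h2 := (A.idx b⁻¹).resolve_left fun h => hb (inv_mem_iff.1 h)
  have := mul_mem h1 (inv_mem h2)
  rw [show a * t * (b⁻¹ * t)⁻¹ = a * b by group] at this
  simp [ha, hb, this]

theorem conj_iff {t : G} (A : Amb X t) (g a : G) : g⁻¹ * a * g ∈ X ↔ a ∈ X :=
  ⟨fun h => by simpa [mul_assoc] using A.nrm.conj_mem _ h g, fun h => A.nrm.conj_mem' _ h g⟩

theorem exists_c {t : G} (A : Amb X t) (gs : List G) (hl : gs.length ≤ 12) :
    ∃ c, XC X gs c ∧ ((∀ g, g ∈ X) → c = 0) := by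
  classical
  induction gs with
  | nil =>
    refine ⟨0, ⟨by simp, fun x _ => ?_⟩, fun _ => rfl⟩
    have : Nat.land x 0 = 0 := Nat.and_zero x
    rw [this]
    exact iff_of_true (one_mem _) rfl
  | cons g cs ih =>
    obtain ⟨c, ⟨h1, h2⟩, h3⟩ := ih (by simp at hl; omega)
    have hp : 2 ^ (g :: cs).length ≤ 4096 := Nat.pow_le_pow_right (n := 2) two_pos hl
    rw [List.length_cons, pow_succ] at hp
    refine ⟨(if g ∈ X then 0 else 1) + 2 * c, ⟨?_, fun x hx => ?_⟩, fun h => by simp [h, h3 h]⟩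
    · rw [List.length_cons, pow_succ]; split_ifs <;> omega
    rw [List.length_cons, pow_succ] at hx
    set c' := (if g ∈ X then 0 else 1) + 2 * c with hc'
    have e1 : Nat.land x c' / 2 = Nat.land (x / 2) c := by
      have : c' / 2 = c := by rw [hc']; split_ifs <;> omega
      exact this ▸ Nat.and_div_two
    have e2 : Nat.land x c' % 2 = 1 ↔ x % 2 = 1 ∧ g ∉ X := by
      have : c' % 2 = 1 ↔ g ∉ X := by rw [hc']; split_ifs with h <;> simp [h]
      exact Nat.and_mod_two_eq_one.trans (and_congr_right' this)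
    have e3 : Nat.land x c' < 4096 := lt_of_le_of_lt Nat.and_le_left (by omega)
    rw [evL_cons, mul_iff A, h2 _ (by omega), par_step _ e3, e1]
    have := par_le (Nat.land (x / 2) c)
    by_cases hx2 : x % 2 = 1 <;> by_cases hg : g ∈ X <;>
      simp only [hx2, hg, not_true, not_false_iff, and_true, and_false, iff_true, iff_false,
        if_true, if_false, one_mem, true_iff, false_iff] at e2 ⊢ <;> omega

theorem lt_pow (C : Ch M gs) {x : ℕ} : x < 2 ^ gs.length ↔ x < M.N := by rw [C.len, C.pow]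

theorem gen_le {cs : List ℕ} : gen (cs.map (evL gs)) ≤ gen gs := (closure_le _).2 fun x hx => by
  obtain ⟨y, -, rfl⟩ := List.mem_map.1 hx
  exact evL_mem gs y

theorem comm_gen {xs : List G} {e : G} (h : ∀ x ∈ xs, Commute x e) {u : G} (hu : u ∈ gen xs) :
    Commute u e :=
  mem_centralizer_singleton_iff.1 ((closure_le (centralizer {e})).2
    (fun x hx => mem_centralizer_singleton_iff.2 (h x hx)) hu)

theorem comm_sup {U V : Subgroup G} {e : G} (h : ∀ x ∈ U, Commute x e) (h' : ∀ x ∈ V, Commute x e)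
    {u : G} (hu : u ∈ U ⊔ V) : Commute u e :=
  mem_centralizer_singleton_iff.1 (sup_le (c := centralizer {e})
    (fun x hx => mem_centralizer_singleton_iff.2 (h x hx))
    (fun x hx => mem_centralizer_singleton_iff.2 (h' x hx)) hu)

theorem comm_conj {a b : G} (h : Commute a b) (g : G) : Commute (g⁻¹ * a * g) (g⁻¹ * b * g) := by
  rw [Commute, SemiconjBy, show g⁻¹ * a * g * (g⁻¹ * b * g) = g⁻¹ * (a * b) * g by group, h.eq]
  group

end Xs

open Xs Der

theorem xsplit [Finite G] (S : St X s D gs) (C : Ch M gs) {Fs : List Pr} (hF : AllL Fs (FusC gs))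
    {K : List (ℕ × ℕ × ℕ)} {cs : List ℕ} (h : chkX M Fs K cs = true) : AnyL cs (XC X gs) := by
  simp only [chkX, Bool.and_eq_true, allL_iff, bnd_iff, mapK_eq, allN_iff, Bool.or_eq_true,
    anyL_iff, memN_iff, Nat.beq_eq, Nat.ble_eq, Nat.blt_eq, Bool.not_eq_true'] at h
  obtain ⟨⟨h1, h2⟩, h3⟩ := h
  have hP := getD_ok (P := fun F => FusC gs F ∧ (∀ x ∈ F.1, x < M.N) ∧ ∀ x ∈ F.2, x < M.N)
    ⟨fus_refl _, by simp, by simp⟩ fun F h => ⟨AllL_iff.1 hF F h, h1 F h⟩
  obtain ⟨c, hc, h0⟩ := exists_c S.amb gs (C.len ▸ C.n12)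
  rcases h3 c ((lt_pow C).1 hc.1) with (⟨x, hx, hp⟩ | h) | ⟨h, h'⟩
  · obtain ⟨e, he, rfl⟩ := List.mem_map.1 hx
    have : xel M Fs e < M.N ∧ evL gs (xel M Fs e) ∈ X := by
      unfold xel
      cases e0 : Nat.beq e.1 0
      · cases e1 : Nat.beq e.1 1
        · obtain ⟨⟨g, hg⟩, b1, b2⟩ := hP e.2.1
          have a1 := C.ev_lt b1 e.2.2
          have a2 := C.ev_lt b2 e.2.2
          refine ⟨C.lt _ _ (C.ilt _ a1) a2, ?_⟩
          rw [cond_false, cond_false, C.mul _ _ (C.ilt _ a1) a2, C.inv _ a1, C.ev_eq b1, C.ev_eq b2,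
            ← hg.evL, mul_iff S.amb, conj_iff S.amb, inv_mem_iff]
        · obtain ⟨a1, a2⟩ := (h2 e he).resolve_left (by rw [Nat.eq_of_beq_eq_true e1]; decide)
          have a3 := C.cj_lt a1 a2
          refine ⟨C.lt _ _ (C.ilt _ a1) a3, ?_⟩
          rw [cond_false, cond_true, C.mul _ _ (C.ilt _ a1) a3, C.inv _ a1, C.cj_eq a1 a2,
            mul_iff S.amb, conj_iff S.amb, inv_mem_iff]
      · obtain ⟨a1, -⟩ := (h2 e he).resolve_left (by rw [Nat.eq_of_beq_eq_true e0]; decide)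
        refine ⟨C.lt _ _ a1 a1, ?_⟩
        rw [cond_true, C.mul _ _ a1 a1, mul_iff S.amb]
    rw [(hc.2 _ ((lt_pow C).2 this.1)).1 this.2] at hp
    exact absurd hp (by decide)
  · exact AnyL_iff.2 ⟨c, h, hc⟩
  · have h1' : 1 < 2 ^ gs.length := Nat.one_lt_two_pow (by have := S.s5; have := S.sle; omega)
    have ht : evL gs 1 ∈ X := (hc.2 1 h1').2 (by
      rw [show Nat.land 1 c = Nat.land c 1 from Nat.and_comm 1 c, h']; rfl)
    rw [h0 fun g => (S.amb.idx g).elim id fun h => (X.mul_mem_cancel_right ht).1 h] at h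
    exact absurd h (by decide)

theorem XC.xp (S : St X s D gs) {c : ℕ} (h : XC X gs c) : XP gs c := fun g x y hx hy e => by
  have := (h.2 x hx).symm.trans ((conj_iff S.amb g _).symm.trans (e ▸ h.2 y hy))
  have a := par_le (Nat.land x c)
  have b := par_le (Nat.land y c)
  omega

theorem xp0 (gs : List G) : XP gs 0 := fun _ x y _ _ _ => by
  rw [show Nat.land x 0 = 0 from Nat.and_zero x, show Nat.land y 0 = 0 from Nat.and_zero y]

theorem kKap (S : St X s D gs) {x y : ℕ} (hF : FusC gs ([1, x], [1, y]))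
    (h : (Nat.blt x (pw s) && Nat.blt y (pw s) && !Nat.beq (Nat.land x 33) (Nat.land y 33)) = true) :
    False := by
  simp only [Bool.and_eq_true, Nat.blt_eq, pw_eq, Bool.not_eq_true'] at h
  obtain ⟨g, hg⟩ := hF
  obtain ⟨a, b⟩ := List.forall₂_cons.1 hg
  have c : Commute g (evL gs 1) := by
    rw [mul_assoc, inv_mul_eq_iff_eq_mul] at a
    exact a.symm
  rw [S.kap g c x y h.1.1 h.1.2 (List.forall₂_cons.1 b).1, Nat.beq_refl] at h
  exact absurd h.2 (by decide)

theorem kX (C : Ch M gs) {c x y : ℕ} (hX : XP gs c) (hF : FusC gs ([x], [y]))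
    (h : (Nat.blt x M.N && Nat.blt y M.N &&
      !Nat.beq (par (Nat.land x c)) (par (Nat.land y c))) = true) : False := by
  simp only [Bool.and_eq_true, Nat.blt_eq, Bool.not_eq_true'] at h
  obtain ⟨g, hg⟩ := hF
  rw [hX g x y ((lt_pow C).2 h.1.1) ((lt_pow C).2 h.1.2) (List.forall₂_cons.1 hg).1,
    Nat.beq_refl] at h
  exact absurd h.2 (by decide)

theorem nc_big [Finite G] (S : St X s D gs) (C : Ch M gs) {e : ℕ} {cs : List ℕ}
    (h : chkBig M s e cs = true) : ¬ IsConj (evL gs e) (evL gs 1) := by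
  simp only [chkBig, Bool.and_eq_true, Nat.blt_eq, allL_iff] at h
  obtain ⟨⟨⟨h1, h2⟩, h3⟩, h4⟩ := h
  intro hc
  obtain ⟨g, hg⟩ := isConj_iff.1 hc
  have a := S.card_le (U := (gen (cs.map (evL gs))).map (MulAut.conj g).toMonoidHom)
    ((C.isP.to_le gen_le).map _) (by
      rintro _ ⟨u, hu, rfl⟩
      have := comm_conj (comm_gen (e := evL gs e) (fun x hx => by
        obtain ⟨y, hy, rfl⟩ := List.mem_map.1 hx
        exact ((C.cm_iff h1 ((C.low h4).1 y hy)).1 (h3 y hy)).symm) hu) g⁻¹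
      rwa [inv_inv, hg] at this)
  rw [Subgroup.card_map_of_injective (MulAut.conj g).injective] at a
  have b := C.low_card h4 (U := gen (cs.map (evL gs))) fun x hx =>
    Subgroup.subset_closure (List.mem_map_of_mem hx)
  exact absurd (b.trans a) (not_le.2 (Nat.pow_lt_pow_right one_lt_two h2))

theorem cf_of (C : Ch M gs) {xZ : ℕ × ℕ} {reps : List ℕ}
    (hr : AllL reps fun r => ¬ IsConj (evL gs r) (evL gs xZ.1)) (h : chkCF M xZ reps = true) :
    CF gs xZ := by
  simp only [chkCF, Bool.and_eq_true, Nat.blt_eq, frc_eq, allN_iff, Bool.or_eq_true, memN_iff,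
    Bool.not_eq_true'] at h
  intro g y hy e
  have hy' := (lt_pow C).1 hy
  have c : IsConj (evL gs xZ.1) (evL gs y) := isConj_iff.2 ⟨g⁻¹, by rwa [inv_inv]⟩
  rcases h.2 y hy' with (a | a) | a
  · exact a
  · rw [C.sig_eq h.1 hy' c, Nat.beq_refl] at a
    exact absurd a (by decide)
  · refine absurd (c.trans ?_).symm (AllL_iff.1 hr _ a)
    exact isConj_iff.2 ⟨(evL gs (l1 M.W y))⁻¹, by rw [inv_inv, C.cj_eq hy' (C.wlt y hy')]⟩

theorem nbp [Finite G] (S : St X s D gs) (C : Ch M gs) {v m : ℕ} (h : chkNbp M s v m = true) :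
    NB [evL gs v, evL gs 1] [] m := by
  simp only [chkNbp, Bool.and_eq_true, Nat.blt_eq, allN_iff, Bool.or_eq_true, cjT_eq, filN_eq,
    Nat.ble_eq, pw_eq, Bool.not_eq_true'] at h
  intro U hU hc _
  have hv : ∀ u ∈ U, Commute u (evL gs v) := fun u hu => hc u hu _ (by simp)
  have hV : IsPGroup 2 ↥(U ⊔ Subgroup.zpowers (evL gs v)) :=
    hU.to_sup_of_normal_left' (C.isP.to_le ((Subgroup.zpowers_le).2 (evL_mem gs v)))
      ((Subgroup.zpowers_le).2 (Subgroup.centralizer_le_normalizer _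
        fun u hu => (hv u hu).eq))
  obtain ⟨g, hg, hy⟩ := S.conj_in C hV fun u hu => comm_sup (fun u hu => hc u hu _ (by simp))
    (fun x hx => by
      obtain ⟨k, rfl⟩ := hx
      exact (S.cen v h.1).zpow_left k) hu
  obtain ⟨y, hy1, hy2⟩ := hy _ (Subgroup.mem_sup_right (Subgroup.mem_zpowers _))
  have N := S.pow_le C
  rcases h.2 y hy1 with (a | a) | a
  · rw [S.kap g hg v y h.1 hy1 hy2, Nat.beq_refl] at a
    exact absurd a (by decide)
  · rw [C.sig_eq (h.1.trans_le N) (hy1.trans_le N) (isConj_iff.2 ⟨g⁻¹, by rwa [inv_inv]⟩),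
      Nat.beq_refl] at a
    exact absurd a (by decide)
  · refine (card_le_of_codes gs g fun u hu => ?_).trans a
    obtain ⟨x, hx1, hx2⟩ := hy u (Subgroup.mem_sup_left hu)
    refine ⟨x, List.mem_filter.2 ⟨List.mem_range.2 hx1, (C.cjT_iff (hy1.trans_le N)
      (hy1.trans_le N) (hx1.trans_le N)).2 ?_⟩, hx2⟩
    rw [← hx2, ← hy2]
    exact (comm_conj (hv u hu) g).eq

end Cfsg.Lib.L33E
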