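import Cfsg.Agent.L33E.Chk

/-!
# The certified climb: list tools and evaluation of codes
-/

set_option autoImplicit false

namespace Cfsg.Lib.L33E

variable {G : Type*} [Group G] {M : Md} {gs : List G}

theorem allN_iff {p : ℕ → Bool} {n : ℕ} : allN p n = true ↔ ∀ k < n, p k = true := by
  induction n with
  | zero => simp [allN]
  | succ n ih =>
    rw [show allN p (n + 1) = cond (p n) (allN p n) false from rfl, Nat.forall_lt_succ_right, ← ih]
    cases p n <;> simp

theorem allL_iff {α : Type} {p : α → Bool} {l : List α} : allL p l = true ↔ ∀ x ∈ l, p x = true := by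
  induction l with
  | nil => simp [allL]
  | cons a l ih =>
    rw [show allL p (a :: l) = cond (p a) (allL p l) false from rfl, List.forall_mem_cons, ← ih]
    cases p a <;> simp

theorem anyL_iff {α : Type} {p : α → Bool} {l : List α} : anyL p l = true ↔ ∃ x ∈ l, p x = true := by
  induction l with
  | nil => simp [anyL]
  | cons a l ih =>
    rw [show anyL p (a :: l) = cond (p a) true (anyL p l) from rfl, List.exists_mem_cons_iff, ← ih]
    cases p a <;> simp

theorem all2_iff {α β : Type} {p : α → β → Bool} {l : List α} {m : List β} :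
    all2 p l m = true ↔ List.Forall₂ (fun x y => p x y = true) l m := by
  induction l generalizing m with
  | nil => cases m <;> simp [all2]
  | cons a l ih =>
    cases m with
    | nil => simp [all2]
    | cons b m =>
      rw [show all2 p (a :: l) (b :: m) = cond (p a b) (all2 p l m) false from rfl, List.forall₂_cons, ← ih]
      cases p a b <;> simp

theorem eqL_iff {a b : List ℕ} : eqL a b = true ↔ a = b := by
  rw [eqL, all2_iff, ← List.forall₂_eq_eq_eq]
  simp only [Nat.beq_eq]

theorem memL_iff {a : List ℕ} {l : List (List ℕ)} : memL a l = true ↔ a ∈ l := by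
  simp [memL, anyL_iff, eqL_iff]

theorem memN_iff {a : ℕ} {l : List ℕ} : memN a l = true ↔ a ∈ l := by
  simp [memN, anyL_iff, Nat.beq_eq]

theorem filN_eq {β : Type} (p : ℕ → Bool) (n : ℕ) (k : List ℕ → β) :
    filN p n k = k ((List.range n).filter p) := by
  have : ∀ acc, Nat.rec (motive := fun _ => List ℕ → β) k
      (fun j ih acc => cond (p j) (ih (j :: acc)) (ih acc)) n acc = k ((List.range n).filter p ++ acc) := by
    induction n with
    | zero => simp
    | succ n ih =>
      intro acc
      simp only [ih, List.range_succ, List.filter_append, List.filter_cons]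
      cases p n <;> simp
  exact (this []).trans (by simp)

theorem filL_eq {β : Type} (p : ℕ → Bool) (l : List ℕ) (k : List ℕ → β) :
    filL p l k = k (l.filter p).reverse := by
  have : ∀ acc, List.rec (motive := fun _ => List ℕ → β) k
      (fun x _ ih acc => cond (p x) (ih (x :: acc)) (ih acc)) l acc = k ((l.filter p).reverse ++ acc) := by
    induction l with
    | nil => simp
    | cons a l ih =>
      intro acc
      simp only [ih, List.filter_cons]
      cases p a <;> simp
  exact (this []).trans (by simp)

theorem mapK_eq {α β : Type} (f : α → ℕ) (l : List α) (k : List ℕ → β) : mapK f l k = k (l.map f) := by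
  induction l generalizing k with
  | nil => rfl
  | cons a l ih => exact ih _

theorem cntL_eq (p : ℕ → Bool) (l : List ℕ) : cntL p l = (l.filter p).length := by
  induction l with
  | nil => rfl
  | cons a l ih =>
    rw [show cntL p (a :: l) = cond (p a) (cntL p l).succ (cntL p l) from rfl, ih, List.filter_cons]
    cases p a <;> simp

theorem bit_eq (m x : ℕ) : bit m x = m.testBit x := by
  rw [Nat.testBit_eq_decide_div_mod_eq, ← Nat.shiftRight_eq_div_pow, ← Nat.and_one_is_mod, Bool.eq_iff_iff]
  simp only [bit, Nat.beq_eq, decide_eq_true_eq]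
  rfl

theorem pw_eq (j : ℕ) : pw j = 2 ^ j := Nat.one_shiftLeft j

theorem bit_full (N x : ℕ) : bit (full N) x = true ↔ x < N := by
  rw [bit_eq, show full N = 2 ^ N - 1 from congrArg (· - 1) (pw_eq N), Nat.testBit_two_pow_sub_one]
  simp

theorem bit_lor (a x y : ℕ) : bit (Nat.lor a (pw x)) y = true ↔ bit a y = true ∨ y = x := by
  rw [bit_eq, bit_eq, pw_eq, Nat.lor_eq, Nat.testBit_or, Nat.testBit_two_pow]
  simp only [Bool.or_eq_true, decide_eq_true_eq]
  exact or_congr_right eq_comm

theorem bit_maskL (l : List ℕ) (x : ℕ) : bit (maskL l) x = true ↔ x ∈ l := by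
  have : ∀ a, bit (List.rec (motive := fun _ => ℕ → ℕ) (fun a => a)
      (fun x _ ih a => frc (Nat.lor a (pw x)) ih) l a) x = true ↔ bit a x = true ∨ x ∈ l := by
    induction l with
    | nil => simp
    | cons b l ih =>
      intro a
      refine (ih (Nat.lor a (pw b))).trans ?_
      simp only [bit_lor, List.mem_cons, or_assoc]
  exact (this 0).trans (by simp [bit_eq])

theorem nodupM_iff (l : List ℕ) : nodupM l = true ↔ l.Nodup := by
  have : ∀ a, List.rec (motive := fun _ => ℕ → Bool) (fun _ => true)
      (fun x _ ih a => cond (bit a x) false (frc (Nat.lor a (pw x)) ih)) l a = true ↔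
      l.Nodup ∧ ∀ x ∈ l, ¬ bit a x = true := by
    induction l with
    | nil => simp
    | cons b l ih =>
      intro a
      simp only [frc_eq] at ih
      simp only [frc_eq, List.nodup_cons, List.forall_mem_cons]
      cases h : bit a b
      · simp only [cond_false, ih, bit_lor, not_or]
        exact ⟨fun h => ⟨⟨fun e => (h.2 b e).2 rfl, h.1⟩, by simp, fun x e => (h.2 x e).1⟩,
          fun h => ⟨h.1.2, fun x e => ⟨h.2.2 x e, fun e' => h.1.1 (e' ▸ e)⟩⟩⟩
      · simp
  exact (this 0).trans (by simp [bit_eq])

theorem AnyL_iff {α : Type} {l : List α} {P : α → Prop} : AnyL l P ↔ ∃ x ∈ l, P x := by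
  induction l with
  | nil => simp [AnyL]
  | cons a l ih => rw [List.exists_mem_cons_iff, ← ih]; rfl

theorem AllL_iff {α : Type} {l : List α} {P : α → Prop} : AllL l P ↔ ∀ x ∈ l, P x := by
  induction l with
  | nil => simp [AllL]
  | cons a l ih => rw [List.forall_mem_cons, ← ih]; rfl

theorem bnd_iff {xs : List ℕ} : M.bnd xs = true ↔ ∀ x ∈ xs, x < M.N := by
  simp [Md.bnd, allL_iff, Nat.blt_eq]

theorem filC_eq (M : Md) (ab : List (ℕ × ℕ)) (k : List ℕ → Bool) (U : List ℕ) : ∃ V : List ℕ,
    filC M ab k U = k V ∧ V.Perm (U.filter fun y => ab.all fun p =>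
      Nat.beq (M.inv (M.mul y p.1)) (M.mul (M.inv y) (M.inv p.2))) := by
  induction ab generalizing U with
  | nil => exact ⟨U, rfl, by simp⟩
  | cons a ab ih =>
    obtain ⟨V, h1, h2⟩ := ih (U.filter fun y =>
      Nat.beq (M.inv (M.mul y a.1)) (M.mul (M.inv y) (M.inv a.2))).reverse
    refine ⟨V, (filL_eq _ _ _).trans h1, h2.trans (((List.reverse_perm _).filter _).trans ?_)⟩
    simp [List.filter_filter, Bool.and_comm]

theorem par_le (x : ℕ) : par x = 0 ∨ par x = 1 := by
  rw [par, Nat.land_eq, Nat.and_one_is_mod]
  omega

/-- for `x < 2^12` -/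
theorem par_step (x : ℕ) (hx : x < 4096) : par x = (x % 2 + par (x / 2)) % 2 :=
  Nat.eq_of_beq_eq_true (allN_iff.1 (by decide +kernel :
    allN (fun x => Nat.beq (par x) ((x % 2 + par (x / 2)) % 2)) 4096 = true) x hx)

theorem evL_cons (c : G) (cs : List G) (m : ℕ) :
    evL (c :: cs) m = (if m % 2 = 1 then c else 1) * evL cs (m / 2) := rfl

theorem evL_zero (gs : List G) : evL gs 0 = 1 := by
  induction gs with
  | nil => rfl
  | cons a l ih => simp [evL_cons, ih]

theorem evL_mem (gs : List G) (m : ℕ) : evL gs m ∈ gen gs := by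
  induction gs generalizing m with
  | nil => exact one_mem _
  | cons a l ih =>
    refine mul_mem ?_ (Subgroup.closure_mono (fun _ h => List.mem_cons_of_mem _ h) (ih _))
    split_ifs
    exacts [Subgroup.subset_closure List.mem_cons_self, one_mem _]

theorem evL_append_lt (gs ks : List G) {x : ℕ} (h : x < 2 ^ gs.length) : evL (gs ++ ks) x = evL gs x := by
  induction gs generalizing x with
  | nil =>
    obtain rfl : x = 0 := by simpa using h
    rw [evL_zero, evL_zero]
  | cons a l ih =>
    rw [List.length_cons, pow_succ] at h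
    rw [List.cons_append, evL_cons, evL_cons, ih (by omega)]

theorem evL_snoc_add (gs : List G) (k : G) {x : ℕ} (h : x < 2 ^ gs.length) :
    evL (gs ++ [k]) (x + 2 ^ gs.length) = evL gs x * k := by
  induction gs generalizing x with
  | nil =>
    obtain rfl : x = 0 := by simpa using h
    simp [evL]
  | cons a l ih =>
    rw [List.length_cons, pow_succ] at h ⊢
    rw [List.cons_append, evL_cons, evL_cons, show (x + 2 ^ l.length * 2) / 2 = x / 2 + 2 ^ l.length by omega,
      show (x + 2 ^ l.length * 2) % 2 = x % 2 by omega, ih (by omega), mul_assoc]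

theorem evL_mod (gs : List G) (m : ℕ) : evL gs (m % 2 ^ gs.length) = evL gs m := by
  induction gs generalizing m with
  | nil => rfl
  | cons a l ih =>
    rw [List.length_cons, pow_succ', evL_cons, evL_cons, Nat.mod_mul_right_div_self, ih,
      Nat.mod_mul_right_mod]

theorem gens_map (gs : List G) : (gens gs.length).map (evL gs) = gs := by
  induction gs using List.reverseRecOn with
  | nil => rfl
  | append_singleton l a ih =>
    have := evL_snoc_add l a (x := 0) (by positivity)
    rw [zero_add, evL_zero, one_mul] at this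
    simp only [gens, List.length_append, List.length_singleton, List.range_succ, List.map_append,
      List.map_singleton, pw_eq, this] at ih ⊢
    congr 1
    refine Eq.trans (List.map_congr_left fun x hx => evL_append_lt _ _ ?_) ih
    obtain ⟨j, hj, rfl⟩ := List.mem_map.1 hx
    rw [pw_eq]
    exact Nat.pow_lt_pow_right one_lt_two (List.mem_range.1 hj)

theorem Cj.evL {g : G} {xs ys : List G} (h : Cj g xs ys) (m : ℕ) : g⁻¹ * evL xs m * g = evL ys m := by
  induction h generalizing m with
  | nil => simp [L33E.evL]
  | cons e _ ih =>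
    rw [evL_cons, evL_cons, ← ih, ← e]
    split_ifs <;> group

end Cfsg.Lib.L33E
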