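import Cfsg.Agent.L33E.Chk

/-!
# Two further Boolean tests of the certified climb
-/

set_option autoImplicit false

namespace Cfsg.Lib.L33E

noncomputable section

/-- transfer inside the normal subgroup, with a character whose kernel is normal in the chart and
a 2-subgroup of the whole group -/
def chkTT2 (M : Md) (E : Env) (La om : ℕ) (xs lbs reps : List ℕ) (zj : ℕ) (Ls : List Lv)
    (outs : List Pr) : Bool :=
  preOK xs outs && M.bnd xs && M.low lbs && chkHom M E.c La om && frc (xs.headD 0) fun u =>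
    Nat.beq (M.sig u) 1 && Nat.beq (par (Nat.land u E.c)) 0 && allL (M.cm u) (xs ++ lbs) &&
    allL (fun g => M.rm g fun r => allN (fun y => !Nat.beq (l2 La y) 0 ||
      !Nat.beq (par (Nat.land y E.c)) 0 ||
        Nat.beq (l2 La (M.inv (r (M.inv (r y))))) 0) M.N) (gens M.n) &&
    frc (cond (Nat.blt zj E.cf.length && Nat.beq (E.cf.getD zj (0, 0)).1 u)
      (E.cf.getD zj (0, 0)).2 (full M.N)) (fun Z =>
      allN (fun e => !Nat.beq (l2 La e) 0 || !Nat.beq (par (Nat.land e E.c)) 0 || !bit Z e ||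
        !Nat.beq (M.sig e) 1 || frc (l1 M.W e) fun w => frc (M.cj e w) fun r => memN r reps) M.N) &&
    frc (full M.N) fun Tm =>
      dfs M E Tm Tm xs Ls (pw lbs.length) 1 (reps.map fun e => [e]) (outs.map Prod.snd)

/-- the heads of `xs` and `xs'` have no common extremal conjugate -/
def chkExt2 (M : Md) (E : Env) (xs lbs : List ℕ) (Ls : List Lv) (A xs' lbs' : List ℕ)
    (Ls' : List Lv) (B : List ℕ) : Bool :=
  M.bnd xs && M.bnd xs' && M.low lbs && M.low lbs' && frc (xs.headD 0) fun u =>
    Nat.beq (M.sig u) 1 && allL (M.cm u) (xs ++ lbs) && allL (M.cm (xs'.headD 0)) (xs' ++ lbs') &&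
    allN (fun y => !Nat.beq (par (Nat.land y E.c)) (par (Nat.land u E.c)) ||
      !Nat.beq (M.sig y) 1 || frc (l1 M.W y) fun w => frc (M.cj y w) fun r =>
        memN r A || memN r B) M.N &&
    frc (full M.N) fun Tm =>
      dfs M E Tm Tm xs Ls (pw lbs.length) 1 (A.map fun e => [e]) [] &&
      dfs M E Tm Tm xs' Ls' (pw lbs'.length) 1 (B.map fun e => [e]) []

end

end Cfsg.Lib.L33E
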