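import Cfsg.Prelude.Def_Local
import Cfsg.Prelude.Def_Classical
import Cfsg.Prelude.Def_CaseTheorems

/-!
# Involution centralisers with a component having dihedral Sylow subgroups of order 8:
definitions for the certified climb through 2-subgroups

Elements of a 2-subgroup are described by codes (`evL gs x` is the product of the members of `gs`
selected by the bits of `x`); `Md` is a multiplication table on codes.  Every `chk..` below is a
Boolean test run by the kernel.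
-/

set_option autoImplicit false

namespace Cfsg.Lib.L33E

noncomputable section

/-! ## Kernel-friendly list tools -/

/-- Strict evaluation for the kernel. -/
def frc {β : Type} (x : ℕ) (f : ℕ → β) : β := Nat.rec (f 0) (fun n _ => f n) (Nat.succ x)
theorem frc_eq {β : Type} (x : ℕ) (f : ℕ → β) : frc x f = f x := rfl

def allN (p : ℕ → Bool) (n : ℕ) : Bool := Nat.rec true (fun k ih => cond (p k) ih false) n
def allL {α : Type} (p : α → Bool) (l : List α) : Bool :=
  List.rec true (fun x _ ih => cond (p x) ih false) l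
def anyL {α : Type} (p : α → Bool) (l : List α) : Bool :=
  List.rec false (fun x _ ih => cond (p x) true ih) l
/-- pairwise test of two lists of equal length -/
def all2 {α β : Type} (p : α → β → Bool) (l : List α) : List β → Bool :=
  List.rec (fun m => List.casesOn m true fun _ _ => false)
    (fun x _ ih m => List.casesOn m false fun y m' => cond (p x y) (ih m') false) l
def eqL (a b : List ℕ) : Bool := all2 Nat.beq a b
def memL (a : List ℕ) (l : List (List ℕ)) : Bool := anyL (eqL a) l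
def memN (a : ℕ) (l : List ℕ) : Bool := anyL (Nat.beq a) l
/-- the list of all `j < n` with `p j` (increasing), handed to `k` -/
def filN {β : Type} (p : ℕ → Bool) (n : ℕ) (k : List ℕ → β) : β :=
  Nat.rec (motive := fun _ => List ℕ → β) k (fun j ih acc => cond (p j) (ih (j :: acc)) (ih acc)) n []
/-- the members of `l` with `p` (reversed), handed to `k` -/
def filL {β : Type} (p : ℕ → Bool) (l : List ℕ) (k : List ℕ → β) : β :=
  List.rec (motive := fun _ => List ℕ → β) k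
    (fun x _ ih acc => cond (p x) (ih (x :: acc)) (ih acc)) l []
/-- `l.map f` evaluated strictly, handed to `k` -/
def mapK {α β : Type} (f : α → ℕ) (l : List α) : (List ℕ → β) → β :=
  List.rec (fun k => k []) (fun x _ ih k => frc (f x) fun y => ih fun t => k (y :: t)) l
def cntL (p : ℕ → Bool) (l : List ℕ) : ℕ :=
  List.rec 0 (fun x _ ih => cond (p x) (Nat.succ ih) ih) l
def bit (m x : ℕ) : Bool := Nat.beq (Nat.land (Nat.shiftRight m x) 1) 1
/-- 12-bit table lookup -/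
def l1 (r x : ℕ) : ℕ := Nat.land (Nat.shiftRight r (Nat.mul 12 x)) 4095
/-- 2-bit table lookup -/
def l2 (r x : ℕ) : ℕ := Nat.land (Nat.shiftRight r (Nat.mul 2 x)) 3
/-- parity of the number of set bits among the lowest twelve -/
def par (x : ℕ) : ℕ :=
  Nat.land (Nat.shiftRight 27030
    (Nat.land (Nat.xor (Nat.xor x (Nat.shiftRight x 4)) (Nat.shiftRight x 8)) 15)) 1
def pw (j : ℕ) : ℕ := Nat.shiftLeft 1 j
/-- `[1, 2, 4, .., 2^(n-1)]` -/
def gens (n : ℕ) : List ℕ := (List.range n).map pw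
def AnyL {α : Type} (l : List α) (P : α → Prop) : Prop := List.rec False (fun x _ ih => P x ∨ ih) l
def AllL {α : Type} (l : List α) (P : α → Prop) : Prop := List.rec True (fun x _ ih => P x ∧ ih) l

/-! ## Tables -/

inductive Tr | l (n : ℕ) | n (a b : Tr)
def Tr.get (t : Tr) : ℕ → ℕ :=
  Tr.rec (fun n _ => n) (fun _ _ ia ib k =>
    cond (Nat.beq (Nat.land k 1) 0) (ia (Nat.shiftRight k 1)) (ib (Nat.shiftRight k 1))) t

/-- `A.get c` (`c < 2^h`) and `B.get c` are the rows of right multiplication by `c` and by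
`c * 2^h`; `I` is the table of inverses; `Lab` labels classes of involutions, `W` conjugates an
involution to the representative of its class. -/
structure Md where
  n : ℕ
  N : ℕ
  h : ℕ
  lo : ℕ
  A : Tr
  B : Tr
  I : ℕ
  Lab : ℕ
  W : ℕ

def Md.mul (M : Md) (x y : ℕ) : ℕ :=
  l1 (M.B.get (Nat.shiftRight y M.h)) (l1 (M.A.get (Nat.land y M.lo)) x)
def Md.inv (M : Md) (x : ℕ) : ℕ := l1 M.I x
/-- right multiplication by `y` with the two rows evaluated -/
def Md.rm {β : Type} (M : Md) (y : ℕ) (k : (ℕ → ℕ) → β) : β :=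
  frc (M.A.get (Nat.land y M.lo)) fun r => frc (M.B.get (Nat.shiftRight y M.h)) fun r' =>
    k fun x => l1 r' (l1 r x)
theorem Md.rm_eq {β : Type} (M : Md) (y : ℕ) (k : (ℕ → ℕ) → β) :
    M.rm y k = k fun x => M.mul x y := rfl
/-- `w⁻¹ x w` -/
def Md.cj (M : Md) (x w : ℕ) : ℕ := frc (M.mul (M.inv w) x) fun u => M.mul u w
/-- product of the members of `xs` selected by the bits of `m` -/
def Md.ev (M : Md) (xs : List ℕ) (m : ℕ) : ℕ :=
  List.rec (motive := fun _ => ℕ → ℕ → ℕ) (fun _ acc => acc) (fun c _ ih m acc =>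
    cond (Nat.beq m 0) acc (frc (Nat.shiftRight m 1) fun m' =>
      cond (Nat.beq (Nat.land m 1) 1) (frc (M.mul acc c) (ih m')) (ih m' acc))) xs m 0
/-- the test `y a = b y` on `y` -/
def Md.cjT {β : Type} (M : Md) (a b : ℕ) (k : (ℕ → Bool) → β) : β :=
  M.rm a fun ra => frc (M.inv b) fun b' => M.rm b' fun rb =>
    k fun y => Nat.beq (M.inv (ra y)) (rb (M.inv y))
def Md.cm (M : Md) (x y : ℕ) : Bool := Nat.beq (M.mul x y) (M.mul y x)
def Md.bnd (M : Md) (xs : List ℕ) : Bool := allL (fun x => Nat.blt x M.N) xs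
/-- all sub-products of `xs`, strictly evaluated -/
def Md.spanL {β : Type} (M : Md) (xs : List ℕ) (k : List ℕ → β) : β :=
  List.rec (motive := fun _ => List ℕ → β) k
    (fun c _ ih acc => M.rm c fun r => mapK r acc fun t => mapK id (acc ++ t) ih) xs [0]
def maskL (l : List ℕ) : ℕ :=
  List.rec (motive := fun _ => ℕ → ℕ) (fun a => a)
    (fun x _ ih a => frc (Nat.lor a (pw x)) ih) l 0
/-- `k l m`, where `l` lists the sub-products of `xs` and `m` is their mask, after checking that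
they are closed under right multiplication by `xs` (so they form the subgroup generated) -/
def Md.sub (M : Md) (xs : List ℕ) (k : List ℕ → ℕ → Bool) : Bool :=
  M.bnd xs && M.spanL xs fun l => frc (maskL l) fun m =>
    allL (fun c => M.rm c fun r => allL (fun x => bit m (r x)) l) xs && k l m
def nodupM (l : List ℕ) : Bool :=
  List.rec (motive := fun _ => ℕ → Bool) (fun _ => true)
    (fun x _ ih a => cond (bit a x) false (frc (Nat.lor a (pw x)) ih)) l 0
/-- the `2^|xs|` sub-products of `xs` are distinct -/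
def Md.low (M : Md) (xs : List ℕ) : Bool := M.bnd xs && M.spanL xs nodupM
/-- order signature: 0, 1, 2, 3 for orders 1, 2, 4, more -/
def Md.sig (M : Md) (x : ℕ) : ℕ :=
  cond (Nat.beq x 0) 0 (frc (M.mul x x) fun y => cond (Nat.beq y 0) 1
    (cond (Nat.beq (M.mul y y) 0) 2 3))

/-- tower data: for each generator `g` the codes of `g x g⁻¹` (`x` an earlier generator) and `g²` -/
abbrev Tw := List (List ℕ × ℕ)

def Md.row (M : Md) (j : ℕ) : ℕ :=
  cond (Nat.blt j M.h) (M.A.get (pw j)) (M.B.get (pw (Nat.sub j M.h)))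
def colChk (N : ℕ) (T : Tr) (n : ℕ) : Bool :=
  frc (T.get 0) (fun r => allN (fun x => Nat.beq (l1 r x) x) N) &&
  allN (fun c => Nat.beq c 0 || frc (pw (Nat.log2 c)) fun p => Nat.beq c p ||
    frc (T.get c) fun r => frc (T.get p) fun rp => frc (T.get (Nat.sub c p)) fun rq =>
      allN (fun x => Nat.beq (l1 r x) (l1 rp (l1 rq x))) N) n
def levChk (M : Md) (k : ℕ) (lv : List ℕ × ℕ) : Bool :=
  frc (pw k) fun p => frc (M.row k) fun rk =>
    allN (fun x => Nat.beq (l1 rk x) (Nat.add x p)) p && Nat.blt lv.2 p &&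
    M.rm lv.2 (fun r => allN (fun x => Nat.beq (l1 rk (Nat.add x p)) (r x)) p) &&
    all2 (fun j b => Nat.blt b p && frc (M.row j) fun rj => M.rm b fun r =>
      allN (fun x => Nat.beq (l1 rj (Nat.add x p)) (Nat.add (r x) p)) p) (List.range k) lv.1
/-- the tables of `M` are those of the tower `D`; labels are class invariants -/
def chkMd (M : Md) (D : Tw) : Bool :=
  Nat.beq M.n D.length && Nat.ble M.n 12 && Nat.beq M.N (pw M.n) && Nat.ble M.h M.n &&
  Nat.beq (Nat.succ M.lo) (pw M.h) &&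
  colChk M.N M.A (pw M.h) && colChk M.N M.B (pw (Nat.sub M.n M.h)) &&
  all2 (levChk M) (List.range M.n) D &&
  allN (fun x => frc (M.inv x) fun y => Nat.blt y M.N && Nat.beq (M.mul x y) 0) M.N &&
  allN (fun x => Nat.blt (l1 M.W x) M.N) M.N &&
  allL (fun g => M.rm g fun r => allN (fun x => frc (l1 M.Lab x) fun a =>
    Nat.beq a 0 || Nat.beq (l1 M.Lab (M.inv (r (M.inv (r x))))) a) M.N) (gens M.n)

/-! ## Group side -/

variable {G : Type*} [Group G]

def evL : List G → ℕ → G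
  | [], _ => 1
  | c :: cs, m => (if m % 2 = 1 then c else 1) * evL cs (m / 2)

/-- subgroup generated by a list -/
abbrev gen (xs : List G) : Subgroup G := Subgroup.closure {x | x ∈ xs}

inductive Sat : Tw → List G → Prop
  | nil : Sat [] []
  | snoc {D : Tw} {gs : List G} {β : List ℕ} {sq : ℕ} {g : G} : Sat D gs →
      List.Forall₂ (fun x b => g * x * g⁻¹ = evL gs b) gs β → g * g = evL gs sq →
      (∀ m, g ≠ evL gs m) → Sat (D ++ [(β, sq)]) (gs ++ [g])

/-- the tables of `M` describe the group generated by `gs` -/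
structure Ch (M : Md) (gs : List G) : Prop where
  len : gs.length = M.n
  n12 : M.n ≤ 12
  pow : M.N = 2 ^ M.n
  lt : ∀ x y, x < M.N → y < M.N → M.mul x y < M.N
  mul : ∀ x y, x < M.N → y < M.N → evL gs (M.mul x y) = evL gs x * evL gs y
  ilt : ∀ x, x < M.N → M.inv x < M.N
  inv : ∀ x, x < M.N → evL gs (M.inv x) = (evL gs x)⁻¹
  inj : ∀ x y, x < M.N → y < M.N → evL gs x = evL gs y → x = y
  wlt : ∀ x, x < M.N → l1 M.W x < M.N
  lab : ∀ x w, x < M.N → w < M.N → l1 M.Lab x ≠ 0 → l1 M.Lab (M.cj x w) = l1 M.Lab x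

/-- `g` conjugates `xs` to `ys` -/
def Cj (g : G) (xs ys : List G) : Prop := List.Forall₂ (fun x y => g⁻¹ * x * g = y) xs ys
def Fus (xs ys : List G) : Prop := ∃ g, Cj g xs ys
/-- every 2-element centralising `xs` lies in the group generated -/
def SC (xs : List G) : Prop := ∀ u : G, (∃ k, u ^ 2 ^ k = 1) → (∀ x ∈ xs, Commute u x) → u ∈ gen xs
/-- bound for 2-subgroups centralising `fx` and normalising the group generated by `xs` -/
def NB (fx xs : List G) (m : ℕ) : Prop := ∀ U : Subgroup G, IsPGroup 2 U →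
  (∀ u ∈ U, ∀ x ∈ fx, Commute u x) → (∀ u ∈ U, ∀ x ∈ xs, u⁻¹ * x * u ∈ gen xs) → Nat.card U ≤ m
/-- the centraliser of `bs` in `gen qs` is a maximal 2-subgroup of the centraliser of `bs` -/
def MaxC (bs qs : List G) : Prop := ∀ V : Subgroup G, IsPGroup 2 V →
  V ≤ Subgroup.centralizer {x | x ∈ bs} → Subgroup.centralizer {x | x ∈ bs} ⊓ gen qs ≤ V →
    V ≤ gen qs
def Kap (s : ℕ) (gs : List G) : Prop := ∀ c : G, Commute c (evL gs 1) → ∀ x y, x < 2 ^ s →
  y < 2 ^ s → c⁻¹ * evL gs x * c = evL gs y → Nat.land x 33 = Nat.land y 33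
/-- conjugates of `x` inside the chart lie in the mask `Z` -/
def CF (gs : List G) (xZ : ℕ × ℕ) : Prop := ∀ g : G, ∀ y, y < 2 ^ gs.length →
  g⁻¹ * evL gs xZ.1 * g = evL gs y → bit xZ.2 y = true
/-- membership in `X` is the parity of the bits selected by `c` -/
def XC (X : Subgroup G) (gs : List G) (c : ℕ) : Prop :=
  c < 2 ^ gs.length ∧ ∀ x, x < 2 ^ gs.length → (evL gs x ∈ X ↔ par (Nat.land x c) = 0)
def XP (gs : List G) (c : ℕ) : Prop := ∀ g : G, ∀ x y, x < 2 ^ gs.length → y < 2 ^ gs.length →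
  g⁻¹ * evL gs x * g = evL gs y → par (Nat.land x c) = par (Nat.land y c)
def Syl (gs : List G) : Prop := ∃ T : Sylow 2 G, (T : Subgroup G) = gen gs

structure Amb (X : Subgroup G) (t : G) : Prop where
  nrm : X.Normal
  simple : IsSimpleGroup X
  ncomm : ¬ IsMulCommutative X
  idx : ∀ g, g ∈ X ∨ g * t ∈ X

/-- State of the climb.  Codes: `t = 1, z = 2, d = 4, i = 8, j = 16, τ i = 32`; the first `s`
generators generate a Sylow 2-subgroup of the centraliser of `t`. -/
structure St (X : Subgroup G) (s : ℕ) (D : Tw) (gs : List G) : Prop where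
  amb : Amb X (evL gs 1)
  sat : Sat D gs
  s5 : 5 ≤ s
  sle : s ≤ gs.length
  t2 : evL gs 1 * evL gs 1 = 1
  cen : ∀ x, x < 2 ^ s → Commute (evL gs x) (evL gs 1)
  big : NB [evL gs 1] [] (2 ^ s)
  kap : Kap s gs
  r1 : Fus ([1, 2, 4].map (evL gs)) ([1, 4, 6].map (evL gs))
  r2 : Fus ([1, 2, 8, 16].map (evL gs)) ([1, 2, 16, 24].map (evL gs))

/-- a Sylow 2-subgroup of `X` is described by the tower `D` -/
def SylT (X : Type*) [Group X] (D : Tw) : Prop :=
  ∃ (T : Sylow 2 X) (l : List X), Sat D l ∧ (T : Subgroup X) = gen l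

/-- `Z₈ ≀ Z₂`: `x⁴, y⁴, x², y², x, y, z` -/
def DW : Tw := [([], 0), ([1], 0), ([1, 2], 1), ([1, 2, 4], 2), ([1, 2, 4, 8], 4),
  ([1, 2, 4, 8, 16], 8), ([2, 1, 8, 4, 32, 16], 0)]
/-- Sylow 2-subgroup of `L₄(3)` -/
def DL3 : Tw := [([], 0), ([1], 0), ([1, 2], 0), ([1, 2, 4], 0), ([13, 14, 11, 7], 15),
  ([13, 14, 4, 8, 16], 0), ([52, 55, 44, 35, 37, 4], 54)]
/-- Sylow 2-subgroup of `L₄(5)` -/
def DL5 : Tw := [([], 0), ([1], 0), ([1, 2], 0), ([4, 7, 1], 6), ([2, 1, 7, 14], 6),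
  ([1, 2, 4, 14, 21], 0), ([37, 38, 35, 44, 62, 7], 39)]
/-- `SD₁₆ × SD₁₆`: `z, d, i, j, z', d', i', j'` -/
def DSS : Tw := [([], 0), ([1], 0), ([1, 3], 1), ([1, 7, 5], 1), ([1, 2, 4, 8], 0),
  ([1, 2, 4, 8, 16], 0), ([1, 2, 4, 8, 16, 48], 16), ([1, 2, 4, 8, 16, 112, 80], 16)]
/-- Sylow 2-subgroup of `PGSp₆(3)`: `r₁, r₃, i₁, j₁, i₂, j₂, i₃, j₃, σ, δ` -/
def DP6 : Tw := [([], 0), ([1], 0), ([1, 2], 1), ([1, 2, 5], 1), ([1, 2, 4, 8], 3),
  ([1, 2, 4, 8, 19], 3), ([1, 2, 4, 8, 16, 32], 2), ([1, 2, 4, 8, 16, 32, 66], 2),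
  ([3, 2, 16, 32, 4, 8, 64, 128], 0), ([1, 2, 8, 4, 32, 16, 128, 64, 256], 0)]

/-- The configuration of `PSp₆(3)`; `r₂ = r₁ r₃`. -/
structure P6 (X : Subgroup G) (t r1 r3 i1 j1 i2 j2 i3 j3 σ δ : G) : Prop where
  sat : Sat DP6 [r1, r3, i1, j1, i2, j2, i3, j3, σ, δ]
  syl : Syl [r1, r3, i1, j1, i2, j2, i3, j3, σ, δ]
  inX : ∀ x ∈ [r1, r3, i1, j1, i2, j2, i3, j3, σ], x ∈ X
  dX : δ ∉ X
  rho : Fus [i1, j1, i2, j2, σ, i3, j3] [i1, j1, i2, j2, σ, j3, i3 * j3]
  wey : Fus [i1, j1, i2, j2, i3, j3, δ] [i2, j2, i3, j3, i1, j1, δ]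
  efv : Fus [r1, i1 * i2, j1 * j2, σ, i3, j3]
    [σ, i1 * i2, i1 * i2 * (j1 * j2) * σ, r1 * (i1 * i2) * σ, i3, j3]
  td : IsConj t δ
  tds : IsConj t (δ * σ)
  scl : ∀ y ∈ gen [r1, r3, i1, j1, i2, j2, i3, j3, σ], y * y = r3 → IsConj (i3 * j3) y →
    y ∈ gen [i3, j3]
  cla : ∀ y ∈ gen [r1, r3, i1, j1, i2, j2, i3, j3, σ], IsConj r3 y →
    y = r1 ∨ y = r3 ∨ y = r1 * r3 ∨ ∃ q ∈ gen [i1, j1], y = q⁻¹ * σ * q

def Out (X : Subgroup G) (t : G) : Prop :=
  t ∉ X ∧ (SylT X DW ∨ SylT X DL3 ∨ SylT X DL5 ∨ SylT X DSS ∨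
    ∃ r1 r3 i1 j1 i2 j2 i3 j3 σ δ, P6 X t r1 r3 i1 j1 i2 j2 i3 j3 σ δ)

def D5 : Tw := [([], 0), ([1], 0), ([1, 2], 0), ([1, 2, 6], 2), ([1, 2, 14, 10], 2)]
def D6 : Tw := D5 ++ [([1, 2, 4, 8, 18], 0)]

end

end Cfsg.Lib.L33E
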