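import Cfsg.Agent.L33E.Tst

/-!
# The certified climb: soundness of the search
-/

set_option autoImplicit false

namespace Cfsg.Lib.L33E

variable {G : Type*} [Group G] {M : Md} {gs : List G} {E : Env}

theorem cj_map_iff {g : G} {xs ys : List ℕ} : Cj g (xs.map (evL gs)) (ys.map (evL gs)) ↔
    List.Forall₂ (fun x y => g⁻¹ * evL gs x * g = evL gs y) xs ys := by
  rw [Cj, List.forall₂_map_left_iff, List.forall₂_map_right_iff]

theorem Ch.filC_mem (C : Ch M gs) {ab : List (ℕ × ℕ)} (hab : ∀ p ∈ ab, p.1 < M.N ∧ p.2 < M.N)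
    {U : List ℕ} (hU : ∀ u ∈ U, u < M.N) (k : List ℕ → Bool) : ∃ V, filC M ab k U = k V ∧
      ∀ u, u ∈ V ↔ u ∈ U ∧ ∀ p ∈ ab, evL gs u * evL gs p.1 = evL gs p.2 * evL gs u := by
  obtain ⟨V, h1, h2⟩ := filC_eq M ab k U
  refine ⟨V, h1, fun u => ?_⟩
  rw [h2.mem_iff, List.mem_filter, List.all_eq_true]
  exact and_congr_right fun hu => forall₂_congr fun p hp =>
    C.cjT_iff (hab p hp).1 (hab p hp).2 (hU u hu)

theorem Ch.filC_self (C : Ch M gs) {ys : List ℕ} (hy : ∀ z ∈ ys, z < M.N)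
    {U : List ℕ} (hU : ∀ u ∈ U, u < M.N) (k : List ℕ → Bool) : ∃ V, filC M (ys.zip ys) k U = k V ∧
      ∀ u, u ∈ V ↔ u ∈ U ∧ ∀ z ∈ ys, Commute (evL gs u) (evL gs z) := by
  have e : ys.zip ys = ys.map fun a => (a, a) := by
    simpa using List.zip_map' (f := id) (g := id) (l := ys)
  obtain ⟨V, h1, h2⟩ := C.filC_mem (ab := ys.zip ys) (by simpa [e] using hy) hU k
  refine ⟨V, h1, fun u => (h2 u).trans ?_⟩
  rw [e, List.forall_mem_map]
  rfl

/-- `y` is the code of the image of `x` -/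
def Img (M : Md) (gs : List G) (g : G) (x y : ℕ) : Prop := y < M.N ∧ g⁻¹ * evL gs x * g = evL gs y

theorem rl_cj {g : G} {xs ys : List ℕ} (h : List.Forall₂ (Img M gs g) xs ys) :
    Cj g (xs.map (evL gs)) (ys.map (evL gs)) := cj_map_iff.2 (h.imp fun _ _ e => e.2)

theorem rl_lt {g : G} {xs ys : List ℕ} (h : List.Forall₂ (Img M gs g) xs ys) : ∀ y ∈ ys, y < M.N := by
  induction h with
  | nil => simp
  | cons e _ ih => exact List.forall_mem_cons.2 ⟨e.1, ih⟩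

theorem rl_of_cj {g : G} {xs ys : List ℕ} (h : Cj g (xs.map (evL gs)) (ys.map (evL gs)))
    (hy : ∀ y ∈ ys, y < M.N) : List.Forall₂ (Img M gs g) xs ys := by
  replace h := cj_map_iff.1 h
  induction h with
  | nil => exact .nil
  | cons e _ ih =>
    exact .cons ⟨hy _ List.mem_cons_self, e⟩ (ih fun y h => hy y (List.mem_cons_of_mem _ h))

theorem Ch.rl_ev (C : Ch M gs) {g : G} {xs ys : List ℕ} (h : List.Forall₂ (Img M gs g) xs ys)
    (hx : ∀ x ∈ xs, x < M.N) (m : ℕ) : Img M gs g (M.ev xs m) (M.ev ys m) :=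
  ⟨C.ev_lt (rl_lt h) m, by rw [C.ev_eq hx, C.ev_eq (rl_lt h), (rl_cj h).evL]⟩

theorem rl_mul {g w : G} {xs ys : List ℕ} (h : List.Forall₂ (Img M gs g) xs ys)
    (hw : ∀ z ∈ ys, Commute w (evL gs z)) : List.Forall₂ (Img M gs (g * w)) xs ys := by
  induction h with
  | nil => exact .nil
  | @cons x y _ _ e _ ih =>
    refine .cons ⟨e.1, ?_⟩ (ih fun y h => hw y (List.mem_cons_of_mem _ h))
    calc (g * w)⁻¹ * evL gs x * (g * w) = w⁻¹ * (g⁻¹ * evL gs x * g * w) := by group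
      _ = _ := by rw [e.2, ← (hw _ List.mem_cons_self).eq, inv_mul_cancel_left]

theorem forall₂_snoc_iff {α β : Type} {R : α → β → Prop} {l : List α} {m : List β} {a : α} {b : β} :
    List.Forall₂ R (l ++ [a]) (m ++ [b]) ↔ List.Forall₂ R l m ∧ R a b := by
  rw [← List.forall₂_reverse_iff, List.reverse_concat', List.reverse_concat', List.forall₂_cons,
    List.forall₂_reverse_iff, and_comm]

theorem forall₂_getD {α β : Type} {R : α → β → Prop} {l : List α} {m : List β}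
    (h : List.Forall₂ R l m) {i : ℕ} (hi : i < l.length) (a : α) (b : β) :
    R (l.getD i a) (m.getD i b) := by
  rw [List.getD_eq_getElem _ _ hi, List.getD_eq_getElem _ _ (h.length_eq ▸ hi)]
  exact h.get hi (h.length_eq ▸ hi)

theorem getD_all {α : Type} {P : α → Prop} {l : List (List α)} (h : ∀ U ∈ l, ∀ u ∈ U, P u) (i : ℕ) :
    ∀ u ∈ l.getD i [], P u := by
  rcases lt_or_ge i l.length with hi | hi
  · exact h _ (getD_mem hi _)
  · rw [List.getD_eq_default _ _ hi]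
    simp

theorem cand_ok (C : Ch M gs) {Tm : ℕ} (hT : ∀ a b, a < M.N → b < M.N → bit Tm a = true →
      bit Tm b = true → bit Tm (M.mul (M.inv a) b) = true) {TL st ys P0 : List ℕ} {y0 y : ℕ}
    {pl : List (List ℕ)} {L : Lv} {K : List ℕ → Bool}
    (h : candK M Tm TL L st (y0 :: ys) (P0 :: pl) K = true) (hy : y < M.N) (hb : bit Tm y = true)
    (hys : ∀ z ∈ y0 :: ys, z < M.N)
    (hP : ∀ u < M.N, bit Tm u = true → Commute (evL gs u) (evL gs y0) → u ∈ P0)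
    (h0 : L.p = 0 → ∃ st', st = y :: st')
    (h1 : L.p = 1 → evL gs y * evL gs y0 = evL gs (M.ev (y0 :: ys) L.b) * evL gs y)
    (h2 : y ∈ TL) (h3 : ∀ q, L.p = q + 3 → y ∈ (P0 :: pl).getD q []) :
    ∃ cs, y ∈ cs ∧ K cs = true := by
  obtain ⟨p, b, ts, sym, push, stop⟩ := L
  match p, h, h0, h1, h3 with
  | 0, h, h0, _, _ =>
    obtain ⟨st', rfl⟩ := h0 rfl
    exact ⟨[y], List.mem_cons_self, h⟩
  | 2, h, _, _, _ => exact ⟨TL, h2, h⟩
  | q + 3, h, _, _, h3 => exact ⟨_, h3 q rfl, h⟩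
  | 1, h, _, h1, _ =>
    replace h1 := h1 rfl
    have hy0 := hys _ List.mem_cons_self
    have hB := C.ev_lt hys b
    change cond (!Nat.beq (l1 M.Lab y0) 0 && !Nat.beq (l1 M.Lab (M.ev (y0 :: ys) b)) (l1 M.Lab y0))
      true (frc (M.mul (l1 M.W (M.ev (y0 :: ys) b)) (M.inv (l1 M.W y0))) fun w =>
        bit Tm w && Nat.beq (M.mul w y0) (M.mul (M.ev (y0 :: ys) b) w) &&
          mapK (fun u => M.inv (M.mul u (M.inv w))) P0 K) = true at h
    dsimp only at h1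
    generalize M.ev (y0 :: ys) b = B at h h1 hB
    have e : B = M.cj y0 (M.inv y) := C.inj _ _ hB (C.cj_lt hy0 (C.ilt _ hy)) (by
      rw [C.cj_eq hy0 (C.ilt _ hy), C.inv _ hy, inv_inv, h1, mul_inv_cancel_right])
    have hc : (!Nat.beq (l1 M.Lab y0) 0 && !Nat.beq (l1 M.Lab B) (l1 M.Lab y0)) = false := by
      rcases eq_or_ne (l1 M.Lab y0) 0 with e' | e'
      · rw [e']; rfl
      · rw [e, C.lab _ _ hy0 (C.ilt _ hy) e', Nat.beq_refl, Bool.not_true, Bool.and_false]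
    have hw := C.lt _ _ (C.wlt _ hB) (C.ilt _ (C.wlt _ hy0))
    rw [hc, cond_false, frc_eq] at h
    generalize M.mul (l1 M.W B) (M.inv (l1 M.W y0)) = w at h hw
    rw [Bool.and_eq_true, Bool.and_eq_true, mapK_eq, C.beq_iff (C.lt _ _ hw hy0) (C.lt _ _ hB hw),
      C.mul _ _ hw hy0, C.mul _ _ hB hw] at h
    have hu := C.lt _ _ (C.ilt _ hy) hw
    have eu : evL gs (M.mul (M.inv y) w) = (evL gs y)⁻¹ * evL gs w := by
      rw [C.mul _ _ (C.ilt _ hy) hw, C.inv _ hy]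
    have h5 := C.lt _ _ hu (C.ilt _ hw)
    refine ⟨_, ?_, h.2⟩
    refine List.mem_map.2 ⟨_, hP _ hu (hT _ _ hy hw hb h.1.1) ?_, C.inj _ _ (C.ilt _ h5) hy ?_⟩
    · rw [eu, commute_iff_eq, mul_assoc, h.1.2, eq_mul_inv_of_mul_eq h1.symm]
      group
    · rw [C.inv _ h5, C.mul _ _ hu (C.ilt _ hw), eu, C.inv _ hw]
      group

theorem filT_ok {P0 ys : List ℕ} {ts : List Tst} {k : List ℕ → Bool} {y : ℕ}
    (ht : ∀ t ∈ ts, ∀ k, ∃ p, tstK M E P0 t (M.ev ys t.a) (M.ev ys t.b) k = k p ∧ p y = true)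
    {cs : List ℕ} (h : filT M E P0 ys ts k cs = true) (hy : y ∈ cs) : ∃ cs, y ∈ cs ∧ k cs = true := by
  induction ts generalizing cs with
  | nil => exact ⟨cs, hy, h⟩
  | cons t ts ih =>
    obtain ⟨c, cs, rfl⟩ := List.exists_cons_of_ne_nil (List.ne_nil_of_mem hy)
    obtain ⟨p, h1, h2⟩ := ht t List.mem_cons_self fun p => filL p (c :: cs) (filT M E P0 ys ts k)
    refine ih (fun t h => ht t (List.mem_cons_of_mem _ h)) (((h1.trans (filL_eq _ _ _)).symm).trans h) ?_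
    exact List.mem_reverse.2 (List.mem_filter.2 ⟨hy, h2⟩)

theorem symK_ok (C : Ch M gs) {Am : ℕ} {L : Lv} {ys : List ℕ} {pl : List (List ℕ)}
    {k : (ℕ → Bool) → Bool} (h : symK M Am L ys pl k = true) (hys : ∀ z ∈ ys, z < M.N)
    (hpl : ∀ U ∈ pl, ∀ u ∈ U, u < M.N) : ∃ sk, k sk = true ∧ ∀ y, sk y = true → L.sym ≠ 0 ∧
      ∃ w < M.N, bit Am w = true ∧ (∀ z ∈ ys, Commute (evL gs w) (evL gs z)) ∧ M.cj y w < y := by
  rw [symK] at h
  cases e : Nat.beq L.sym 0 <;> rw [e] at h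
  · have hU : ∀ u ∈ ((pl.getD (Nat.sub L.sym 1) []).filter (bit Am)).reverse,
        u < M.N ∧ bit Am u = true := fun u hu =>
      (List.mem_filter.1 (List.mem_reverse.1 hu)).imp_left (getD_all hpl _ u)
    rw [cond_false, filL_eq] at h
    obtain ⟨V, h1, h2⟩ := C.filC_self hys (fun u hu => (hU u hu).1) fun U =>
      k fun y => M.rm y fun r => anyL (fun w => frc (r (M.inv w)) fun u => Nat.blt (M.mul u w) y) U
    refine ⟨_, h1.symm.trans h, fun y hy => ⟨fun e' => by simp [e'] at e, ?_⟩⟩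
    obtain ⟨w, hw, h3⟩ := anyL_iff.1 hy
    obtain ⟨h4, h5⟩ := (h2 w).1 hw
    exact ⟨w, (hU w h4).1, (hU w h4).2, h5, Nat.blt_eq.mp h3⟩
  · exact ⟨_, h, fun _ e => absurd e Bool.false_ne_true⟩

/-- the pool `U` contains all admissible codes commuting with the images of the anchors `a` -/
def Pool (M : Md) (gs : List G) (Tm : ℕ) (g : G) (a U : List ℕ) : Prop :=
  ∀ u < M.N, bit Tm u = true → (∀ x ∈ a, Commute (evL gs u) (g⁻¹ * evL gs x * g)) → u ∈ U

theorem push_ok (C : Ch M gs) {Tm q x y : ℕ} {TL P0 : List ℕ} {pl al : List (List ℕ)}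
    (hTL : ∀ u, u ∈ TL ↔ u < M.N ∧ bit Tm u = true) {k k' : List (List ℕ) → Bool}
    (h : pushK M TL q y (P0 :: pl) k = true)
    (h' : cond (Nat.beq q 0) (k' al) (cond (Nat.beq q 1) (k' (al ++ [[x]]))
      (Nat.blt (Nat.sub q 2) al.length && k' (al ++ [x :: al.getD (Nat.sub q 2) []]))) = true)
    (hx : x < M.N) (hy : y < M.N) (hal : ∀ a ∈ al, ∀ x ∈ a, x < M.N)
    (hpl : ∀ U ∈ P0 :: pl, ∀ u ∈ U, u < M.N) :
    ∃ al' pl', k' al' = true ∧ k (P0 :: pl') = true ∧ (∀ a ∈ al', ∀ x ∈ a, x < M.N) ∧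
      (∀ U ∈ P0 :: pl', ∀ u ∈ U, u < M.N) ∧ ∀ g, Img M gs g x y →
        List.Forall₂ (Pool M gs Tm g) al (P0 :: pl) →
          List.Forall₂ (Pool M gs Tm g) al' (P0 :: pl') := by
  have key : ∀ (a U : List ℕ), (∀ x ∈ a, x < M.N) → (∀ u ∈ U, u < M.N) → k' (al ++ [x :: a]) = true →
      (M.cjT y y fun p => filL p U fun U => k (P0 :: pl ++ [U])) = true →
      (∀ g, List.Forall₂ (Pool M gs Tm g) al (P0 :: pl) → Pool M gs Tm g a U) →
      ∃ al' pl', k' al' = true ∧ k (P0 :: pl') = true ∧ (∀ a ∈ al', ∀ x ∈ a, x < M.N) ∧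
      (∀ U ∈ P0 :: pl', ∀ u ∈ U, u < M.N) ∧ ∀ g, Img M gs g x y →
        List.Forall₂ (Pool M gs Tm g) al (P0 :: pl) →
          List.Forall₂ (Pool M gs Tm g) al' (P0 :: pl') := by
    intro a U ha hU h1 h2 h3
    rw [cjT_eq, filL_eq] at h2
    refine ⟨_, _, h1, h2, List.forall_mem_append.2 ⟨hal, by simpa using ⟨hx, ha⟩⟩,
      (List.forall_mem_append (l₁ := P0 :: pl)).2 ⟨hpl, List.forall_mem_singleton.2 fun u hu =>
        hU u (List.mem_filter.1 (List.mem_reverse.1 hu)).1⟩, fun g e hg =>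
      (forall₂_snoc_iff (m := P0 :: pl)).2 ⟨hg, fun u hu hb hc => ?_⟩⟩
    exact List.mem_reverse.2 (List.mem_filter.2 ⟨h3 g hg u hu hb fun z hz =>
      hc z (List.mem_cons_of_mem _ hz), (C.cjT_iff hy hy hu).2 (e.2 ▸ hc x List.mem_cons_self)⟩)
  match q, h, h' with
  | 0, h, h' => exact ⟨al, pl, h', h, hal, hpl, fun _ _ h => h⟩
  | 1, h, h' =>
    exact key [] TL (by simp) (fun u hu => ((hTL u).1 hu).1) h' h fun g _ u hu hb _ =>
      (hTL u).2 ⟨hu, hb⟩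
  | q + 2, h, h' =>
    replace h' : (Nat.blt q al.length && k' (al ++ [x :: al.getD q []])) = true := h'
    rw [Bool.and_eq_true, Nat.blt_eq] at h'
    exact key _ _ (getD_all hal q) (getD_all hpl q) h'.2 h fun g hg => forall₂_getD hg h'.1 _ _

theorem run_ok [Finite G] (C : Ch M gs) (hE : EnvOK E gs) {Good : G → Prop} {Tm Am m x0 y0 : ℕ}
    {xs TL P0 : List ℕ} {outs : List (List ℕ)}
    (hT : ∀ a b, a < M.N → b < M.N → bit Tm a = true → bit Tm b = true →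
      bit Tm (M.mul (M.inv a) b) = true)
    (him : ∀ g, Good g → ∀ x ∈ xs, ∃ y < M.N, g⁻¹ * evL gs x * g = evL gs y ∧ bit Tm y = true)
    (hA : ∀ g w, w < M.N → bit Am w = true → Good g → Good (g * evL gs w))
    (hTL : ∀ u, u ∈ TL ↔ u < M.N ∧ bit Tm u = true) (hxs : ∀ x ∈ xs, x < M.N) (hP : P0.Nodup)
    (hP' : ∀ u, u ∈ P0 ↔ (u < M.N ∧ bit Tm u = true) ∧ Commute (evL gs u) (evL gs y0))
    (Ls : List Lv) : ∀ (xs' pre : List ℕ) (al : List (List ℕ)) (st ys : List ℕ) (pl : List (List ℕ)),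
      xs = x0 :: pre ++ xs' → src M E m x0 Ls xs' (x0 :: pre) al = true →
      run M E Tm Am TL outs Ls st (y0 :: ys) (P0 :: pl) = true →
      (∀ a ∈ al, ∀ x ∈ a, x < M.N) → (∀ U ∈ P0 :: pl, ∀ u ∈ U, u < M.N) →
      (∀ g, List.Forall₂ (Img M gs g) (x0 :: pre) (y0 :: ys) →
        List.Forall₂ (Pool M gs Tm g) al (P0 :: pl)) →
      ∀ g, Good g → List.Forall₂ (Img M gs g) (x0 :: pre) (y0 :: ys) →
        List.Forall₂ (Img M gs g) (xs'.take (m - (x0 :: pre).length)) st →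
        ∃ g', Good g' ∧ ∃ o ∈ outs, Cj g' ((xs.take o.length).map (evL gs)) (o.map (evL gs)) := by
  have fin : ∀ {g pre ys rest}, Good g → List.Forall₂ (Img M gs g) pre ys → xs = pre ++ rest →
      memL ys outs = true → ∃ g', Good g' ∧ ∃ o ∈ outs,
        Cj g' ((xs.take o.length).map (evL gs)) (o.map (evL gs)) := fun hg h e ho =>
    ⟨_, hg, _, memL_iff.1 ho, by rw [e, List.take_left' h.length_eq]; exact rl_cj h⟩
  induction Ls with
  | nil => exact fun _ _ _ _ _ _ e _ h _ _ _ g hg hr _ => fin hg hr e h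
  | cons L Ls ih =>
  intro xs' pre al st ys pl e hs h hal hpl hI g hg hr hst
  cases xs' with
  | nil => exact absurd hs Bool.false_ne_true
  | cons x xs' =>
  have hxm : x ∈ xs := by simp [e]
  have hx := hxs x hxm
  have hpre : ∀ z ∈ x0 :: pre, z < M.N := fun z hz => hxs z (e ▸ List.mem_append_left _ hz)
  have hx0 := hpre _ List.mem_cons_self
  have hys := rl_lt hr
  obtain ⟨⟨⟨s1, s2⟩, s3⟩, s4⟩ : ((cond (Nat.beq L.p 0) (Nat.blt (x0 :: pre).length m)
      (cond (Nat.beq L.p 1) (Nat.beq (M.mul x x0) (M.mul (M.ev (x0 :: pre) L.b) x))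
      (cond (Nat.beq L.p 2) true (Nat.blt (Nat.sub L.p 3) al.length &&
        allL (M.cm x) (al.getD (Nat.sub L.p 3) [])))) = true ∧
      (L.sym = 0 ∨ m ≤ (x0 :: pre).length)) ∧
      ∀ t ∈ L.ts, srcT M E x0 t (M.ev (x0 :: pre) t.a) (M.ev (x0 :: pre) t.b) x = true) ∧ _ := by
    simpa only [src, frc_eq, Bool.and_eq_true, Bool.or_eq_true, allL_iff, Nat.beq_eq, Nat.ble_eq]
      using hs
  obtain ⟨y, hy, ey, -⟩ := him g hg x hxm
  induction y using Nat.strong_induction_on generalizing g with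
  | _ y ihy =>
  have hb : bit Tm y = true := by
    obtain ⟨y', h1, h2, h3⟩ := him g hg x hxm
    rwa [C.inj _ _ hy h1 (ey.symm.trans h2)]
  have e0 := (List.forall₂_cons.1 hr).1
  obtain ⟨cs, c1, c2⟩ := cand_ok C hT h hy hb hys (fun u hu hb hc => (hP' u).2 ⟨⟨hu, hb⟩, hc⟩)
    (fun e' => by
      rw [e', Nat.beq_refl, cond_true, Nat.blt_eq] at s1
      obtain ⟨r, hr'⟩ := Nat.exists_eq_succ_of_ne_zero (Nat.sub_ne_zero_of_lt s1)
      rw [hr', List.take_succ_cons] at hst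
      obtain ⟨z, st', h1, -, rfl⟩ := List.forall₂_cons_left_iff.1 hst
      exact ⟨st', by rw [C.inj _ _ hy h1.1 (ey.symm.trans h1.2)]⟩)
    (fun e' => by
      have hB := C.ev_lt hpre L.b
      rw [e'] at s1
      have := (C.beq_iff (C.lt _ _ hx hx0) (C.lt _ _ hB hx)).1 s1
      rw [C.mul _ _ hx hx0, C.mul _ _ hB hx] at this
      rw [← ey, ← e0.2, ← (C.rl_ev hr hpre _).2, conj_mul', conj_mul', this])
    ((hTL y).2 ⟨hy, hb⟩) fun q e' => by
      rw [e'] at s1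
      replace s1 : (Nat.blt q al.length && allL (M.cm x) (al.getD q [])) = true := s1
      rw [Bool.and_eq_true, Nat.blt_eq, allL_iff] at s1
      refine forall₂_getD (hI g hr) s1.1 [] [] y hy hb fun z hz => ?_
      rw [← ey, commute_iff_eq, conj_mul', conj_mul',
        ((C.cm_iff hx (getD_all hal q z hz)).1 (s1.2 z hz)).eq]
  obtain ⟨cs, c3, c4⟩ := filT_ok (fun t ht k => tst_sound C hE hx0 e0.1 (C.ev_lt hpre _)
    (C.ev_lt hpre _) hx (C.ev_lt hys _) (C.ev_lt hys _) hy e0.2 (C.rl_ev hr hpre _).2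
    (C.rl_ev hr hpre _).2 ey ⟨hP, fun u hu => ((hP' u).1 hu).imp_left And.left⟩ (s3 t ht) k) c2 c1
  obtain ⟨sk, c5, c6⟩ := symK_ok C c4 hys hpl
  have c7 := allL_iff.1 c5 y c3
  have hr' : List.Forall₂ (Img M gs g) (x0 :: pre ++ [x]) (y0 :: ys ++ [y]) :=
    forall₂_snoc_iff.2 ⟨hr, hy, ey⟩
  have e' : xs = x0 :: pre ++ [x] ++ xs' := by simp [e]
  rw [mapK_eq, List.map_id, Bool.or_eq_true, Bool.or_eq_true, Bool.and_eq_true] at c7
  rcases c7 with c7 | c7 | c7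
  · obtain ⟨h1, w, hw, h2, h3, h4⟩ := c6 y c7
    rw [Nat.sub_eq_zero_of_le (s2.resolve_left h1), List.take_zero] at hst ihy
    obtain rfl := List.forall₂_nil_left_iff.1 hst
    exact ihy _ h4 _ (hA g w hw h2 hg) (rl_mul hr h3) .nil
      (C.cj_lt hy hw) (by rw [C.cj_eq hy hw, ← ey]; group)
  · exact fin hg hr' e' c7.2
  obtain ⟨al', pl', p1, p2, p3, p4, p5⟩ := push_ok C hTL c7 s4 hx hy hal hpl
  refine ih xs' (pre ++ [x]) al' st.tail (ys ++ [y]) pl' e' p1 p2 p3 p4 (fun g h => ?_) g hg hr' ?_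
  · obtain ⟨h1, h2⟩ := (forall₂_snoc_iff (l := x0 :: pre) (m := y0 :: ys)).1 h
    exact p5 g h2 (hI g h1)
  · rw [show (x0 :: (pre ++ [x])).length = (x0 :: pre).length + 1 by simp, ← Nat.sub_sub]
    generalize m - (x0 :: pre).length = r at hst
    cases r with
    | zero => exact List.forall₂_nil_left_iff.1 hst ▸ .nil
    | succ r =>
      obtain ⟨z, st', -, h1, rfl⟩ := List.forall₂_cons_left_iff.1 hst
      exact h1

theorem dfs_sound [Finite G] (C : Ch M gs) (hE : EnvOK E gs) (Good : G → Prop) {Tm Am lb m : ℕ}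
    {xs : List ℕ} {Ls : List Lv} {sts outs : List (List ℕ)}
    (hT : ∀ a b, a < M.N → b < M.N → bit Tm a = true → bit Tm b = true →
      bit Tm (M.mul (M.inv a) b) = true)
    (him : ∀ g, Good g → ∀ x ∈ xs, ∃ y < M.N, g⁻¹ * evL gs x * g = evL gs y ∧ bit Tm y = true)
    (hA : ∀ g w, w < M.N → bit Am w = true → Good g → Good (g * evL gs w))
    (hlb : ∀ g, Good g → ∀ y < M.N, g⁻¹ * evL gs (xs.headD 0) * g = evL gs y →
      lb ≤ ((List.range M.N).filter fun u => bit Tm u && M.cm u y).length)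
    (h : dfs M E Tm Am xs Ls lb m sts outs = true) {g : G} (hg : Good g) {st : List ℕ}
    (hst : st ∈ sts) (hc : Cj g ((xs.take m).map (evL gs)) (st.map (evL gs))) :
    ∃ g', Good g' ∧ ∃ o ∈ outs, Cj g' ((xs.take o.length).map (evL gs)) (o.map (evL gs)) := by
  simp only [dfs, Bool.and_eq_true, allL_iff, bnd_iff, Nat.ble_eq, filN_eq] at h
  obtain ⟨⟨⟨⟨⟨⟨⟨h1, h2⟩, -⟩, h4⟩, h5⟩, -⟩, h7⟩, h8⟩ := h
  have hr := rl_of_cj hc (h2 st hst)
  obtain ⟨x0, xs, rfl⟩ := List.exists_cons_of_length_pos (h4.trans h5)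
  obtain ⟨m, rfl⟩ := Nat.exists_eq_add_of_le' h4
  obtain ⟨y0, st', r1, r2, rfl⟩ := List.forall₂_cons_left_iff.1 hr
  have h9 := h8 _ hst
  have hTL : ∀ u, u ∈ (List.range M.N).filter (bit Tm) ↔ u < M.N ∧ bit Tm u = true := by simp
  set P0 := (((List.range M.N).filter (bit Tm)).filter fun u =>
    Nat.beq (M.inv (M.mul u y0)) (M.mul (M.inv u) (M.inv y0))).reverse with hP0
  have hP' : ∀ u, u ∈ P0 ↔ (u < M.N ∧ bit Tm u = true) ∧ Commute (evL gs u) (evL gs y0) := fun u => by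
    rw [hP0, List.mem_reverse, List.mem_filter, hTL]
    exact and_congr_right fun hu => C.cjT_iff r1.1 r1.1 hu.1
  have hP : P0.Nodup := List.nodup_reverse.2 ((List.nodup_range.filter _).filter _)
  replace h9 : (Nat.blt P0.length lb || memL [y0] outs ||
    run M E Tm Am _ outs Ls st' [y0] [P0]) = true := (filL_eq _ _ _).symm.trans h9
  rw [Bool.or_eq_true, Bool.or_eq_true, Nat.blt_eq] at h9
  rcases h9 with (h9 | h9) | h9
  · refine absurd ((hlb g hg y0 r1.1 r1.2).trans (((List.nodup_range.filter _).subperm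
      fun u hu => (hP' u).2 ?_).length_le)) h9.not_ge
    rw [List.mem_filter, List.mem_range, Bool.and_eq_true] at hu
    exact ⟨⟨hu.1, hu.2.1⟩, (C.cm_iff hu.1 r1.1).1 hu.2.2⟩
  · exact ⟨g, hg, _, memL_iff.1 h9, rl_cj (.cons r1 .nil)⟩
  refine run_ok C hE hT him hA hTL h1 hP hP' Ls xs [] [[x0]] st' [] [] rfl h7 h9
    (by simpa using h1 _ List.mem_cons_self) (by simpa using fun u hu => ((hP' u).1 hu).1.1)
    (fun g h => .cons (fun u hu hb hc => (hP' u).2 ⟨⟨hu, hb⟩, ?_⟩) .nil) g hg (.cons r1 .nil) r2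
  exact (List.forall₂_cons.1 h).1.2 ▸ hc x0 List.mem_cons_self

end Cfsg.Lib.L33E
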