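import Cfsg.Agent.L33E.Chk2
import Cfsg.Agent.L33E.Dfs
import Cfsg.Agent.L33E.Xs
import Cfsg.Agent.Trans.SylowIn

/-!
# The certified climb: elements without a common extremal conjugate
-/

set_option autoImplicit false

namespace Cfsg.Lib.L33E

open Cfsg.Lib.Trans

variable {G : Type*} [Group G] {M : Md} {gs : List G} {X : Subgroup G} {D : Tw} {E : Env}

theorem dfs_head {Tm Am lb : ℕ} {xs : List ℕ} {Ls : List Lv} {sts outs : List (List ℕ)}
    (h : dfs M E Tm Am xs Ls lb 1 sts outs = true) :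
    xs.take 1 = [xs.headD 0] ∧ xs.headD 0 ∈ xs := by
  simp only [dfs, Bool.and_eq_true, Nat.ble_eq] at h
  obtain ⟨a, l, rfl⟩ := List.exists_cons_of_length_pos h.1.1.1.2
  exact ⟨rfl, List.mem_cons_self⟩

theorem comm_head (C : Ch M gs) {xs lbs : List ℕ} (hb : ∀ x ∈ xs, x < M.N)
    (hlow : M.low lbs = true) (h0 : xs.headD 0 ∈ xs)
    (hr : ∀ r ∈ xs ++ lbs, M.cm (xs.headD 0) r = true) :
    ∀ r ∈ gen ((xs ++ lbs).map (evL gs)), Commute r (evL gs (xs.headD 0)) := fun _ =>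
  Xs.comm_gen (List.forall_mem_map.2 fun r h => ((C.cm_iff (hb _ h0)
    (List.forall_mem_append.2 ⟨hb, (C.low hlow).1⟩ r h)).1 (hr r h)).symm)

/-- the search in the whole chart, started from the representative of the image of the head -/
theorem dfs_full [Finite G] (C : Ch M gs) (hE : EnvOK E gs) {xs lbs reps : List ℕ} {Ls : List Lv}
    {outs : List (List ℕ)} (hb : ∀ x ∈ xs, x < M.N) (hlow : M.low lbs = true)
    (hr : ∀ r ∈ xs ++ lbs, M.cm (xs.headD 0) r = true)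
    (hd : dfs M E (full M.N) (full M.N) xs Ls (2 ^ lbs.length) 1 (reps.map fun e => [e]) outs = true)
    {g : G} (hg : ∀ r ∈ gen ((xs ++ lbs).map (evL gs)), g⁻¹ * r * g ∈ gen gs) {e : ℕ}
    (he : e < M.N) (ee : g⁻¹ * evL gs (xs.headD 0) * g = evL gs e)
    (hm : M.cj e (l1 M.W e) ∈ reps) :
    ∃ g', ∃ o ∈ outs, Cj g' ((xs.take o.length).map (evL gs)) (o.map (evL gs)) := by
  have hA : ∀ g w, (∀ r ∈ gen ((xs ++ lbs).map (evL gs)), g⁻¹ * r * g ∈ gen gs) →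
      ∀ r ∈ gen ((xs ++ lbs).map (evL gs)), (g * evL gs w)⁻¹ * r * (g * evL gs w) ∈ gen gs :=
    fun g w hg r hr => by
      have := mul_mem (mul_mem (inv_mem (evL_mem gs w)) (hg r hr)) (evL_mem gs w)
      convert this using 1
      group
  obtain ⟨g', -, h⟩ := dfs_sound C hE
    (fun g => ∀ r ∈ gen ((xs ++ lbs).map (evL gs)), g⁻¹ * r * g ∈ gen gs)
    (fun a b ha hb' _ _ => (bit_full _ _).2 (C.lt _ _ (C.ilt _ ha) hb'))
    (fun g hg x hx => by
      obtain ⟨y, hy, e⟩ := C.mem_iff.1 (hg _ (Subgroup.subset_closure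
        (List.mem_map_of_mem (List.mem_append_left _ hx))))
      exact ⟨y, hy, e.symm, (bit_full _ _).2 hy⟩)
    (fun g w _ _ => hA g w)
    (fun g hg y hy e => (C.low_card hlow (U := gen (lbs.map (evL gs))) fun x hx =>
      Subgroup.subset_closure (List.mem_map_of_mem hx)).trans (card_le_of_codes gs g fun r hr' => by
        have hr'' : r ∈ gen ((xs ++ lbs).map (evL gs)) := Subgroup.closure_mono
          (fun _ h => List.map_subset _ (List.subset_append_right _ _) h) hr'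
        obtain ⟨z, hz, e'⟩ := C.mem_iff.1 (hg r hr'')
        refine ⟨z, List.mem_filter.2 ⟨List.mem_range.2 hz, Bool.and_eq_true_iff.2
          ⟨(bit_full _ _).2 hz, (C.cm_iff hz hy).2 ?_⟩⟩, e'.symm⟩
        rw [← e, e']
        exact Xs.comm_conj (comm_head C hb hlow (dfs_head hd).2 hr r hr'') g))
    hd (hA g (l1 M.W e) hg) (List.mem_map_of_mem hm)
    ((dfs_head hd).1 ▸ .cons (by rw [C.cj_eq he (C.wlt e he), ← ee]; group) .nil)
  exact ⟨g', h⟩

theorem ext2_abs [Finite G] (T : Sylow 2 G) {e u : G} (h : IsConj e u) {R R' : Subgroup G}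
    (hR : IsPGroup 2 R) (hR' : IsPGroup 2 R') (hc : ∀ r ∈ R, Commute r u)
    (hc' : ∀ r ∈ R', Commute r e) : ∃ g k : G, (∀ r ∈ R, g⁻¹ * r * g ∈ (T : Subgroup G)) ∧
      (∀ r ∈ R', k⁻¹ * r * k ∈ (T : Subgroup G)) ∧ g⁻¹ * u * g = k⁻¹ * e * k := by
  obtain ⟨a, rfl⟩ := isConj_iff.1 h
  obtain ⟨U, hU, h1⟩ := exists_isSylowIn_ge hR' (H := Subgroup.centralizer {e})
    fun r hr => Subgroup.mem_centralizer_singleton_iff.2 (hc' r hr)
  obtain ⟨c, hc1, h2⟩ := hU.exists_cj_le (isPGroup_cj hR a⁻¹) fun r hr =>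
    Subgroup.mem_centralizer_singleton_iff.2 (by
      have := (Xs.comm_conj (hc _ (mem_cj.1 hr)) a).eq
      simpa [mul_assoc] using this)
  obtain ⟨k, -, h3⟩ := (isSylowIn_top T).exists_cj_le hU.isPGroup le_top
  refine ⟨a * c⁻¹ * k⁻¹, k⁻¹, fun r hr => ?_, fun r hr => ?_, ?_⟩
  · have := h3 (conj_mem_cj.2 (h2 (conj_mem_cj.2 (conj_mem_cj.2 hr))))
    convert this using 1
    group
  · simpa using h3 (conj_mem_cj.2 (h1 hr))
  · have := Subgroup.mem_centralizer_singleton_iff.1 hc1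
    calc _ = k * (c * e) * c⁻¹ * k⁻¹ := by group
      _ = _ := by rw [this]; group

theorem ext2 [Finite G] (C : Ch M gs) (hE : EnvOK E gs) (hs : Syl gs) {xs lbs : List ℕ}
    {Ls : List Lv} {A xs' lbs' : List ℕ} {Ls' : List Lv} {B : List ℕ}
    (h : chkExt2 M E xs lbs Ls A xs' lbs' Ls' B = true) :
    ¬ IsConj (evL gs (xs'.headD 0)) (evL gs (xs.headD 0)) := fun hc => by
  simp only [chkExt2, frc_eq, Bool.and_eq_true, Bool.or_eq_true, Nat.beq_eq, allL_iff, allN_iff,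
    bnd_iff, Bool.not_eq_true', ← Bool.not_eq_true, memN_iff, pw_eq] at h
  obtain ⟨⟨⟨⟨hb, hb'⟩, hl⟩, hl'⟩, ⟨⟨⟨h1, hr⟩, hr'⟩, h2⟩, hd, hd'⟩ := h
  obtain ⟨T, hT⟩ := hs
  obtain ⟨g, k, g1, k1, e⟩ := ext2_abs T hc (C.isP.to_le Xs.gen_le) (C.isP.to_le Xs.gen_le)
    (comm_head C hb hl (dfs_head hd).2 hr) (comm_head C hb' hl' (dfs_head hd').2 hr')
  rw [hT] at g1 k1
  have hu := hb _ (dfs_head hd).2
  obtain ⟨y, hy, ey⟩ := C.mem_iff.1 (g1 _ (Subgroup.subset_closure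
    (List.mem_map_of_mem (List.mem_append_left _ (dfs_head hd).2))))
  rcases (h2 y hy).resolve_left (by
    simp only [not_or, not_not]
    exact ⟨(hE.2.1 g _ y ((Xs.lt_pow C).2 hu) ((Xs.lt_pow C).2 hy) ey.symm).symm,
      (C.sig_eq hu hy (isConj_iff.2 ⟨g⁻¹, by rw [inv_inv, ey]⟩)).symm.trans h1⟩) with h3 | h3
  · obtain ⟨_, _, ho, -⟩ := dfs_full C hE hb hl hr hd g1 hy ey.symm h3
    exact List.not_mem_nil ho
  · obtain ⟨_, _, ho, -⟩ := dfs_full C hE hb' hl' hr' hd' k1 hy (e ▸ ey.symm) h3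
    exact List.not_mem_nil ho

end Cfsg.Lib.L33E
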