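import Cfsg.Agent.L33E.Chk3
import Cfsg.Agent.L33E.Ext2

/-!
# The certified climb with representatives excluded by a Frattini type test
-/

set_option autoImplicit false

namespace Cfsg.Lib.L33E

open Cfsg.Lib.Trans

variable {G : Type*} [Group G] {M : Md} {gs : List G} {E : Env}

theorem low_tail [Finite G] (C : Ch M gs) {u : ℕ} {r1 : List ℕ} (h : M.low (u :: r1) = true) :
    2 ^ r1.length ≤ Nat.card (gen (r1.map (evL gs))) := by
  have k : ∀ m, evL ((u :: r1).map (evL gs)) (2 * m) = evL (r1.map (evL gs)) m := fun m => by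
    rw [List.map_cons, evL_cons, if_neg (by omega), one_mul, Nat.mul_div_cancel_left _ two_pos]
  have l : ∀ m : Fin (2 ^ r1.length), 2 * m.1 < 2 ^ (u :: r1).length := fun m => by
    have := m.2
    rw [List.length_cons, pow_succ]
    omega
  have := Nat.card_le_card_of_injective (fun m : Fin (2 ^ r1.length) =>
    (⟨_, evL_mem (r1.map (evL gs)) m⟩ : gen (r1.map (evL gs)))) fun m m' e => Fin.ext (by
      have := (C.low h).2 _ (l m) _ (l m') (by rw [k, k]; exact congrArg Subtype.val e)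
      omega)
  rwa [Nat.card_fin] at this

theorem ext3 [Finite G] (C : Ch M gs) (hE : EnvOK E gs) (hs : Syl gs) {xs r1 : List ℕ}
    {Ls : List Lv} {A A' xs' lbs' : List ℕ} {Ls' : List Lv} {B : List ℕ}
    (hP : AllL A' (PhiP gs r1.length))
    (h : chkExt3 M E xs r1 Ls A A' xs' lbs' Ls' B = true) :
    ¬ IsConj (evL gs (xs'.headD 0)) (evL gs (xs.headD 0)) := fun hc => by
  simp only [chkExt3, frc_eq, Bool.and_eq_true, Bool.or_eq_true, Nat.beq_eq, allL_iff, allN_iff,
    bnd_iff, Bool.not_eq_true', ← Bool.not_eq_true, memN_iff, pw_eq] at h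
  obtain ⟨⟨⟨hb, hb'⟩, hl'⟩, ⟨⟨⟨⟨⟨hl, hm⟩, h1⟩, hr0⟩, hr'⟩, h2⟩, hd, hd'⟩ := h
  have hr : ∀ r ∈ xs ++ xs.headD 0 :: r1, M.cm (xs.headD 0) r = true := fun r k => hr0 r (by
    rcases List.mem_append.1 k with k | k
    · exact List.mem_append_left _ k
    rcases List.mem_cons.1 k with rfl | k
    exacts [List.mem_append_left _ (dfs_head hd).2, List.mem_append_right _ k])
  obtain ⟨T, hT⟩ := hs
  have cm := comm_head C hb hl (dfs_head hd).2 hr
  obtain ⟨g, k, g1, k1, e⟩ := ext2_abs T hc (C.isP.to_le Xs.gen_le) (C.isP.to_le Xs.gen_le)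
    cm (comm_head C hb' hl' (dfs_head hd').2 hr')
  rw [hT] at g1 k1
  have hu := hb _ (dfs_head hd).2
  obtain ⟨y, hy, ey⟩ := C.mem_iff.1 (g1 _ (Subgroup.subset_closure
    (List.mem_map_of_mem (List.mem_append_left _ (dfs_head hd).2))))
  rcases (h2 y hy).resolve_left (by
    simp only [not_or, not_not]
    exact ⟨(hE.2.1 g _ y ((Xs.lt_pow C).2 hu) ((Xs.lt_pow C).2 hy) ey.symm).symm,
      (C.sig_eq hu hy (isConj_iff.2 ⟨g⁻¹, by rw [inv_inv, ey]⟩)).symm.trans h1⟩) with (h3 | h3) | h3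
  · obtain ⟨_, _, ho, -⟩ := dfs_full C hE hb hl hr hd g1 hy ey.symm h3
    exact List.not_mem_nil ho
  · obtain ⟨-, _, m, h4, h5⟩ := C.sub hm
    have le : gen (r1.map (evL gs)) ≤ gen ((xs ++ xs.headD 0 :: r1).map (evL gs)) :=
      Subgroup.closure_mono fun _ h => List.map_subset _
        (List.subset_append_of_subset_right _ (List.subset_cons_self _ _)) h
    have w := evL_mem gs (l1 M.W y)
    have er := C.cj_eq hy (C.wlt y hy)
    generalize evL gs (l1 M.W y) = v at w er
    have er' : evL gs (M.cj y (l1 M.W y)) = (g * v)⁻¹ * evL gs (xs.headD 0) * (g * v) := by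
      rw [er, ey]; group
    have := AllL_iff.1 hP _ h3 (cj (g * v)⁻¹ (gen (r1.map (evL gs)))) (cj_le_iff.2 fun x hx => by
      have := mul_mem (mul_mem (inv_mem w) (g1 x (le hx))) w
      convert this using 1
      group) (by
        rintro _ ⟨x, hx, rfl⟩
        rw [er']
        simpa [mul_assoc] using Xs.comm_conj (cm x (le hx)) (g * v)) (by rw [card_cj]; exact low_tail C hl)
    rw [er', mem_cj] at this
    simp only [Bool.not_eq_true', ← Bool.not_eq_true] at h4
    exact h4 ((h5 _).2 ⟨hu, by simpa [mul_assoc] using this⟩)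
  · obtain ⟨_, _, ho, -⟩ := dfs_full C hE hb' hl' hr' hd' k1 hy (e ▸ ey.symm) h3
    exact List.not_mem_nil ho

end Cfsg.Lib.L33E
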