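import Cfsg.Agent.L33E.Ext2
import Cfsg.Agent.L33E.Der
import Cfsg.Agent.L33E.IdS

/-!
# Elements of any order without a common extremal conjugate; the exit `P6`
-/

set_option autoImplicit false

namespace Cfsg.Lib.L33E

open Cfsg.Lib.Trans

noncomputable section

def chkExt4 (M : Md) (E : Env) (xs lbs : List ℕ) (Ls : List Lv) (A xs' lbs' : List ℕ)
    (Ls' : List Lv) (B : List ℕ) : Bool :=
  M.bnd xs && M.bnd xs' && M.low lbs && M.low lbs' && M.bnd A && M.bnd B &&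
  frc (xs.headD 0) fun u => frc (xs'.headD 0) fun v =>
    eqL (xs.take 2) [u, M.mul u u] && eqL (xs'.take 2) [v, M.mul v v] &&
    allL (M.cm u) (xs ++ lbs) && allL (M.cm v) (xs' ++ lbs') &&
    allN (fun y => !Nat.beq (par (Nat.land y E.c)) (par (Nat.land u E.c)) ||
      !Nat.beq (M.sig y) (M.sig u) || frc (l1 M.W y) fun w => frc (M.cj y w) fun r =>
        memN r A || memN r B) M.N &&
    frc (full M.N) fun Tm =>
      dfs M E Tm Tm xs Ls (pw lbs.length) 2 (A.map fun e => [e, M.mul e e]) [] &&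
      dfs M E Tm Tm xs' Ls' (pw lbs'.length) 2 (B.map fun e => [e, M.mul e e]) []

def chkP6 (M : Md) (c r1 r3 i1 j1 i2 j2 i3 j3 s d k a b e f g Z4 ZA : ℕ) : Bool :=
  Nat.beq M.n 10 && chkRb M [r1, r3, i1, j1, i2, j2, i3, j3, s, d] DP6 &&
  allL (inT c) [r1, r3, i1, j1, i2, j2, i3, j3, s] && !inT c d && !inT c 1 &&
  Nat.beq k (M.mul i3 j3) && Nat.beq a (M.mul i1 i2) && Nat.beq b (M.mul j1 j2) &&
  Nat.beq e (M.mul (M.mul a b) s) && Nat.beq f (M.mul (M.mul r1 a) s) && Nat.beq g (M.mul d s) &&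
  M.sub [i3, j3] (fun _ m => allN (fun y => !bit Z4 y || !inT c y ||
    !Nat.beq (M.mul y y) r3 || bit m y) M.N) &&
  M.sub [i1, j1] (fun l m => allN (fun y => !bit ZA y || !inT c y || Nat.beq y r1 ||
    Nat.beq y r3 || Nat.beq y (M.mul r1 r3) ||
      anyL (fun q => bit m q && Nat.beq y (M.cj s q)) l) M.N)

end

variable {G : Type*} [Group G] {M : Md} {gs : List G} {X : Subgroup G} {D : Tw} {E : Env}

theorem dfs_full2 [Finite G] (C : Ch M gs) (hE : EnvOK E gs) {xs lbs reps : List ℕ} {Ls : List Lv}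
    {outs : List (List ℕ)} (hb : ∀ x ∈ xs, x < M.N) (hlow : M.low lbs = true)
    (h0 : xs.headD 0 ∈ xs)
    (h2 : xs.take 2 = [xs.headD 0, M.mul (xs.headD 0) (xs.headD 0)])
    (hr : ∀ r ∈ xs ++ lbs, M.cm (xs.headD 0) r = true)
    (hd : dfs M E (full M.N) (full M.N) xs Ls (2 ^ lbs.length) 2
      (reps.map fun e => [e, M.mul e e]) outs = true)
    {g : G} (hg : ∀ r ∈ gen ((xs ++ lbs).map (evL gs)), g⁻¹ * r * g ∈ gen gs) {e : ℕ}
    (he : e < M.N) (ee : g⁻¹ * evL gs (xs.headD 0) * g = evL gs e)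
    (hm : M.cj e (l1 M.W e) ∈ reps) (hm' : M.cj e (l1 M.W e) < M.N) :
    ∃ g', ∃ o ∈ outs, Cj g' ((xs.take o.length).map (evL gs)) (o.map (evL gs)) := by
  have hA : ∀ g w, (∀ r ∈ gen ((xs ++ lbs).map (evL gs)), g⁻¹ * r * g ∈ gen gs) →
      ∀ r ∈ gen ((xs ++ lbs).map (evL gs)), (g * evL gs w)⁻¹ * r * (g * evL gs w) ∈ gen gs :=
    fun g w hg r hr => by
      have := mul_mem (mul_mem (inv_mem (evL_mem gs w)) (hg r hr)) (evL_mem gs w)
      convert this using 1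
      group
  have e1 : (g * evL gs (l1 M.W e))⁻¹ * evL gs (xs.headD 0) * (g * evL gs (l1 M.W e)) =
      evL gs (M.cj e (l1 M.W e)) := by rw [C.cj_eq he (C.wlt e he), ← ee]; group
  obtain ⟨g', -, h⟩ := dfs_sound C hE
    (fun g => ∀ r ∈ gen ((xs ++ lbs).map (evL gs)), g⁻¹ * r * g ∈ gen gs)
    (fun a b ha hb' _ _ => (bit_full _ _).2 (C.lt _ _ (C.ilt _ ha) hb'))
    (fun g hg x hx => by
      obtain ⟨y, hy, e⟩ := C.mem_iff.1 (hg _ (Subgroup.subset_closure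
        (List.mem_map_of_mem (List.mem_append_left _ hx))))
      exact ⟨y, hy, e.symm, (bit_full _ _).2 hy⟩)
    (fun g w _ _ => hA g w)
    (fun g hg y hy e => (C.low_card hlow (U := gen (lbs.map (evL gs))) fun x hx =>
      Subgroup.subset_closure (List.mem_map_of_mem hx)).trans (card_le_of_codes gs g fun r hr' => by
        have hr'' : r ∈ gen ((xs ++ lbs).map (evL gs)) := Subgroup.closure_mono
          (fun _ h => List.map_subset _ (List.subset_append_right _ _) h) hr'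
        obtain ⟨z, hz, e'⟩ := C.mem_iff.1 (hg r hr'')
        refine ⟨z, List.mem_filter.2 ⟨List.mem_range.2 hz, Bool.and_eq_true_iff.2
          ⟨(bit_full _ _).2 hz, (C.cm_iff hz hy).2 ?_⟩⟩, e'.symm⟩
        rw [← e, e']
        exact Xs.comm_conj (comm_head C hb hlow h0 hr r hr'') g))
    hd (hA g (l1 M.W e) hg) (List.mem_map_of_mem hm)
    (h2 ▸ .cons e1 (.cons (by
      rw [C.mul _ _ (hb _ h0) (hb _ h0), C.mul _ _ hm' hm', ← e1]; group) .nil))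
  exact ⟨g', h⟩

theorem ext4 [Finite G] (C : Ch M gs) (hE : EnvOK E gs) (hs : Syl gs) {xs lbs : List ℕ}
    {Ls : List Lv} {A xs' lbs' : List ℕ} {Ls' : List Lv} {B : List ℕ}
    (h : chkExt4 M E xs lbs Ls A xs' lbs' Ls' B = true) :
    ¬ IsConj (evL gs (xs'.headD 0)) (evL gs (xs.headD 0)) := fun hc => by
  simp only [chkExt4, frc_eq, Bool.and_eq_true, Bool.or_eq_true, Nat.beq_eq, allL_iff, allN_iff,
    bnd_iff, Bool.not_eq_true', ← Bool.not_eq_true, memN_iff, pw_eq, eqL_iff] at h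
  obtain ⟨⟨⟨⟨⟨⟨hb, hb'⟩, hl⟩, hl'⟩, hA⟩, hB⟩, ⟨⟨⟨⟨h1, h1'⟩, hr⟩, hr'⟩, h2⟩, hd, hd'⟩ := h
  have h0 : xs.headD 0 ∈ xs := List.mem_of_mem_take (h1 ▸ List.mem_cons_self)
  have h0' : xs'.headD 0 ∈ xs' := List.mem_of_mem_take (h1' ▸ List.mem_cons_self)
  obtain ⟨T, hT⟩ := hs
  obtain ⟨g, k, g1, k1, e⟩ := ext2_abs T hc (C.isP.to_le Xs.gen_le) (C.isP.to_le Xs.gen_le)
    (comm_head C hb hl h0 hr) (comm_head C hb' hl' h0' hr')
  rw [hT] at g1 k1
  have hu := hb _ h0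
  obtain ⟨y, hy, ey⟩ := C.mem_iff.1 (g1 _ (Subgroup.subset_closure
    (List.mem_map_of_mem (List.mem_append_left _ h0))))
  rcases (h2 y hy).resolve_left (by
    simp only [not_or, not_not]
    exact ⟨(hE.2.1 g _ y ((Xs.lt_pow C).2 hu) ((Xs.lt_pow C).2 hy) ey.symm).symm,
      (C.sig_eq hu hy (isConj_iff.2 ⟨g⁻¹, by rw [inv_inv, ey]⟩)).symm⟩) with h3 | h3
  · obtain ⟨_, _, ho, -⟩ := dfs_full2 C hE hb hl h0 h1 hr hd g1 hy ey.symm h3 (hA _ h3)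
    exact List.not_mem_nil ho
  · obtain ⟨_, _, ho, -⟩ := dfs_full2 C hE hb' hl' h0' h1' hr' hd' k1 hy (e ▸ ey.symm) h3 (hB _ h3)
    exact List.not_mem_nil ho

theorem p6 [Finite G] {c r1 r3 i1 j1 i2 j2 i3 j3 s d k a b e f g Z4 ZA : ℕ}
    (h : chkP6 M c r1 r3 i1 j1 i2 j2 i3 j3 s d k a b e f g Z4 ZA = true) (C : Ch M gs)
    (hs : Syl gs) (hX : XC X gs c)
    (f1 : FusC gs ([i1, j1, i2, j2, s, i3, j3], [i1, j1, i2, j2, s, j3, k]))
    (f2 : FusC gs ([i1, j1, i2, j2, i3, j3, d], [i2, j2, i3, j3, i1, j1, d]))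
    (f3 : FusC gs ([r1, a, b, s, i3, j3], [s, a, e, f, i3, j3]))
    (f4 : IsConj (evL gs 1) (evL gs d)) (f5 : IsConj (evL gs 1) (evL gs g))
    (c4 : CF gs (k, Z4)) (cA : CF gs (r3, ZA)) : Out X (evL gs 1) := by
  simp only [chkP6, Bool.and_eq_true, Nat.beq_eq, allL_iff, Bool.not_eq_true'] at h
  obtain ⟨⟨⟨⟨⟨⟨⟨⟨⟨⟨⟨⟨hn, hr⟩, hi⟩, hd⟩, ht⟩, rfl⟩, rfl⟩, rfl⟩, rfl⟩, rfl⟩, rfl⟩, h4⟩, hA⟩ := h
  have sat := rb_sat C hr
  have hb : ∀ x ∈ [r1, r3, i1, j1, i2, j2, i3, j3, s, d], x < M.N := by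
    simp only [chkRb, Bool.and_eq_true] at hr
    exact (C.low hr.2).1
  simp only [List.forall_mem_cons] at hb
  obtain ⟨b1, b2, b3, b4, b5, b6, b7, b8, b9, b10, -⟩ := hb
  have mX : ∀ x, x < M.N → (evL gs x ∈ X ↔ inT c x = true) := fun x hx => by
    rw [hX.2 x ((Xs.lt_pow C).2 hx), inT, Nat.beq_eq]
  have n1 : 1 < M.N := by rw [C.pow, hn]; norm_num
  have iX : ∀ x ∈ [r1, r3, i1, j1, i2, j2, i3, j3, s].map (evL gs), x ∈ X := fun x hx => by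
    obtain ⟨y, hy, rfl⟩ := List.mem_map.1 hx
    refine (mX y ?_).2 (hi y hy)
    simp only [List.mem_cons, List.not_mem_nil, or_false] at hy
    rcases hy with rfl | rfl | rfl | rfl | rfl | rfl | rfl | rfl | rfl <;> assumption
  have cd : ∀ y ∈ gen ([r1, r3, i1, j1, i2, j2, i3, j3, s].map (evL gs)),
      ∃ z < M.N, evL gs z = y ∧ inT c z = true := fun y hy => by
    obtain ⟨z, hz, e⟩ := C.mem_iff.1 (Xs.gen_le hy)
    exact ⟨z, hz, e, (mX z hz).1 (e ▸ (Subgroup.closure_le X).2 iX hy)⟩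
  have cf : ∀ {x Z z : ℕ}, CF gs (x, Z) → z < M.N → IsConj (evL gs x) (evL gs z) →
      bit Z z = true := fun {x Z z} h hz hc => by
    obtain ⟨u, hu⟩ := isConj_iff.1 hc
    exact h u⁻¹ z ((Xs.lt_pow C).2 hz) (by rwa [inv_inv])
  refine ⟨fun h => by simp [(mX 1 n1).1 h] at ht, .inr (.inr (.inr (.inr ⟨evL gs r1, evL gs r3,
    evL gs i1, evL gs j1, evL gs i2, evL gs j2, evL gs i3, evL gs j3, evL gs s, evL gs d,
    sat, ?_, iX, fun h => by simp [(mX d b10).1 h] at hd, ?_, f2, ?_, f4, ?_, ?_, ?_⟩)))⟩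
  · obtain ⟨T, hT⟩ := hs
    refine ⟨T, hT.trans (Subgroup.eq_of_le_of_card_ge (Xs.gen_le (cs := [r1, r3, i1, j1, i2, j2, i3, j3, s, d])) ?_).symm⟩
    have := sat.cardI
    rw [C.card, hn]
    exact this.ge
  · rw [← C.mul _ _ b7 b8]; exact f1
  · rw [← C.mul _ _ b3 b5, ← C.mul _ _ b4 b6, ← C.mul _ _ (C.lt _ _ b3 b5) (C.lt _ _ b4 b6),
      ← C.mul _ _ b1 (C.lt _ _ b3 b5),
      ← C.mul _ _ (C.lt _ _ (C.lt _ _ b3 b5) (C.lt _ _ b4 b6)) b9,
      ← C.mul _ _ (C.lt _ _ b1 (C.lt _ _ b3 b5)) b9]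
    exact f3
  · rw [← C.mul _ _ b10 b9]; exact f5
  · intro y hy h1 h2
    obtain ⟨z, hz, rfl, hT⟩ := cd y hy
    obtain ⟨-, l, m, h3, h5⟩ := C.sub h4
    have h6 := allN_iff.1 h3 z hz
    rw [← C.mul _ _ b7 b8] at h2
    rw [← C.mul _ _ hz hz] at h1
    simp only [cf c4 hz h2, hT, C.inj _ _ (C.lt _ _ hz hz) b2 h1, Nat.beq_refl, Bool.not_true,
      Bool.false_or] at h6
    exact ((h5 z).1 h6).2
  · intro y hy h2
    obtain ⟨z, hz, rfl, hT⟩ := cd y hy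
    obtain ⟨-, l, m, h3, h5⟩ := C.sub hA
    have h6 := allN_iff.1 h3 z hz
    simp only [cf cA hz h2, hT, Bool.not_true, Bool.false_or, Bool.or_eq_true, Nat.beq_eq,
      anyL_iff, Bool.and_eq_true] at h6
    rcases h6 with ((rfl | rfl) | rfl) | ⟨q, -, hq, rfl⟩
    · exact .inl rfl
    · exact .inr (.inl rfl)
    · exact .inr (.inr (.inl (C.mul _ _ b1 b2)))
    · exact .inr (.inr (.inr ⟨evL gs q, ((h5 q).1 hq).2, C.cj_eq b9 ((h5 q).1 hq).1⟩))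

end Cfsg.Lib.L33E
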