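import Cfsg.Agent.L33E.Ext4

/-! # The exit `P6` -/

set_option autoImplicit false

namespace Cfsg.Lib.L33E

noncomputable section

def chkP7 (M : Md) (c r1 r3 i1 j1 i2 j2 i3 j3 s d k a b e f g Z4 ZA : ℕ) : Bool :=
  Nat.beq M.n 10 && chkRb M [r1, r3, i1, j1, i2, j2, i3, j3, s, d] DP6 &&
  allL (inT c) [r1, r3, i1, j1, i2, j2, i3, j3, s] && !inT c d && !inT c 1 &&
  Nat.beq k (M.mul i3 j3) && Nat.beq a (M.mul i1 i2) && Nat.beq b (M.mul j1 j2) &&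
  Nat.beq e (M.mul (M.mul a b) s) && Nat.beq f (M.mul (M.mul r1 a) s) && Nat.beq g (M.mul d s) &&
  Nat.beq (M.mul i3 i3) r3 && Nat.beq (M.mul i1 i1) r1 &&
  M.sub [r3, i3, j3] (fun _ m => allN (fun y => !bit Z4 y || !inT c y ||
    !Nat.beq (M.mul y y) r3 || bit m y) M.N) &&
  M.sub [r1, i1, j1] (fun l m => allN (fun y => !bit ZA y || !inT c y || Nat.beq y r1 ||
    Nat.beq y r3 || Nat.beq y (M.mul r1 r3) ||
      anyL (fun q => bit m q && Nat.beq y (M.cj s q)) l) M.N)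

end

variable {G : Type*} [Group G] {M : Md} {gs : List G} {X : Subgroup G}

theorem gen_sq {r i j y : G} (h : r = i * i) (hy : y ∈ gen [r, i, j]) : y ∈ gen [i, j] := by
  have a : i ∈ gen [i, j] := Subgroup.subset_closure (by simp)
  have b : j ∈ gen [i, j] := Subgroup.subset_closure (by simp)
  refine (Subgroup.closure_le _).2 (fun x hx => ?_) hy
  simp only [List.mem_cons, List.not_mem_nil, or_false, Set.mem_ofPred_eq] at hx
  rcases hx with e | e | e <;> rw [e]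
  · rw [SetLike.mem_coe, h]; exact mul_mem a a
  · exact a
  · exact b

theorem p7 [Finite G] {c r1 r3 i1 j1 i2 j2 i3 j3 s d k a b e f g Z4 ZA : ℕ}
    (h : chkP7 M c r1 r3 i1 j1 i2 j2 i3 j3 s d k a b e f g Z4 ZA = true) (C : Ch M gs)
    (hs : Syl gs) (hX : XC X gs c)
    (f1 : FusC gs ([i1, j1, i2, j2, s, i3, j3], [i1, j1, i2, j2, s, j3, k]))
    (f2 : FusC gs ([i1, j1, i2, j2, i3, j3, d], [i2, j2, i3, j3, i1, j1, d]))
    (f3 : FusC gs ([r1, a, b, s, i3, j3], [s, a, e, f, i3, j3]))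
    (f4 : IsConj (evL gs 1) (evL gs d)) (f5 : IsConj (evL gs 1) (evL gs g))
    (c4 : CF gs (k, Z4)) (cA : CF gs (r3, ZA)) : Out X (evL gs 1) := by
  simp only [chkP7, Bool.and_eq_true, Nat.beq_eq, allL_iff, Bool.not_eq_true'] at h
  obtain ⟨⟨⟨⟨⟨⟨⟨⟨⟨⟨⟨⟨⟨⟨hn, hr⟩, hi⟩, hd⟩, ht⟩, rfl⟩, rfl⟩, rfl⟩, rfl⟩, rfl⟩, rfl⟩, q3⟩, q1⟩,
    h4⟩, hA⟩ := h
  have sat := rb_sat C hr
  have hb : ∀ x ∈ [r1, r3, i1, j1, i2, j2, i3, j3, s, d], x < M.N := by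
    simp only [chkRb, Bool.and_eq_true] at hr
    exact (C.low hr.2).1
  simp only [List.forall_mem_cons] at hb
  obtain ⟨b1, b2, b3, b4, b5, b6, b7, b8, b9, b10, -⟩ := hb
  have mX : ∀ x, x < M.N → (evL gs x ∈ X ↔ inT c x = true) := fun x hx => by
    rw [hX.2 x ((Xs.lt_pow C).2 hx), inT, Nat.beq_eq]
  have n1 : 1 < M.N := by rw [C.pow, hn]; norm_num
  have iX : ∀ x ∈ [r1, r3, i1, j1, i2, j2, i3, j3, s].map (evL gs), x ∈ X := fun x hx => by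
    obtain ⟨y, hy, rfl⟩ := List.mem_map.1 hx
    refine (mX y ?_).2 (hi y hy)
    simp only [List.mem_cons, List.not_mem_nil, or_false] at hy
    rcases hy with rfl | rfl | rfl | rfl | rfl | rfl | rfl | rfl | rfl <;> assumption
  have cd : ∀ y ∈ gen ([r1, r3, i1, j1, i2, j2, i3, j3, s].map (evL gs)),
      ∃ z < M.N, evL gs z = y ∧ inT c z = true := fun y hy => by
    obtain ⟨z, hz, e⟩ := C.mem_iff.1 (Xs.gen_le hy)
    exact ⟨z, hz, e, (mX z hz).1 (e ▸ (Subgroup.closure_le X).2 iX hy)⟩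
  have cf : ∀ {x Z z : ℕ}, CF gs (x, Z) → z < M.N → IsConj (evL gs x) (evL gs z) →
      bit Z z = true := fun {x Z z} h hz hc => by
    obtain ⟨u, hu⟩ := isConj_iff.1 hc
    exact h u⁻¹ z ((Xs.lt_pow C).2 hz) (by rwa [inv_inv])
  refine ⟨fun h => by simp [(mX 1 n1).1 h] at ht, .inr (.inr (.inr (.inr ⟨evL gs r1, evL gs r3,
    evL gs i1, evL gs j1, evL gs i2, evL gs j2, evL gs i3, evL gs j3, evL gs s, evL gs d,
    sat, ?_, iX, fun h => by simp [(mX d b10).1 h] at hd, ?_, f2, ?_, f4, ?_, ?_, ?_⟩)))⟩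
  · obtain ⟨T, hT⟩ := hs
    refine ⟨T, hT.trans (Subgroup.eq_of_le_of_card_ge (Xs.gen_le (cs := [r1, r3, i1, j1, i2, j2, i3, j3, s, d])) ?_).symm⟩
    have := sat.cardI
    rw [C.card, hn]
    exact this.ge
  · rw [← C.mul _ _ b7 b8]; exact f1
  · rw [← C.mul _ _ b3 b5, ← C.mul _ _ b4 b6, ← C.mul _ _ (C.lt _ _ b3 b5) (C.lt _ _ b4 b6),
      ← C.mul _ _ b1 (C.lt _ _ b3 b5),
      ← C.mul _ _ (C.lt _ _ (C.lt _ _ b3 b5) (C.lt _ _ b4 b6)) b9,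
      ← C.mul _ _ (C.lt _ _ b1 (C.lt _ _ b3 b5)) b9]
    exact f3
  · rw [← C.mul _ _ b10 b9]; exact f5
  · intro y hy h1 h2
    obtain ⟨z, hz, rfl, hT⟩ := cd y hy
    obtain ⟨-, l, m, h3, h5⟩ := C.sub h4
    have h6 := allN_iff.1 h3 z hz
    rw [← C.mul _ _ b7 b8] at h2
    rw [← C.mul _ _ hz hz] at h1
    simp only [cf c4 hz h2, hT, C.inj _ _ (C.lt _ _ hz hz) b2 h1, Nat.beq_refl, Bool.not_true,
      Bool.false_or] at h6
    exact gen_sq (by rw [← q3, C.mul _ _ b7 b7]) ((h5 z).1 h6).2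
  · intro y hy h2
    obtain ⟨z, hz, rfl, hT⟩ := cd y hy
    obtain ⟨-, l, m, h3, h5⟩ := C.sub hA
    have h6 := allN_iff.1 h3 z hz
    simp only [cf cA hz h2, hT, Bool.not_true, Bool.false_or, Bool.or_eq_true, Nat.beq_eq,
      anyL_iff, Bool.and_eq_true] at h6
    rcases h6 with ((rfl | rfl) | rfl) | ⟨q, -, hq, rfl⟩
    · exact .inl rfl
    · exact .inr (.inl rfl)
    · exact .inr (.inr (.inl (C.mul _ _ b1 b2)))
    · exact .inr (.inr (.inr ⟨evL gs q,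
        gen_sq (by rw [← q1, C.mul _ _ b3 b3]) ((h5 q).1 hq).2, C.cj_eq b9 ((h5 q).1 hq).1⟩))

end Cfsg.Lib.L33E
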