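import Cfsg.Agent.L33E.IdS
import Cfsg.Agent.L33E.Der

/-! The Sylow subgroup of the simple normal subgroup as a tower. -/

set_option autoImplicit false

namespace Cfsg.Lib.L33E

open Subgroup

variable {G : Type*} [Group G] {M : Md} {gs : List G} {X : Subgroup G} {s : ℕ} {D : Tw}

theorem idgen [Finite G] (S : St X s D gs) (C : Ch M gs) (hs : Syl gs) {c : ℕ} (hX : XC X gs c)
    {σ : List ℕ} {D' : Tw} (h : chkId M c σ D' = true) : (evL gs 1 ∈ X ↔ c = 0) ∧
      ∃ (T : Sylow 2 X) (hs : List X), Sat D' hs ∧ (T : Subgroup X) = gen hs := by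
  have := Fact.mk Nat.prime_two
  simp only [chkId, Bool.and_eq_true, Bool.or_eq_true, bnd_iff, allL_iff, inT, Nat.beq_eq] at h
  obtain ⟨⟨⟨hb, hi⟩, hr⟩, hc⟩ := h
  have h1 : evL gs 1 ∈ X ↔ par (Nat.land 1 c) = 0 :=
    hX.2 1 (Nat.one_lt_two_pow (by have := S.s5; have := S.sle; omega))
  have h2 : evL gs 1 ∈ X ↔ c = 0 := by
    rcases hc with ⟨rfl, -⟩ | ⟨a, -⟩
    · exact h1.trans ⟨fun _ => rfl, fun _ => rfl⟩
    · rw [h1, show Nat.land 1 c = 1 from (Nat.and_comm 1 c).trans a]
      refine ⟨fun e => absurd e (by decide), fun e => ?_⟩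
      rw [e] at a
      exact absurd a (by decide)
  refine ⟨h2, ?_⟩
  have m : ∀ x ∈ σ.map (evL gs), x ∈ X := fun x hx => by
    obtain ⟨y, hy, rfl⟩ := List.mem_map.1 hx
    exact (hX.2 y (by rw [C.len, ← C.pow]; exact hb y hy)).2 (hi y hy)
  have k := rb_sat C hr
  have l : (σ.map (evL gs)).length = σ.length := List.length_map _
  generalize σ.map (evL gs) = ys at m k l
  lift ys to List X using m with ks
  have k' : Sat D' ks := Sat.of_mapI (f := X.subtype) X.subtype_injective k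
  rw [List.length_map] at l
  obtain ⟨P, hP⟩ := hs
  have a := P.card_eq_multiplicity
  rw [hP, C.card, Nat.pow_right_inj one_lt_two, ← X.card_mul_index,
    Nat.factorization_mul Nat.card_pos.ne' X.index_ne_zero_of_finite, Finsupp.add_apply] at a
  refine ⟨Sylow.ofCard (gen ks) ?_, ks, k', rfl⟩
  rw [k'.cardI, l]
  congr 1
  rcases hc with ⟨c0, b⟩ | ⟨c1, b⟩
  · have : X = ⊤ := eq_top_iff.2 fun g _ =>
      (S.amb.idx g).elim id (mul_mem_cancel_right (h2.2 c0)).1
    rw [index_eq_one.2 this] at a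
    simpa [b] using a
  · have n : evL gs 1 ∉ X := fun e => by
      rw [h2.1 e] at c1
      exact absurd c1 (by decide)
    have : X.index = 2 := index_eq_two_iff.2 ⟨evL gs 1, fun g => (em (g ∈ X)).elim
      (fun e => .inr ⟨e, fun e' => n ((mul_mem_cancel_left e).1 e')⟩)
      fun e => .inl ⟨(S.amb.idx g).resolve_left e, e⟩⟩
    rw [this, Nat.prime_two.factorization_self] at a
    omega

end Cfsg.Lib.L33E
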