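import Cfsg.Agent.L33E.Xs
import Cfsg.Agent.L33E.Dfs

/-!
# The certified climb: extremal conjugation and local bounds
-/

set_option autoImplicit false

namespace Cfsg.Lib.L33E

variable {G : Type*} [Group G] {M : Md} {gs : List G} {X : Subgroup G} {s : ℕ} {D : Tw} {E : Env}

open Xs Der

namespace Loc

open Subgroup

theorem dfs_bnd {Tm Am lb m : ℕ} {xs : List ℕ} {Ls : List Lv} {sts outs : List (List ℕ)}
    (h : dfs M E Tm Am xs Ls lb m sts outs = true) : (∀ x ∈ xs, x < M.N) ∧ m ≤ xs.length := by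
  simp only [dfs, Bool.and_eq_true, bnd_iff, Nat.ble_eq] at h
  exact ⟨h.1.1.1.1.1.1.1, h.1.1.1.2⟩

theorem core [Finite G] (S : St X E.s D gs) (C : Ch M gs) (hE : EnvOK E gs) {xs : List ℕ}
    {Ls : List Lv} {outs : List (List ℕ)} (hc : IsConj (evL gs (xs.headD 0)) (evL gs 1))
    (h : dfs M E (full (pw E.s)) (full (pw E.s)) xs Ls 0 1 [[1]] outs = true) {R : Subgroup G}
    (hR : IsPGroup 2 R) (hx : ∀ x ∈ xs, evL gs x ∈ R)
    (he : ∀ u ∈ R, Commute u (evL gs (xs.headD 0))) :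
    ∃ g : G, (∀ u ∈ R, ∃ y < 2 ^ E.s, g⁻¹ * u * g = evL gs y) ∧
      ∃ o ∈ outs, Cj g ((xs.take o.length).map (evL gs)) (o.map (evL gs)) := by
  obtain ⟨c, hc⟩ := isConj_iff.1 hc
  obtain ⟨g, hg, hy⟩ := S.conj_in C (hR.map (MulAut.conj c).toMonoidHom) (by
    rintro _ ⟨u, hu, rfl⟩
    have := comm_conj (he u hu) c⁻¹
    rwa [inv_inv, hc] at this)
  have N := S.pow_le C
  have e0 : (c⁻¹ * g)⁻¹ * evL gs (xs.headD 0) * (c⁻¹ * g) = evL gs 1 := by
    rw [show (c⁻¹ * g)⁻¹ * evL gs (xs.headD 0) * (c⁻¹ * g) =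
      g⁻¹ * (c * evL gs (xs.headD 0) * c⁻¹ * g) by group, hc, ← hg.eq, inv_mul_cancel_left]
  obtain ⟨g', h1, h2⟩ := dfs_sound C hE
    (fun g => ∀ u ∈ R, ∃ y < 2 ^ E.s, g⁻¹ * u * g = evL gs y) (g := c⁻¹ * g) (st := [1])
    (fun a b ha hb a' b' => by
      rw [bit_full, pw_eq] at a' b' ⊢
      refine S.lt_of_comm C (C.lt _ _ (C.ilt _ ha) hb) ?_
      rw [C.mul _ _ (C.ilt _ ha) hb, C.inv _ ha]
      exact (S.cen a a').inv_left.mul_left (S.cen b b'))
    (fun g hg x h => by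
      obtain ⟨y, a, b⟩ := hg _ (hx x h)
      exact ⟨y, a.trans_le N, b, by rwa [bit_full, pw_eq]⟩)
    (fun g w hw a hg u hu => by
      rw [bit_full, pw_eq] at a
      obtain ⟨y, b, e⟩ := hg u hu
      have hy := b.trans_le N
      refine ⟨M.cj y w, S.lt_of_comm C (C.cj_lt hy hw) ?_, ?_⟩
      · rw [C.cj_eq hy hw]
        exact ((S.cen w a).inv_left.mul_left (S.cen y b)).mul_left (S.cen w a)
      · rw [C.cj_eq hy hw, ← e]; group)
    (fun _ _ _ _ _ => Nat.zero_le _) h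
    (fun u hu => by
      obtain ⟨y, a, b⟩ := hy _ (mem_map_of_mem _ hu)
      refine ⟨y, a, ?_⟩
      rw [← b]
      change _ = g⁻¹ * (c * u * c⁻¹) * g
      group)
    (List.mem_singleton_self _) (by
      cases xs with
      | nil => exact absurd (dfs_bnd h).2 (by decide)
      | cons x xs => exact List.Forall₂.cons e0 List.Forall₂.nil)
  exact ⟨g', h1, h2⟩

theorem conj_gen {B : List G} {u : G} (h : ∀ x ∈ B, u⁻¹ * x * u ∈ gen B) {x : G} (hx : x ∈ gen B) :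
    u⁻¹ * x * u ∈ gen B :=
  (closure_le (gen B)).2 (fun y hy => by
    obtain ⟨z, hz, rfl⟩ := List.mem_map.1 hy
    exact h z hz) (cj_gen (cj_map u B) hx)

theorem le_norm {B : List G} {U : Subgroup G} (h : ∀ u ∈ U, ∀ x ∈ B, u⁻¹ * x * u ∈ gen B) :
    U ≤ normalizer (gen B : Set G) := fun u hu => mem_normalizer_iff.2 fun x =>
  ⟨fun hx => by simpa using conj_gen (h _ (inv_mem hu)) hx,
    fun hx => by simpa [mul_assoc] using conj_gen (h _ hu) hx⟩

end Loc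

open Loc

theorem extr [Finite G] (S : St X E.s D gs) (C : Ch M gs) (hE : EnvOK E gs) {xs : List ℕ}
    {Ls : List Lv} {outs : List Pr} (hc : IsConj (evL gs (xs.headD 0)) (evL gs 1))
    (h : chkExtr M E xs Ls outs = true) : AnyL outs (FusC gs) := by
  simp only [chkExtr, Bool.and_eq_true, allL_iff, frc_eq, preOK, eqL_iff] at h
  obtain ⟨⟨h1, h2⟩, h3⟩ := h
  obtain ⟨hb, hl⟩ := dfs_bnd h3
  have h0 : xs.headD 0 < M.N := by
    cases xs with
    | nil => exact C.pos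
    | cons x xs => exact hb x List.mem_cons_self
  obtain ⟨g, -, o, ho, hg⟩ := core S C hE hc h3 (C.isP.to_le gen_le)
    (fun x hx => Subgroup.subset_closure (List.mem_map_of_mem hx)) fun u hu =>
      comm_gen (fun x hx => by
        obtain ⟨y, hy, rfl⟩ := List.mem_map.1 hx
        exact ((C.cm_iff h0 (hb y hy)).1 (h1 y hy)).symm) hu
  obtain ⟨F, hF, rfl⟩ := List.mem_map.1 ho
  exact AnyL_iff.2 ⟨F, hF, g, by rw [h2 F hF]; exact hg⟩

theorem loc [Finite G] (S : St X E.s D gs) (C : Ch M gs) (hE : EnvOK E gs) {xs : List ℕ}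
    {Ls : List Lv} {outs : List (List ℕ)} {m : ℕ} (h : chkLoc M E xs Ls outs m = true) :
    SC (xs.map (evL gs)) ∧ NB ([1].map (evL gs)) (xs.map (evL gs)) m := by
  simp only [chkLoc, Bool.and_eq_true, allL_iff, frc_eq, Nat.beq_eq] at h
  obtain ⟨⟨⟨h0, h1⟩, h2⟩, h3⟩ := h
  obtain ⟨hb, hl⟩ := dfs_bnd h3
  have N := S.pow_le C
  have h1x : 1 ∈ xs := by
    cases xs with
    | nil => exact absurd h0 (by decide)
    | cons x xs => exact List.mem_cons.2 (Or.inl h0.symm)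
  have key : ∀ U : Subgroup G, IsPGroup 2 U → (∀ u ∈ U, Commute u (evL gs 1)) →
      (∀ u ∈ U, ∀ x ∈ xs.map (evL gs), u⁻¹ * x * u ∈ gen (xs.map (evL gs))) →
      ∃ g : G, (∀ u ∈ U, ∃ y < 2 ^ E.s, g⁻¹ * u * g = evL gs y) ∧
        ∃ o ∈ outs, Cj g (xs.map (evL gs)) (o.map (evL gs)) := fun U hU hc hn => by
    obtain ⟨g, a, o, ho, hg⟩ := core S C hE (by rw [h0]) h3
      (hU.to_sup_of_normal_right' (C.isP.to_le gen_le) (le_norm hn))
      (fun x hx => Subgroup.mem_sup_right (Subgroup.subset_closure (List.mem_map_of_mem hx)))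
      fun u hu => by
        rw [h0]
        exact comm_sup hc (fun u hu => comm_gen (fun x hx => by
          obtain ⟨y, hy, rfl⟩ := List.mem_map.1 hx
          exact ((C.cm_iff (hb 1 h1x) (hb y hy)).1 (h1 y hy)).symm) hu) hu
    rw [(h2 o ho).1, List.take_length] at hg
    exact ⟨g, fun u hu => a u (Subgroup.mem_sup_left hu), o, ho, hg⟩
  have pre : ∀ {g : G} {o : List ℕ}, Cj g (xs.map (evL gs)) (o.map (evL gs)) → ∀ y ∈ o,
      ∃ b ∈ xs.map (evL gs), g⁻¹ * b * g = evL gs y := fun hg y hy => by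
    have := List.mem_map_of_mem (f := evL gs) hy
    rw [cj_iff.1 hg] at this
    exact List.mem_map.1 this
  refine ⟨fun u ⟨k, hk⟩ hc => ?_, fun U hU hc hn => ?_⟩
  · have hz : ∀ v ∈ Subgroup.zpowers u, ∀ x ∈ xs.map (evL gs), Commute v x := by
      rintro _ ⟨j, rfl⟩ x hx
      exact (hc x hx).zpow_left j
    obtain ⟨g, a, o, ho, hg⟩ := key (Subgroup.zpowers u) (by
        rintro ⟨_, j, rfl⟩
        refine ⟨k, Subtype.ext ?_⟩
        change (u ^ j) ^ 2 ^ k = 1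
        rw [← zpow_natCast, zpow_comm, zpow_natCast, hk, one_zpow])
      (fun v hv => hz v hv _ (List.mem_map_of_mem h1x)) fun v hv x hx => by
        rw [mul_assoc, ← (hz v hv x hx).eq, inv_mul_cancel_left]
        exact Subgroup.subset_closure hx
    obtain ⟨hob, l, mk, h4, h5⟩ := C.sub (h2 o ho).2
    simp only [Bool.and_eq_true, allN_iff, Bool.or_eq_true, anyL_iff, pw_eq,
      Bool.not_eq_true'] at h4
    obtain ⟨x, hx, e⟩ := a u (Subgroup.mem_zpowers u)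
    rcases h4.1 x hx with b | ⟨y, hy, b⟩
    · have := cj_gen (cj_symm hg) ((h5 x).1 b).2
      rwa [← e, show g⁻¹⁻¹ * (g⁻¹ * u * g) * g⁻¹ = u by group] at this
    · obtain ⟨z, hz, ez⟩ := pre hg y hy
      rw [(C.cm_iff (hx.trans_le N) (hob y hy)).2 (e ▸ ez ▸ comm_conj (hc z hz) g)] at b
      exact absurd b (by decide)
  · obtain ⟨g, a, o, ho, hg⟩ := key U hU (fun u hu => hc u hu _ (by simp)) hn
    obtain ⟨hob, l, mk, h4, h5⟩ := C.sub (h2 o ho).2
    simp only [Bool.and_eq_true, filN_eq, Nat.ble_eq, pw_eq] at h4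
    refine (card_le_of_codes gs g fun u hu => ?_).trans h4.2
    obtain ⟨x, hx, e⟩ := a u hu
    refine ⟨x, List.mem_filter.2 ⟨List.mem_range.2 hx, allL_iff.2 fun y hy => (h5 _).2
      ⟨C.cj_lt (hob y hy) (hx.trans_le N), ?_⟩⟩, e⟩
    obtain ⟨z, hz, ez⟩ := pre hg y hy
    rw [C.cj_eq (hob y hy) (hx.trans_le N), ← e, ← ez,
      show (g⁻¹ * u * g)⁻¹ * (g⁻¹ * z * g) * (g⁻¹ * u * g) = g⁻¹ * (u⁻¹ * z * u) * g by group]
    exact cj_gen hg (hn u hu z hz)

end Cfsg.Lib.L33E
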