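import Cfsg.Agent.L33E.PhiA
import Cfsg.Agent.L33E.Xs

/-!
# Soundness of the Frattini type test
-/

set_option autoImplicit false

namespace Cfsg.Lib.L33E

variable {G : Type*} [Group G] {M : Md} {gs : List G} {X : Subgroup G} {s : ℕ} {D : Tw} {E : Env}

namespace Phi

open Subgroup

theorem sub_cover (C : Ch M gs) {xs : List ℕ} {k : List ℕ → ℕ → Bool} (h : M.sub xs k = true) :
    ∀ g ∈ gen (xs.map (evL gs)), ∃ m < 2 ^ xs.length, evL (xs.map (evL gs)) m = g := by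
  have hb := (C.sub h).1
  obtain ⟨l, h1, h2⟩ := C.spanL_mem hb id
  have h' : M.sub xs (fun _ m => Nat.beq m (maskL l)) = true := by
    rw [spanL_foldl] at h1
    rw [Md.sub, spanL_foldl, Bool.and_eq_true, frc_eq, Bool.and_eq_true] at h ⊢
    refine ⟨h.1, h.2.1, ?_⟩
    rw [show List.foldl _ _ xs = l from h1]
    exact Nat.beq_refl _
  obtain ⟨-, l', m, h3, h4⟩ := C.sub h'
  rw [Nat.eq_of_beq_eq_true h3] at h4
  intro g hg
  obtain ⟨x, hx, rfl⟩ := C.mem_iff.1 (Xs.gen_le hg)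
  obtain ⟨-, m, hm⟩ := (h2 x).1 ((bit_maskL _ _).1 ((h4 x).2 ⟨hx, hg⟩))
  refine ⟨m % 2 ^ xs.length, Nat.mod_lt _ (Nat.two_pow_pos _), ?_⟩
  rw [hm, ← evL_mod _ m, List.length_map]

theorem exists_par {U : Subgroup G} (hm : ∀ a ∈ U, ∀ b ∈ U, a * b ∈ X ↔ (a ∈ X ↔ b ∈ X))
    (gs : List G) (hU : ∀ g ∈ gs, g ∈ U) (hl : gs.length ≤ 12) : ∃ c, XC X gs c := by
  classical
  induction gs with
  | nil =>
    refine ⟨0, by simp, fun x _ => ?_⟩
    have : Nat.land x 0 = 0 := Nat.and_zero x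
    rw [this]
    exact iff_of_true (one_mem _) rfl
  | cons g cs ih =>
    have hU' : ∀ a ∈ cs, a ∈ U := fun a ha => hU a (List.mem_cons_of_mem _ ha)
    obtain ⟨c, h1, h2⟩ := ih hU' (by simp at hl; omega)
    have hp : 2 ^ (g :: cs).length ≤ 4096 := Nat.pow_le_pow_right (n := 2) two_pos hl
    rw [List.length_cons, pow_succ] at hp
    refine ⟨(if g ∈ X then 0 else 1) + 2 * c, ?_, fun x hx => ?_⟩
    · rw [List.length_cons, pow_succ]; split_ifs <;> omega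
    rw [List.length_cons, pow_succ] at hx
    set c' := (if g ∈ X then 0 else 1) + 2 * c with hc'
    have e1 : Nat.land x c' / 2 = Nat.land (x / 2) c := by
      have : c' / 2 = c := by rw [hc']; split_ifs <;> omega
      exact this ▸ Nat.and_div_two
    have e2 : Nat.land x c' % 2 = 1 ↔ x % 2 = 1 ∧ g ∉ X := by
      have : c' % 2 = 1 ↔ g ∉ X := by rw [hc']; split_ifs with h <;> simp [h]
      exact Nat.and_mod_two_eq_one.trans (and_congr_right' this)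
    have e3 : Nat.land x c' < 4096 := lt_of_le_of_lt Nat.and_le_left (by omega)
    have e4 : (if x % 2 = 1 then g else 1) ∈ U := by
      split_ifs
      · exact hU g List.mem_cons_self
      · exact U.one_mem
    rw [evL_cons, hm _ e4 _ (evL_mem_of hU' _), h2 _ (by omega), par_step _ e3, e1]
    have := par_le (Nat.land (x / 2) c)
    by_cases hx2 : x % 2 = 1 <;> by_cases hg : g ∈ X <;>
      simp only [hx2, hg, not_true, not_false_iff, and_true, and_false, iff_true, iff_false,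
        if_true, if_false, one_mem, true_iff, false_iff] at e2 ⊢ <;> omega

theorem law_rel [Finite G] {U H : Subgroup G} (hU : IsPGroup 2 U) (h : H.relIndex U ≤ 4) {x y : G}
    (hx : x ∈ U) (hy : y ∈ U) : x * x * (x * x) ∈ H ∧ (x * x)⁻¹ * (y⁻¹ * (x * x) * y) ∈ H := by
  obtain ⟨h1, h2⟩ := law_mem hU (H := H.subgroupOf U) h ⟨x, hx⟩ ⟨y, hy⟩
  refine ⟨?_, h2⟩
  rw [show x * x * (x * x) = x ^ 4 by simp only [pow_succ, pow_zero, one_mul, mul_assoc]]
  exact h1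

theorem law_eq (C : Ch M gs) {x y : ℕ} (hx : x < M.N) (hy : y < M.N) : M.law x y < M.N ∧
    evL gs (M.law x y) = (evL gs x * evL gs x)⁻¹ * ((evL gs y)⁻¹ * (evL gs x * evL gs x) *
      evL gs y) := by
  have h1 := C.lt _ _ hx hx
  rw [Md.law, frc_eq]
  exact ⟨C.lt _ _ (C.ilt _ h1) (C.cj_lt h1 hy), by
    rw [C.mul _ _ (C.ilt _ h1) (C.cj_lt h1 hy), C.inv _ h1, C.cj_eq h1 hy, C.mul _ _ hx hx]⟩

theorem lawT_mem [Finite G] (C : Ch M gs) {cs : List ℕ} (hb : ∀ x ∈ cs, x < M.N) {r c : ℕ}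
    {w : ℕ × ℕ × ℕ × ℕ × ℕ} {U H : Subgroup G} (hU : IsPGroup 2 U) (h : H.relIndex U ≤ 4)
    (hc : ∀ m < 2 ^ cs.length, inT c m = true → evL (cs.map (evL gs)) m ∈ U)
    (hw : (((w.1 < 2 ^ cs.length ∧ w.2.1 < 2 ^ cs.length) ∧ w.2.2.1 < 2 ^ cs.length) ∧
      w.2.2.2.1 < 2 ^ cs.length) ∧ w.2.2.2.2 < 2 ^ cs.length)
    (ht : lawT M cs r c w = true) : evL gs r ∈ H := by
  simp only [lawT, Bool.and_eq_true, frc_eq, Nat.beq_eq] at ht
  obtain ⟨⟨⟨⟨⟨t1, t2⟩, t3⟩, t4⟩, t5⟩, rfl⟩ := ht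
  obtain ⟨⟨⟨⟨w1, w2⟩, w3⟩, w4⟩, w5⟩ := hw
  have hm : ∀ m < 2 ^ cs.length, inT c m = true → evL gs (M.ev cs m) ∈ U := fun m a b => by
    rw [C.ev_eq hb]
    exact hc m a b
  have a1 := C.ev_lt hb w.1
  have a2 := C.lt _ _ a1 a1
  have a3 := C.lt _ _ a2 a2
  obtain ⟨b1, b2⟩ := law_eq C (C.ev_lt hb w.2.1) (C.ev_lt hb w.2.2.1)
  obtain ⟨c1, c2⟩ := law_eq C (C.ev_lt hb w.2.2.2.1) (C.ev_lt hb w.2.2.2.2)
  rw [C.mul _ _ (C.lt _ _ a3 b1) c1, C.mul _ _ a3 b1, b2, c2, C.mul _ _ a2 a2, C.mul _ _ a1 a1]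
  exact H.mul_mem (H.mul_mem (law_rel hU h (hm _ w1 t1) (hm _ w1 t1)).1
    (law_rel hU h (hm _ w2 t2) (hm _ w3 t3)).2) (law_rel hU h (hm _ w4 t4) (hm _ w5 t5)).2

end Phi

open Phi Subgroup in
theorem phi_of [Finite G] (C : Ch M gs) {k r : ℕ} {cs : List ℕ} {K : List (ℕ × ℕ)}
    {ws : List (ℕ × ℕ × ℕ × ℕ × ℕ)} (h : chkPhi M k r cs K ws = true) : PhiP gs k r := by
  simp only [chkPhi, Bool.and_eq_true, Bool.or_eq_true, Nat.blt_eq, Nat.ble_eq, allL_iff, anyL_iff,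
    allN_iff, pw_eq, frc_eq, Nat.beq_eq, Nat.add_eq] at h
  obtain ⟨⟨⟨⟨⟨⟨hr, h12⟩, -⟩, hsub⟩, hK⟩, hw⟩, hmode⟩ := h
  have hcov := sub_cover C hsub
  obtain ⟨hb, l, m, h3, h4⟩ := C.sub hsub
  rw [cjT_eq, filN_eq, allL_iff] at h3
  set C0 := gen (cs.map (evL gs)) with hC0
  have hcen : ∀ g ∈ gen gs, Commute g (evL gs r) → g ∈ C0 := fun g hg hc => by
    obtain ⟨x, hx, rfl⟩ := C.mem_iff.1 hg
    exact ((h4 x).1 (h3 x (List.mem_filter.2 ⟨List.mem_range.2 hx,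
      (C.cjT_iff hr hr hx).2 hc.eq⟩))).2
  have hcard : Nat.card C0 ≤ 2 ^ cs.length := by
    have := card_le_of_codes (cs.map (evL gs)) (U := C0) (l := List.range (2 ^ cs.length)) 1
      fun u hu => by
        obtain ⟨m, hm, e⟩ := hcov u hu
        exact ⟨m, List.mem_range.2 hm, by rw [inv_one, one_mul, mul_one, e]⟩
    rwa [List.length_range] at this
  have hP : IsPGroup 2 C0 := C.isP.to_le Xs.gen_le
  intro H hH hc hk
  have hle : H ≤ C0 := fun g hg => hcen g (hH hg) (hc g hg)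
  have hidx : ∀ j, cs.length ≤ k + j → H.relIndex C0 ≤ 2 ^ j := fun j hj => by
    have e : Nat.card H * H.relIndex C0 = Nat.card C0 := by
      rw [← (H.subgroupOf C0).card_mul_index, Nat.card_congr (subgroupOfEquivOfLe hle).toEquiv]
      rfl
    have h5 : 2 ^ k * H.relIndex C0 ≤ 2 ^ k * 2 ^ j := by
      rw [← pow_add]
      exact (Nat.mul_le_mul_right _ hk).trans (e ▸ hcard.trans (Nat.pow_le_pow_right two_pos hj))
    exact Nat.le_of_mul_le_mul_left h5 (Nat.two_pow_pos k)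
  have hev : ∀ m, evL gs (M.ev cs m) ∈ C0 := fun m => by
    rw [C.ev_eq hb]
    exact evL_mem _ _
  rcases hmode with (⟨h5, w, -, rfl⟩ | ⟨h5, w, hw', ht⟩) | ⟨h5, h6⟩
  · have a1 := C.ev_lt hb w.1
    have a2 := C.ev_lt hb w.2.1
    have h7 : H.relIndex C0 ≤ 2 := hidx 1 h5
    rw [C.mul _ _ (C.lt _ _ a1 a1) (C.lt _ _ a2 a2), C.mul _ _ a1 a1, C.mul _ _ a2 a2]
    exact H.mul_mem ((mul_iff_of_relIndex h7 (hev _) (hev _)).2 Iff.rfl)
      ((mul_iff_of_relIndex h7 (hev _) (hev _)).2 Iff.rfl)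
  · exact lawT_mem C hb hP (hidx 2 h5) (fun m _ _ => evL_mem _ _) (hw w hw') ht
  · by_cases ht : H.subgroupOf C0 = ⊤
    · exact subgroupOf_eq_top.1 ht (hcen _ (evL_mem _ _) (Commute.refl _))
    obtain ⟨K', hK1, hK2⟩ := exists_idx2 hP ht
    have hK0 : K'.map C0.subtype ≤ C0 := map_subtype_le K'
    have hK3 : (K'.map C0.subtype).relIndex C0 = 2 := by
      rw [relIndex, subgroupOf, comap_map_eq_self_of_injective (subtype_injective C0), hK2]
    have hK4 : H ≤ K'.map C0.subtype := fun g hg => ⟨⟨g, hle hg⟩, hK1 hg, rfl⟩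
    set K0 := K'.map C0.subtype
    have hm : ∀ a ∈ C0, ∀ b ∈ C0, a * b ∈ K0 ↔ (a ∈ K0 ↔ b ∈ K0) := fun a ha b hb =>
      mul_iff_of_relIndex hK3.le ha hb
    obtain ⟨c, hc1, hc2⟩ := exists_par hm (cs.map (evL gs)) (fun g hg => subset_closure hg)
      (by rwa [List.length_map])
    rw [List.length_map] at hc1 hc2
    rcases h6 c hc1 with (rfl | ⟨e, he, hp⟩) | ⟨w, hw', ht'⟩
    · have : C0 ≤ K0 := fun g hg => by
        obtain ⟨m, hm, rfl⟩ := hcov g hg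
        refine (hc2 m hm).2 ?_
        rw [show Nat.land m 0 = 0 from Nat.and_zero m]
        rfl
      rw [relIndex_eq_one.2 this] at hK3
      omega
    · obtain ⟨⟨-, e2⟩, e3⟩ := hK e he
      have a1 := C.ev_lt hb e.1
      have : evL (cs.map (evL gs)) e.2 ∈ K0 := by
        rw [← C.ev_eq hb, ← e3, C.mul _ _ a1 a1]
        exact (hm _ (hev _) _ (hev _)).2 Iff.rfl
      rw [(hc2 _ e2).1 this] at hp
      omega
    · refine lawT_mem C hb (hP.to_le hK0) ?_ (fun m hm hi => (hc2 m hm).2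
        (Nat.eq_of_beq_eq_true hi)) (hw w hw') ht'
      have e1 := relIndex_mul_relIndex H K0 C0 hK4 hK0
      have e2 : H.relIndex C0 ≤ 8 := hidx 3 h5
      rw [hK3] at e1
      omega

end Cfsg.Lib.L33E
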