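import Cfsg.Agent.L33E.BasC

/-!
# The certified climb: the stabiliser bound
-/

set_option autoImplicit false

namespace Cfsg.Lib.L33E

variable {G : Type*} [Group G] {M : Md} {gs : List G}

namespace Stab

theorem by_map {bs ms as : List ℕ} (h : M.by bs ms as = true) : ms.map (M.ev bs) = as := by
  rw [← List.forall₂_eq_eq_eq, List.forall₂_map_left_iff]
  exact (all2_iff.1 h).imp fun _ _ e => Nat.eq_of_beq_eq_true e

theorem cj_iff {g : G} {xs ys : List G} : Cj g xs ys ↔ xs.map (fun x => g⁻¹ * x * g) = ys := by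
  rw [← List.forall₂_eq_eq_eq, List.forall₂_map_left_iff]; rfl

theorem map_ev (C : Ch M gs) {bs : List ℕ} (hb : ∀ x ∈ bs, x < M.N) (ms : List ℕ) :
    (ms.map (M.ev bs)).map (evL gs) = ms.map (evL (bs.map (evL gs))) := by
  rw [List.map_map]
  exact List.map_congr_left fun m _ => C.ev_eq hb m

theorem cj_step {g h : G} {B O : List G} {ms : List ℕ} (h1 : Cj h B (ms.map (evL B)))
    (h2 : Cj g B O) : Cj (h * g) B (ms.map (evL O)) := by
  rw [cj_iff] at h1 ⊢
  rw [show (fun x => (h * g)⁻¹ * x * (h * g)) = (fun x => g⁻¹ * x * g) ∘ fun x => h⁻¹ * x * h from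
    funext fun x => by simp only [Function.comp]; group, ← List.map_map, h1, List.map_map]
  exact List.map_congr_left fun m _ => h2.evL m

theorem cj_cent {c : G} {B : List G} : Cj c B B ↔ c ∈ Subgroup.centralizer {x | x ∈ B} := by
  rw [cj_iff, Subgroup.mem_centralizer_iff]
  conv_lhs => rhs; rw [← List.map_id B]
  rw [List.map_inj_left]
  exact forall₂_congr fun x _ => by rw [mul_assoc, inv_mul_eq_iff_eq_mul]; rfl

theorem cj_mul {c g : G} {B A O : List G} (h1 : Cj c B A) (h2 : Cj g A O) : Cj (c * g) B O := by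
  rw [cj_iff] at *
  rw [← h2, ← h1, List.map_map]
  exact List.map_congr_left fun x _ => by simp only [Function.comp]; group

theorem cj_inv {g : G} {B O : List G} (h : Cj g B O) : Cj g⁻¹ O B := by
  rw [cj_iff] at *
  rw [← h, List.map_map]
  conv_rhs => rw [← List.map_id B]
  exact List.map_congr_left fun x _ => by simp only [Function.comp, id]; group

theorem nodup_of {L : List (List ℕ)}
    (h : List.rec (motive := fun _ => Bool) true (fun o l ih => !memL o l && ih) L = true) :
    L.Nodup := by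
  induction L with
  | nil => exact List.nodup_nil
  | cons o l ih =>
    simp only [Bool.and_eq_true, Bool.not_eq_true', ← Bool.not_eq_true, memL_iff] at h
    exact List.nodup_cons.2 ⟨h.1, ih h.2⟩

/-- The elements whose left multiplication preserves a set. -/
def lst [Finite G] (P : Set G) : Subgroup G where
  carrier := {k | ∀ g ∈ P, k * g ∈ P}
  one_mem' := fun g hg => by simpa using hg
  mul_mem' := fun h1 h2 g hg => by rw [mul_assoc]; exact h1 _ (h2 g hg)
  inv_mem' := fun {k} h g hg => by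
    obtain ⟨z, hz, rfl⟩ := (((Set.toFinite P).injOn_iff_bijOn_of_mapsTo (f := (k * ·)) h).1
      (mul_right_injective k).injOn).surjOn hg
    simpa using hz

theorem lst_eq_1' : type_of% @lst.eq_1 := @lst.eq_1

end Stab

open Stab

theorem stab [Finite G] (C : Ch M gs) {bs fx fm zs : List ℕ} {Fs : List Pr} {L : List (List ℕ)}
    {pa : List (ℕ × ℕ)} {k m : ℕ} (hF : AllL Fs fun F => FusC gs (bs, F.1))
    (hb : NB (fx.map (evL gs)) (bs.map (evL gs)) m)
    (h : chkStab M bs fx fm zs Fs L pa k m = true) : False := by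
  simp only [chkStab, Bool.and_eq_true, allL_iff, bnd_iff, eqL_iff, Nat.blt_eq, all2_iff, mapK_eq,
    memL_iff, Nat.beq_eq, Nat.ble_eq, pw_eq] at h
  obtain ⟨⟨⟨⟨⟨⟨⟨⟨⟨⟨⟨⟨hbs, hfx⟩, hFs⟩, hz⟩, hzc⟩, hL⟩, h0⟩, hpos⟩, hpa⟩, hnd⟩, hcl⟩, hk⟩, hm⟩ := h
  replace hnd := nodup_of hnd
  rw [AllL_iff] at hF
  set B := bs.map (evL gs) with hB
  set Z := Subgroup.centralizer {x | x ∈ B} with hZ
  let P : Set G := {g | ∃ o ∈ L, Cj g B (o.map (evL gs)) ∧ (∀ y ∈ o.map (evL gs), y ∈ gen B) ∧
    ∀ x ∈ fx.map (evL gs), Commute g x}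
  have hbL : bs ∈ L := by
    cases L with
    | nil => simp at hpos
    | cons a l => rw [← h0]; simp
  have fix : ∀ g (A : List ℕ), (∀ x ∈ A, x < M.N) → Cj g B (A.map (evL gs)) →
      M.by A fm fx = true → ∀ x ∈ fx.map (evL gs), Commute g x := fun g A hA h1 h2 x hx => by
    have e1 := map_ev C hbs fm
    have e2 := map_ev C hA fm
    rw [by_map hfx] at e1
    rw [by_map h2, e1, List.map_inj_left] at e2
    rw [e1] at hx
    obtain ⟨j, hj, rfl⟩ := List.mem_map.1 hx
    have := h1.evL j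
    rw [← e2 j hj, mul_assoc, inv_mul_eq_iff_eq_mul] at this
    exact this.symm
  have h1P : (1 : G) ∈ P := ⟨bs, hbL, cj_cent.2 (one_mem _),
    fun y hy => Subgroup.subset_closure hy, fun x _ => Commute.one_left x⟩
  have hP : ∀ g ∈ lst P, g ∈ P := fun g hg => by simpa using hg 1 h1P
  have hZK : Z ≤ lst P := by
    rintro c hc g ⟨o, ho, h1, h2, h3⟩
    exact ⟨o, ho, cj_mul (cj_cent.2 hc) h1, h2, fun x hx =>
      (fix c bs hbs (cj_cent.2 hc) hfx x hx).mul_left (h3 x hx)⟩
  have hFK : ∀ F ∈ Fs, ∃ g ∈ lst P, Cj g B (F.2.map (evL B)) := fun F hF' => by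
    obtain ⟨g, hg⟩ := hF F hF'
    obtain ⟨⟨f1, f2⟩, f3⟩ := hFs F hF'
    have hg' : Cj g B (F.2.map (evL B)) := by rw [← map_ev C hbs, by_map f2]; exact hg
    refine ⟨g, ?_, hg'⟩
    rintro g' ⟨o, ho, h1, h2, h3⟩
    refine ⟨_, hcl o ho F hF', ?_, ?_, fun x hx => (fix g F.1 f1 hg f3 x hx).mul_left (h3 x hx)⟩
    · rw [map_ev C (hL o ho)]; exact cj_step hg' h1
    · rw [map_ev C (hL o ho)]
      exact List.forall_mem_map.2 fun j _ => evL_mem_of h2 j
  have hs : ∀ j < L.length, ∃ g ∈ lst P, Cj g B ((L.getD j []).map (evL gs)) := by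
    intro j
    induction j using Nat.strong_induction_on with
    | _ j ih =>
      intro hj
      obtain _ | ⟨a, l⟩ := L
      · simp at hj
      obtain _ | j := j
      · exact ⟨1, one_mem _, by
          rw [show (a :: l).getD 0 [] = bs from h0]; exact cj_cent.2 (one_mem _)⟩
      have hj' : j < l.length := by simpa using hj
      have hlen := hpa.length_eq
      simp only [List.tail_cons, List.length_zip, List.length_range, min_self] at hlen
      have := (List.forall₂_iff_get.1 hpa).2 j (by simpa using hj') (hlen ▸ hj')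
      simp only [List.tail_cons, List.get_eq_getElem, List.getElem_zip, List.getElem_range] at this
      obtain ⟨⟨p1, p2⟩, p3⟩ := this
      obtain ⟨g, hg, e⟩ := ih _ (Nat.lt_succ_of_le p1) (by omega)
      obtain ⟨g', hg', e'⟩ := hFK (Fs.getD pa[j].2 ([], [])) (by
        rw [List.getD_eq_getElem _ _ p2]; exact List.getElem_mem _)
      refine ⟨g' * g, mul_mem hg' hg, ?_⟩
      rw [List.getD_cons_succ, List.getD_eq_getElem _ _ hj', ← by_map p3, map_ev C (hL _ (by
        rw [List.getD_eq_getElem _ _ (by omega)]; exact List.getElem_mem _))]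
      exact cj_step e' e
  choose! r hr er using hs
  have hcard : Nat.card (Fin L.length × Z) = Nat.card (lst P) := Nat.card_eq_of_bijective
    (fun x => ⟨x.2 * r x.1, mul_mem (hZK x.2.2) (hr _ x.1.2)⟩) ⟨?_, ?_⟩
  rotate_left
  · rintro ⟨i, c⟩ ⟨j, d⟩ e
    have e1 : (c : G) * r i = d * r j := congrArg Subtype.val e
    have e2 := cj_iff.1 (cj_mul (cj_cent.2 c.2) (er _ i.2))
    rw [e1, cj_iff.1 (cj_mul (cj_cent.2 d.2) (er _ j.2)), List.getD_eq_getElem _ _ i.2,
      List.getD_eq_getElem _ _ j.2] at e2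
    have e3 : L[j.1] = L[i.1] := by
      refine List.ext_getElem (by simpa using congrArg List.length e2) fun n h1 h2 => ?_
      refine C.inj _ _ (hL _ (List.getElem_mem _) _ (List.getElem_mem _))
        (hL _ (List.getElem_mem _) _ (List.getElem_mem _)) ?_
      have := List.getElem_of_eq e2 (i := n) (by simpa using h1)
      simpa using this
    obtain rfl : j = i := Fin.ext (hnd.getElem_inj_iff.1 e3)
    rw [Subtype.ext (mul_right_cancel e1)]
  · rintro ⟨g, hg⟩
    obtain ⟨o, ho, h1, -⟩ := hP g hg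
    obtain ⟨i, hi, rfl⟩ := List.getElem_of_mem ho
    have e := er i hi
    rw [List.getD_eq_getElem _ _ hi] at e
    exact ⟨⟨⟨i, hi⟩, ⟨g * (r i)⁻¹, cj_cent.1 (cj_mul h1 (cj_inv e))⟩⟩, Subtype.ext (by simp)⟩
  have hd : 2 ^ zs.length ∣ Nat.card Z := by
    obtain ⟨n, hn⟩ := (C.isP.to_inf_right (H := Z)).exists_card_eq
    have h1 := C.low_card hz (U := Z ⊓ gen gs) fun z hz' => ⟨Subgroup.mem_centralizer_iff.2 <| by
      rintro _ hx
      obtain ⟨b, hb', rfl⟩ := List.mem_map.1 hx
      exact ((C.cm_iff ((C.low hz).1 z hz') (hbs b hb')).1 (hzc z hz' b hb')).symm, evL_mem _ _⟩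
    rw [hn, Nat.pow_le_pow_iff_right one_lt_two] at h1
    exact ((pow_dvd_pow 2 h1).trans hn.symm.dvd).trans (Subgroup.card_dvd_of_le inf_le_left)
  rw [Nat.card_prod, Nat.card_fin] at hcard
  obtain ⟨U, hU⟩ := Sylow.exists_subgroup_card_pow_prime (G := lst P) 2 (n := k + zs.length) (by
    rw [← hcard, pow_add]
    exact mul_dvd_mul (Nat.dvd_of_mod_eq_zero hk) hd)
  have hU' : Nat.card (U.map (lst P).subtype) = 2 ^ (k + zs.length) := by
    rw [Subgroup.card_subtype, hU]
  have := hb _ (IsPGroup.of_card hU') (fun u hu =>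
    (hP u (Subgroup.map_subtype_le _ hu)).choose_spec.2.2.2) fun u hu x hx => by
      obtain ⟨o, -, h1, h2, -⟩ := hP u (Subgroup.map_subtype_le _ hu)
      exact h2 _ (cj_iff.1 h1 ▸ List.mem_map_of_mem hx)
  rw [hU'] at this
  exact absurd hm (not_lt.2 this)

end Cfsg.Lib.L33E
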