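import Cfsg.Agent.L33E.Chk
import Cfsg.Agent.Trans.TransferTools

/-!
# Transfer into `Z/4` with fixed points
-/

set_option autoImplicit false

namespace Cfsg.Lib.L33E

theorem tt_abs {H : Type*} [Group H] [Finite H] (T : Sylow 2 H) (la : T →* Multiplicative (ZMod 4))
    {u : H} (hu : u ∈ commutator H) (h4 : u ^ 4 = 1)
    (h1 : ∀ g : H, ∀ h : g⁻¹ * u * g ∈ (T : Subgroup H), la ⟨_, h⟩ ^ 2 = 1)
    (h2 : ∀ g : H, ∀ h : g⁻¹ * (u * u) * g ∈ (T : Subgroup H), la ⟨_, h⟩ = 1)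
    {R : Subgroup H} (hR : IsPGroup 2 R) (hc : ∀ r ∈ R, Commute r u) :
    ∃ g : H, (∀ r ∈ R, g⁻¹ * r * g ∈ (T : Subgroup H)) ∧
      ∃ h : g⁻¹ * u * g ∈ (T : Subgroup H), la ⟨_, h⟩ = 1 := by
  have : Fact (Nat.Prime 2) := ⟨Nat.prime_two⟩
  have hd : orderOf u ∣ 2 ^ 2 := orderOf_dvd_of_pow_eq_one h4
  obtain ⟨k, -, hk⟩ := (Nat.dvd_prime_pow Nat.prime_two).1 hd
  have hsq : ∀ z : Multiplicative (ZMod 4), z ^ 2 = 1 →
      z = 1 ∨ z = Multiplicative.ofAdd (2 : ZMod 4) := by decide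
  obtain ⟨a, ha, e1, e2⟩ := Cfsg.Lib.Trans.thompson_transfer (H := (T : Subgroup H)) la
    T.not_dvd_index u ⟨k, hk⟩ (by
      intro m hm hm1 a ha
      obtain ⟨j, hj, rfl⟩ := (Nat.dvd_prime_pow Nat.prime_two).1 (hm.trans hd)
      have hj' : j = 0 ∨ j = 1 ∨ j = 2 := by omega
      rcases hj' with rfl | rfl | rfl
      · exact absurd rfl hm1
      · have e : a⁻¹ * u ^ 2 ^ 1 * a = a⁻¹ * (u * u) * a := by rw [pow_one, pow_two]
        have hb : a⁻¹ * (u * u) * a ∈ (T : Subgroup H) := e ▸ ha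
        rw [← h2 a hb]
        exact congrArg la (Subtype.ext e)
      · have e : a⁻¹ * u ^ 2 ^ 2 * a = 1 := by
          rw [show (2 : ℕ) ^ 2 = 4 from rfl, h4, mul_one, inv_mul_cancel]
        rw [← map_one la]
        exact congrArg la (Subtype.ext e))
    (Multiplicative.ofAdd (2 : ZMod 4)) (by decide) (fun a ha => hsq _ (h1 a ha))
    (Cfsg.Lib.Trans.commutator_le_ker_transfer (H := (T : Subgroup H)) la hu) R hR
    (fun r hr => (hc r hr).eq)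
  exact ⟨a, e2, ha, e1⟩

end Cfsg.Lib.L33E
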