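import Cfsg.Agent.L33E.Loc
import Cfsg.Agent.L33E.Mod
import Cfsg.Agent.L33E.Der
import Cfsg.Agent.L33E.Chk2

/-!
# The certified climb: truncation and small transports
-/

set_option autoImplicit false

namespace Cfsg.Lib.L33E

variable {G : Type*} [Group G] {M : Md} {gs : List G} {X : Subgroup G} {s : ℕ} {D : Tw} {E : Env}

theorem Sat.take (h : Sat D gs) (k : ℕ) : Sat (D.take k) (gs.take k) := by
  induction h with
  | nil => simpa using Sat.nil
  | @snoc D gs β sq g h h1 h2 h3 ih =>
    rcases le_or_gt k gs.length with e | e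
    · rwa [List.take_append_of_le_length e, List.take_append_of_le_length (h.len ▸ e)]
    · rw [List.take_of_length_le (by rw [List.length_append, ← h.len]; exact e),
        List.take_of_length_le (by simpa using e)]
      exact h.snoc h1 h2 h3

theorem Aux.evL_take (h : s ≤ gs.length) {x : ℕ} (hx : x < 2 ^ s) : evL (gs.take s) x = evL gs x := by
  conv_rhs => rw [← List.take_append_drop s gs]
  rw [evL_append_lt _ _ (by rwa [List.length_take_of_le h])]

theorem St.take (S : St X s D gs) : St X s (D.take s) (gs.take s) := by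
  have e : ∀ {x}, x < 32 → evL (gs.take s) x = evL gs x := fun hx =>
    Aux.evL_take S.sle (hx.trans_le (Nat.pow_le_pow_right two_pos S.s5))
  have e1 := e (x := 1) (by decide)
  refine ⟨e1 ▸ S.amb, S.sat.take s, S.s5, (List.length_take_of_le S.sle).ge, e1 ▸ S.t2,
    fun x hx => ?_, e1 ▸ S.big, fun c hc x y hx hy => ?_, ?_, ?_⟩
  · rw [e1, Aux.evL_take S.sle hx]; exact S.cen x hx
  · rw [Aux.evL_take S.sle hx, Aux.evL_take S.sle hy]; exact S.kap c (e1 ▸ hc) x y hx hy
  · simpa (disch := decide) only [List.map, e] using S.r1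
  · simpa (disch := decide) only [List.map, e] using S.r2

theorem loc0 [Finite G] {M0 : Md} {D0 : Tw} {xs : List ℕ} {Ls : List Lv} {outs : List (List ℕ)}
    {m : ℕ} (h : chkLoc M0 ⟨s, 0, [], []⟩ xs Ls outs m = true) (ok : chkMd M0 D0 = true)
    (S : St X s D gs) (e : D.take s = D0) :
    SC (xs.map (evL gs)) ∧ NB ([1].map (evL gs)) (xs.map (evL gs)) m := by
  have S' := S.take
  have C := ch_of ok (e ▸ S'.sat)
  have := loc (E := ⟨s, 0, [], []⟩) S' C ⟨S'.kap, xp0 _, trivial, trivial⟩ h
  simp only [chkLoc, Bool.and_eq_true, frc_eq] at h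
  have hb := (Loc.dfs_bnd h.2).1
  rw [C.pow, ← C.len, List.length_take_of_le S.sle] at hb
  rwa [List.map_congr_left fun x hx => Aux.evL_take S.sle (hb x hx), List.map_congr_left
    (l := [1]) fun x hx => Aux.evL_take S.sle (by
      rw [List.mem_singleton.1 hx]; exact Nat.one_lt_two_pow (by have := S.s5; omega))] at this

theorem CF.fus {x v Z : ℕ} (h : CF gs (x, Z)) (hc : IsConj (evL gs x) (evL gs v)) :
    CF gs (v, Z) := fun g y hy e => by
  obtain ⟨c, hc⟩ := isConj_iff.1 hc
  exact h (c⁻¹ * g) y hy (by rw [← e, ← hc]; group)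

theorem St.nb1 (S : St X s D gs) {y : ℕ} (h : FusC gs ([1], [y])) (xs : List G) :
    NB ([y].map (evL gs)) xs (2 ^ s) := fun U hU hc _ =>
  NB.fus (xs := []) (ys := []) (S.nb0 _) h U hU hc (by simp)

theorem Syl.nb [Finite G] (C : Ch M gs) (hs : Syl gs) (xs : List G) :
    NB (([] : List ℕ).map (evL gs)) xs M.N := fun U hU _ _ => by
  have : Fact (Nat.Prime 2) := ⟨Nat.prime_two⟩
  obtain ⟨T, hT⟩ := hs
  obtain ⟨Q, hQ⟩ := hU.exists_le_sylow
  rw [C.pow, ← C.card, ← hT, Nat.card_congr (T.equiv Q).toEquiv]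
  exact Subgroup.card_le_of_le hQ

end Cfsg.Lib.L33E
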