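import Cfsg.Agent.L33E.BasC

/-!
# The certified climb: soundness of the tests on candidates
-/

set_option autoImplicit false

namespace Cfsg.Lib.L33E

variable {G : Type*} [Group G] {M : Md} {gs : List G} {s : ℕ} {E : Env}

theorem conj_eq_iff (g : G) {a b : G} : g⁻¹ * a * g = g⁻¹ * b * g ↔ a = b := by simp

theorem conj_mul' (g a b : G) : g⁻¹ * a * g * (g⁻¹ * b * g) = g⁻¹ * (a * b) * g := by group

theorem NB.conj2 [Finite G] {a b a' b' g : G} {m : ℕ} (h : NB [a, b] [] m) (ea : g⁻¹ * a * g = a')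
    (eb : g⁻¹ * b * g = b') {U : Subgroup G} (hU : IsPGroup 2 U) (ha : ∀ u ∈ U, Commute u a')
    (hb : ∀ u ∈ U, Commute u b') : Nat.card U ≤ m := by
  rw [← Subgroup.card_map_of_injective (f := (MulAut.conj g).toMonoidHom) (MulAut.conj g).injective]
  refine h _ (hU.map _) ?_ fun _ _ _ hx => by simp at hx
  rintro _ ⟨u, hu, rfl⟩
  have : ∀ {c c'}, g⁻¹ * c * g = c' → Commute u c' → Commute ((MulAut.conj g).toMonoidHom u) c :=
    fun e h => by simpa [← e, mul_assoc] using h.map (MulAut.conj g).toMonoidHom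
  simpa using ⟨this ea (ha u hu), this eb (hb u hu)⟩

theorem Ch.kap (C : Ch M gs) (hK : Kap s gs) {g : G} {a b b' w : ℕ} (ha : a < M.N) (hb' : b' < M.N)
    (hw : w < M.N) (ea : g⁻¹ * evL gs 1 * g = evL gs a) (eb : g⁻¹ * evL gs b * g = evL gs b')
    (h1 : M.cj a w = 1) (hb : b < 2 ^ s) :
    (Nat.ble (pw s) (M.cj b' w) || Nat.beq (Nat.land (M.cj b' w) 33) (Nat.land b 33)) = true := by
  rw [Bool.or_eq_true, Nat.ble_eq, Nat.beq_eq, pw_eq, or_iff_not_imp_left, not_le]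
  intro h
  refine (hK (g * evL gs w) ?_ _ _ hb h (by rw [C.cj_eq hb' hw, ← eb]; group)).symm
  have := C.cj_eq ha hw
  rw [h1, ← ea] at this
  calc g * evL gs w * evL gs 1 = g * evL gs w * ((evL gs w)⁻¹ * (g⁻¹ * evL gs 1 * g) * evL gs w) := by
        rw [← this]
    _ = _ := by group

theorem getD_mem {α : Type} {l : List α} {i : ℕ} (h : i < l.length) (d : α) : l.getD i d ∈ l := by
  rw [List.getD_eq_getElem _ _ h]
  exact List.getElem_mem _

theorem tst_sound [Finite G] (C : Ch M gs) (hE : EnvOK E gs) {g : G} {x0 y0 A B x A' B' y : ℕ}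
    {P0 : List ℕ} {t : Tst} (_hx0 : x0 < M.N) (_hy0 : y0 < M.N) (hA : A < M.N) (hB : B < M.N)
    (hx : x < M.N) (hA' : A' < M.N) (hB' : B' < M.N) (hy : y < M.N)
    (e0 : g⁻¹ * evL gs x0 * g = evL gs y0) (eA : g⁻¹ * evL gs A * g = evL gs A')
    (eB : g⁻¹ * evL gs B * g = evL gs B') (e : g⁻¹ * evL gs x * g = evL gs y)
    (hP : P0.Nodup ∧ ∀ u ∈ P0, u < M.N ∧ Commute (evL gs u) (evL gs y0))
    (hs : srcT M E x0 t A B x = true) (k : (ℕ → Bool) → Bool) :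
    ∃ p : ℕ → Bool, tstK M E P0 t A' B' k = k p ∧ p y = true := by
  obtain ⟨hK, hX, hC, hN⟩ := hE
  have hv := C.lt _ _ hx hA
  have hv' := C.lt _ _ hy hA'
  have ev : g⁻¹ * evL gs (M.mul x A) * g = evL gs (M.mul y A') := by
    rw [C.mul _ _ hx hA, C.mul _ _ hy hA', ← e, ← eA, conj_mul']
  have q1 : Nat.beq (M.mul y A') B' = Nat.beq (M.mul x A) B := by
    rw [Bool.eq_iff_iff, C.beq_iff hv' hB', C.beq_iff hv hB, ← ev, ← eB, conj_eq_iff]
  have q2 : Nat.beq (M.mul (M.mul y A') (M.mul y A')) B' =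
      Nat.beq (M.mul (M.mul x A) (M.mul x A)) B := by
    rw [Bool.eq_iff_iff, C.beq_iff (C.lt _ _ hv' hv') hB', C.beq_iff (C.lt _ _ hv hv) hB,
      C.mul _ _ hv' hv', C.mul _ _ hv hv, ← ev, ← eB, conj_mul', conj_eq_iff]
  have hN2 : M.N = 2 ^ gs.length := C.len ▸ C.pow
  obtain ⟨kk, a, b, c⟩ := t
  match kk, hs with
  | 0, hs =>
    refine ⟨fun y => Nat.beq (M.inv (M.mul y A')) (M.mul (M.inv y) (M.inv B')), rfl, ?_⟩
    have := (C.cjT_iff hA hB hx).1 hs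
    rw [C.cjT_iff hA' hB' hy, ← e, ← eA, ← eB, conj_mul', conj_mul', this]
  | 1, hs => exact ⟨fun y => Nat.beq (M.mul (M.mul y A') (M.mul y A')) B', rfl, q2.trans hs⟩
  | 2, hs => exact ⟨fun y => !Nat.beq (M.mul y A') B', rfl, (congrArg (!·) q1).trans hs⟩
  | 3, hs =>
    exact ⟨fun y => !Nat.beq (M.mul (M.mul y A') (M.mul y A')) B', rfl, (congrArg (!·) q2).trans hs⟩
  | 4, hs =>
    replace hs : (Nat.blt c E.cf.length && Nat.beq (E.cf.getD c (0, 0)).1 (M.mul x A)) = true := hs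
    rw [Bool.and_eq_true, Nat.blt_eq, Nat.beq_eq] at hs
    exact ⟨fun y => bit (E.cf.getD c (0, 0)).2 (M.mul y A'), rfl,
      AllL_iff.1 hC _ (getD_mem hs.1 _) g _ (hN2 ▸ hv') (hs.2 ▸ ev)⟩
  | 5, hs =>
    replace hs : (Nat.beq B 1 && Nat.blt (M.mul x A) (pw E.s) &&
      Nat.beq (Nat.land (M.mul x A) 33) c) = true := hs
    simp only [Bool.and_eq_true, Nat.blt_eq, Nat.beq_eq, pw_eq] at hs
    obtain ⟨⟨rfl, h2⟩, rfl⟩ := hs
    change ∃ p : ℕ → Bool, cond (Nat.beq (M.cj B' (l1 M.W B')) 1) (k fun y =>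
      Nat.ble (pw E.s) (M.cj (M.mul y A') (l1 M.W B')) || Nat.beq (Nat.land (M.cj (M.mul y A')
        (l1 M.W B')) 33) (Nat.land (M.mul x A) 33)) (k fun _ => true) = k p ∧ p y = true
    cases h : Nat.beq (M.cj B' (l1 M.W B')) 1
    · exact ⟨_, rfl, rfl⟩
    · exact ⟨_, rfl, C.kap hK hB' hv' (C.wlt _ hB') eB ev (Nat.eq_of_beq_eq_true h) h2⟩
  | 6, hs =>
    replace hs : Nat.beq (par (Nat.land (M.mul x A) E.c)) c = true := hs
    refine ⟨fun y => Nat.beq (par (Nat.land (M.mul y A') E.c)) c, rfl, ?_⟩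
    rwa [hX g _ _ (hN2 ▸ hv) (hN2 ▸ hv') ev] at hs
  | 7, hs =>
    replace hs : (Nat.beq (M.mul x A) 1 && Nat.blt B (pw E.s) &&
      Nat.beq (Nat.land B 33) c) = true := hs
    simp only [Bool.and_eq_true, Nat.blt_eq, Nat.beq_eq, pw_eq] at hs
    obtain ⟨⟨h1, h2⟩, rfl⟩ := hs
    refine ⟨fun y => !Nat.beq (M.cj (M.mul y A') (l1 M.W (M.mul y A'))) 1 ||
      (Nat.ble (pw E.s) (M.cj B' (l1 M.W (M.mul y A'))) || Nat.beq (Nat.land (M.cj B'
        (l1 M.W (M.mul y A'))) 33) (Nat.land B 33)), rfl, ?_⟩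
    cases h : Nat.beq (M.cj (M.mul y A') (l1 M.W (M.mul y A'))) 1
    · simp only [h, Bool.not_false, Bool.true_or]
    · simp only [C.kap hK hv' hB' (C.wlt _ hv') (h1 ▸ ev) eB (Nat.eq_of_beq_eq_true h) h2,
        Bool.or_true]
  | 8, hs =>
    replace hs : (Nat.blt c E.nb.length && Nat.beq (E.nb.getD c (0, 0, 0)).1 x0 &&
      Nat.beq (E.nb.getD c (0, 0, 0)).2.1 (M.mul x A)) = true := hs
    simp only [Bool.and_eq_true, Nat.blt_eq, Nat.beq_eq] at hs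
    obtain ⟨⟨h1, h2⟩, h3⟩ := hs
    refine ⟨fun y => Nat.ble (cntL (fun u => Nat.beq (M.inv (M.mul u (M.mul y A')))
      (M.mul (M.inv u) (M.inv (M.mul y A')))) P0) (E.nb.getD c (0, 0, 0)).2.2, rfl, ?_⟩
    have := AllL_iff.1 hN _ (getD_mem h1 (0, 0, 0))
    simp only [h2, h3] at this
    simp only [Nat.ble_eq, cntL_eq]
    refine le_trans (C.le_card (U := gen gs ⊓ (Subgroup.centralizer {evL gs y0} ⊓
      Subgroup.centralizer {evL gs (M.mul y A')})) (hP.1.filter _) fun u hu => ?_)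
      (this.conj2 e0 ev C.isP.to_inf_left
        (fun u hu => Subgroup.mem_centralizer_singleton_iff.1 hu.2.1)
        fun u hu => Subgroup.mem_centralizer_singleton_iff.1 hu.2.2)
    obtain ⟨h4, h5⟩ := List.mem_filter.1 hu
    obtain ⟨h6, h7⟩ := hP.2 u h4
    exact ⟨h6, evL_mem _ _, Subgroup.mem_centralizer_singleton_iff.2 h7,
      Subgroup.mem_centralizer_singleton_iff.2 ((C.cjT_iff hv' hv' h6).1 h5)⟩
  | n + 9, hs =>
    replace hs : Nat.beq (M.sig (M.mul x A)) c = true := hs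
    refine ⟨fun y => Nat.beq (M.sig (M.mul y A')) c, rfl, ?_⟩
    rwa [C.sig_eq hv hv' (isConj_iff.2 ⟨g⁻¹, by rw [inv_inv, ev]⟩)] at hs

end Cfsg.Lib.L33E
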